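import Mathlib
import Cfsg.Prelude.Def_Blocks
import Cfsg.Agent.Lib.Helper74.McKayDefs
import Cfsg.Agent.Lib.Helper16.RootConj
import Cfsg.Agent.Lib.Helper16.SylowBlocks

/-!
# Blocks with a Sylow defect group of prime order and degrees prime to `p`

For a Sylow `p`-subgroup `P` of order `p`: the block of an irreducible character of degree
prime to `p` has defect group `P`, and conversely every member of a block with defect group
`P` has degree prime to `p`.
-/

set_option autoImplicit false

namespace Cfsg.Agent.Lib.Helper74.McKayAB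

open Cfsg Cfsg.Agent.Lib.Helper74.McKayDefs

universe u
variable {G : Type u} [Group G]

theorem factorization_card_eq_one [Finite G] (p : ℕ) [Fact p.Prime] (P : Sylow p G)
    (hP : Nat.card P = p) : (Nat.card G).factorization p = 1 := by
  have hp : p.Prime := Fact.out
  have h1 := P.card_eq_multiplicity
  rw [hP] at h1
  have h2 : p ^ 1 = p ^ (Nat.card G).factorization p := by rw [pow_one]; exact h1
  exact (Nat.pow_right_injective hp.two_le h2).symm

theorem blockDefect_eq_one [Finite G] (p : ℕ) [Fact p.Prime] (M : Ideal AlgInt)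
    (hM : IsPModular p M) (P : Sylow p G) (hP : Nat.card P = p)
    (B : Set (IrrCharacter G)) (hB : IsPBlock M B)
    (hBP : IsDefectGroup p M B (P : Subgroup G)) : blockDefect p B = 1 := by
  have hp : p.Prime := Fact.out
  have h1 := Cfsg.Agent.Lib.Helper16.Defect.card_defectGroup p hM B hB (P : Subgroup G) hBP
  have h1' : Nat.card (P : Subgroup G) = p := hP
  rw [h1'] at h1
  have h2 : p ^ 1 = p ^ blockDefect p B := by rw [pow_one]; exact h1
  exact (Nat.pow_right_injective hp.two_le h2).symm

/-- [B] -/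
theorem not_dvd_of_isDefectGroup [Finite G] (p : ℕ) [Fact p.Prime] (M : Ideal AlgInt)
    (hM : IsPModular p M) (P : Sylow p G) (hP : Nat.card P = p)
    (B : Set (IrrCharacter G)) (hB : IsPBlock M B)
    (hBP : IsDefectGroup p M B (P : Subgroup G)) (χ : IrrCharacter G) (hχ : χ ∈ B) :
    ¬ p ∣ charDegree (χ : G → ℂ) := by
  intro hdvd
  have hp : p.Prime := Fact.out
  have hMp : M.IsPrime := Cfsg.Agent.Lib.Helper77.LocalRing.isPrime_of_isPModular hM
  have hd1 := blockDefect_eq_one p M hM P hP B hB hBP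
  have hG1 := factorization_card_eq_one p P hP
  have hpos : 0 < charDegree (χ : G → ℂ) := Cfsg.Agent.Lib.CT.Wedderburn.irr_charDegree_pos χ.2
  have hle := Cfsg.Agent.Lib.CT.DefectZeroBlock.factorization_charDegree_le p χ
  have hge : 1 ≤ (charDegree (χ : G → ℂ)).factorization p :=
    (hp.dvd_iff_one_le_factorization hpos.ne').mp hdvd
  have heq : (charDegree (χ : G → ℂ)).factorization p = (Nat.card G).factorization p := by
    omega
  have hsing := Cfsg.Agent.Lib.CT.DefectZeroBlock.blockOf_eq_singleton_of_defect_zero hM χ heq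
  have hBeq := Cfsg.Agent.Lib.CT.DefectZeroBlock.eq_blockOf_of_mem hMp hB hχ
  rw [hsing] at hBeq
  have h0 : blockDefect p B = 0 := by
    rw [Cfsg.Agent.Lib.CT.DefectZeroBlock.blockDefect_eq_zero_iff p B ⟨χ, hχ⟩]
    intro ψ hψ
    rw [hBeq] at hψ
    rw [Set.mem_singleton_iff] at hψ
    rw [hψ]
    exact heq
  omega

/-- [A] -/
theorem isDefectGroup_of_not_dvd [Finite G] (p : ℕ) [Fact p.Prime] (M : Ideal AlgInt)
    (hM : IsPModular p M) (P : Sylow p G) (hP : Nat.card P = p) (χ : IrrCharacter G)
    (hχ : ¬ p ∣ charDegree (χ : G → ℂ)) :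
    IsDefectGroup p M (blockOf M (χ : G → ℂ)) (P : Subgroup G) := by
  have hp : p.Prime := Fact.out
  have hMp : M.IsPrime := Cfsg.Agent.Lib.Helper77.LocalRing.isPrime_of_isPModular hM
  have hB := Cfsg.Agent.Lib.CT.DefectZeroBlock.isPBlock_blockOf (M := M) χ
  obtain ⟨D, hD⟩ := Cfsg.Agent.Lib.Helper16.MinMax.exists_defectGroup hM _ hB
  have hcard := Cfsg.Agent.Lib.Helper16.Defect.card_defectGroup p hM _ hB D hD
  have hG1 := factorization_card_eq_one p P hP
  have hχmem : χ ∈ blockOf M (χ : G → ℂ) :=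
    Cfsg.Agent.Lib.Helper77.DefectClass.self_mem_blockOf hMp χ
  have hd1 : blockDefect p (blockOf M (χ : G → ℂ)) = 1 := by
    unfold blockDefect
    have h0 : sInf ((fun χ : IrrCharacter G => (charDegree (χ : G → ℂ)).factorization p) ''
        (blockOf M (χ : G → ℂ))) = 0 := by
      rw [Nat.sInf_eq_zero]
      left
      exact ⟨χ, hχmem, Nat.factorization_eq_zero_of_not_dvd hχ⟩
    rw [h0, hG1]
  rw [hd1, pow_one] at hcard
  have hDp : IsPGroup p D := IsPGroup.of_card (n := 1) (by rw [pow_one]; exact hcard)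
  obtain ⟨Q, hQ⟩ := hDp.exists_le_sylow
  have hQcard : Nat.card (Q : Subgroup G) = p := by
    have := Q.card_eq_multiplicity
    rw [hG1, pow_one] at this
    exact this
  have hDQ : D = (Q : Subgroup G) :=
    Subgroup.eq_of_le_of_card_ge hQ (by rw [hQcard, hcard])
  obtain ⟨g, hg⟩ := MulAction.exists_smul_eq G Q P
  have h3 := Cfsg.Agent.Lib.Helper16.MinMax.isDefectGroup_conj hD g
  have h4 : D.map (MulAut.conj g).toMonoidHom = (P : Subgroup G) := by
    rw [← hg, hDQ]
    rfl
  rw [h4] at h3
  exact h3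

end Cfsg.Agent.Lib.Helper74.McKayAB
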