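import Mathlib
import Cfsg.Prelude.Def_Blocks
import Cfsg.Agent.Lib.CT.Wedderburn
import Cfsg.Agent.Lib.CT.Ops
import Cfsg.Agent.Lib.CT.Kernel
import Cfsg.Agent.Lib.Helper74.BLCore
import Cfsg.Agent.Lib.Helper80.DefOneLoc
import Cfsg.Agent.Lib.Helper81.BrT2
import Cfsg.Agent.Lib.Helper49.BrR3
import Cfsg.Agent.Lib.Helper49.BrR5
import Cfsg.Agent.Lib.Helper1.BrR1
import Cfsg.Agent.Lib.Helper93.BrauerB0
import Cfsg.Agent.Lib.Helper81.BrA1
import Cfsg.Agent.Lib.Helper74.BrauerT1

/-!
# Brauer's theorem: a faithful character has degree at least `(p - 1) / 2`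

If `p` divides `|G|` exactly once and `G` has no normal subgroup of order `p`, then every
faithful character of `G` has degree at least `(p - 1) / 2`.
-/

set_option autoImplicit false
set_option linter.style.haveILetI false

namespace Cfsg.Agent.Lib.Helper74.BrauerMain

open Cfsg Cfsg.Agent.Lib.CT Cfsg.Agent.Lib.CT.Wedderburn Cfsg.Agent.Lib.CT.Ops
open scoped ComplexConjugate

universe u
variable {G : Type u} [Group G]

/-- The core: if `G` is the normal closure of a Sylow `p`-subgroup `P` of order `p`, then every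
irreducible character of degree less than `(p - 1) / 2` has absolute value equal to its degree
on `P`. -/
theorem core [Finite G] (p : ℕ) [Fact p.Prime] (P : Sylow p G) (hP : Nat.card P = p)
    (hgen : Subgroup.normalClosure ((P : Subgroup G) : Set G) = ⊤)
    (ξ : IrrCharacter G) (hdeg : 2 * charDegree (ξ : G → ℂ) + 1 < p) :
    ∀ x : G, x ∈ (P : Subgroup G) → ‖(ξ : G → ℂ) x‖ = ((ξ : G → ℂ) 1).re := by
  classical
  have hp : p.Prime := Fact.out
  letI : Fintype G := Fintype.ofFinite G
  have hξc : IsCharacter G (ξ : G → ℂ) := isCharacter_of_irr ξ.2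
  have hdegc : (charDegree (ξ : G → ℂ) : ℂ) = (ξ : G → ℂ) 1 := char_natCast_charDegree hξc
  have hdpos : 0 < charDegree (ξ : G → ℂ) := irr_charDegree_pos ξ.2
  rcases Cfsg.Agent.Lib.Helper74.BrauerT1.small_degree_type p P hP ξ hdeg with h1 | ⟨hfle, hnorm, ψ₀, hψ₀, hsupp⟩
  · intro x hx
    rw [h1 x hx, ← hdegc]
    simp
  · intro x hx
    have hfp : 2 * (Subgroup.centralizer ((P : Subgroup G) : Set G)).relIndex
        (Subgroup.normalizer ((P : Subgroup G) : Set G)) + 1 < p := by omega
    have hf0 : (Subgroup.centralizer ((P : Subgroup G) : Set G)).relIndex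
        (Subgroup.normalizer ((P : Subgroup G) : Set G)) ≠ 0 := Subgroup.index_ne_zero_of_finite
    have hodd : p ≠ 2 := by omega
    obtain ⟨χb, hreg, hab⟩ :=
      Cfsg.Agent.Lib.Helper81.BrT2.exists_pconj p P hP ξ hfp ψ₀ hψ₀ hsupp
    have hne : ξ ≠ χb := by
      intro h
      have h1 := hab 1 (one_mem _)
      rw [← h] at h1
      have hfin : ((P : Subgroup G) : Set G).Finite := Set.toFinite _
      rw [finsum_mem_eq_finite_toFinset_sum _ hfin] at h1
      have hterm : ∀ u ∈ hfin.toFinset, (0 : ℝ) ≤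
          (((ξ : G → ℂ) (u * 1) * conj ((ξ : G → ℂ) (u * 1))).re) := by
        intro u _
        rw [Complex.mul_conj]
        simp only [Complex.ofReal_re]
        exact Complex.normSq_nonneg _
      have h2 := congrArg Complex.re h1
      rw [Complex.re_sum, Complex.zero_re] at h2
      have h3 := (Finset.sum_eq_zero_iff_of_nonneg hterm).mp h2 1 (by simp)
      rw [mul_one, Complex.mul_conj] at h3
      simp only [Complex.ofReal_re] at h3
      have h4 : (ξ : G → ℂ) 1 = 0 := Complex.normSq_eq_zero.mp h3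
      rw [← hdegc] at h4
      have : charDegree (ξ : G → ℂ) = 0 := by exact_mod_cast h4
      omega
    obtain ⟨X, Y, ε, ε', hX, hXY, hε, hε', hXsing, hYsing, hreg', hYavg⟩ :=
      Cfsg.Agent.Lib.Helper93.BrauerB0.b0_structure p hodd P hP
    have hf1 := Cfsg.Agent.Lib.Helper81.BrA1.core_count p P hP hgen ξ χb hne hreg hab _ hnorm hfp X Y ε ε' hX hXY hε
      hε' hXsing hYsing hreg' hYavg
    letI : Fintype ↥(Subgroup.centralizer ((P : Subgroup G) : Set G)) := Fintype.ofFinite _
    have hres : IsCharacter ↥(Subgroup.centralizer ((P : Subgroup G) : Set G))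
        (fun c : ↥(Subgroup.centralizer ((P : Subgroup G) : Set G)) => (ξ : G → ℂ) (c : G)) :=
      isCharacter_restrict _ hξc
    have hn1 : classInner
        (fun c : ↥(Subgroup.centralizer ((P : Subgroup G) : Set G)) => (ξ : G → ℂ) (c : G))
        (fun c : ↥(Subgroup.centralizer ((P : Subgroup G) : Set G)) => (ξ : G → ℂ) (c : G))
        = 1 := by
      unfold classInner
      have e : ∑ᶠ c ∈ ((Subgroup.centralizer ((P : Subgroup G) : Set G) : Subgroup G) : Set G),
          (ξ : G → ℂ) c * conj ((ξ : G → ℂ) c) =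
          ∑ c : ↥(Subgroup.centralizer ((P : Subgroup G) : Set G)),
            (ξ : G → ℂ) (c : G) * conj ((ξ : G → ℂ) (c : G)) := by
        rw [← finsum_set_coe_eq_finsum_mem, finsum_eq_sum_of_fintype]
        rfl
      have hCne : (Nat.card ↥(Subgroup.centralizer ((P : Subgroup G) : Set G)) : ℂ) ≠ 0 :=
        Nat.cast_ne_zero.mpr Nat.card_pos.ne'
      rw [← e, hnorm, hf1, Nat.cast_one, one_mul, inv_mul_cancel₀ hCne]
    have hirr : IsIrrCharacter ↥(Subgroup.centralizer ((P : Subgroup G) : Set G))
        (fun c : ↥(Subgroup.centralizer ((P : Subgroup G) : Set G)) => (ξ : G → ℂ) (c : G)) := by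
      refine Cfsg.Agent.Lib.Helper74.BLCore.irr_of_norm_one ?_ hn1 (charDegree (ξ : G → ℂ))
        hdpos ?_
      · refine ⟨_, _, isCharacter_add hres hres, hres, ?_⟩
        funext c
        simp
      · show (ξ : G → ℂ) ((1 : ↥(Subgroup.centralizer ((P : Subgroup G) : Set G))) : G) = _
        rw [Subgroup.coe_one, hdegc]
    have hxC : x ∈ Subgroup.centralizer ((P : Subgroup G) : Set G) :=
      Cfsg.Agent.Lib.Helper80.DefOneLoc.le_centralizer P hP hx
    have hz : (⟨x, hxC⟩ : ↥(Subgroup.centralizer ((P : Subgroup G) : Set G))) ∈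
        Subgroup.center ↥(Subgroup.centralizer ((P : Subgroup G) : Set G)) := by
      rw [Subgroup.mem_center_iff]
      intro c
      apply Subtype.ext
      exact (Subgroup.mem_centralizer_iff.mp c.2 x hx).symm
    have hfin := Kernel.norm_eq_of_mem_center hirr hz
    exact hfin

/-- **Brauer**: if `p` divides `|G|` exactly once and `G` has no normal subgroup of order `p`,
then every faithful character of `G` has degree at least `(p - 1) / 2`. -/
theorem main [Finite G] (p : ℕ) (hp : p.Prime) (hdiv : p ∣ Nat.card G)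
    (hsq : ¬ p ^ 2 ∣ Nat.card G) (hnn : ∀ H : Subgroup G, H.Normal → Nat.card H ≠ p)
    (χ : G → ℂ) (hχ : IsCharacter G χ) (hfaith : ∀ g : G, χ g = χ 1 → g = 1) :
    p ≤ 2 * charDegree χ + 1 := by
  classical
  have hfact : Fact p.Prime := ⟨hp⟩
  by_contra hlt
  rw [not_le] at hlt
  obtain ⟨P⟩ : Nonempty (Sylow p G) := inferInstance
  have hG0 : Nat.card G ≠ 0 := Nat.card_pos.ne'
  have hν : (Nat.card G).factorization p = 1 := by
    have h1 : 1 ≤ (Nat.card G).factorization p :=
      (hp.pow_dvd_iff_le_factorization hG0).mp (by rw [pow_one]; exact hdiv)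
    have h2 : ¬ 2 ≤ (Nat.card G).factorization p := fun h =>
      hsq ((hp.pow_dvd_iff_le_factorization hG0).mpr h)
    omega
  have hP : Nat.card P = p := by
    have h := P.card_eq_multiplicity
    rw [hν, pow_one] at h
    exact h
  have hle : (P : Subgroup G) ≤ Subgroup.normalClosure ((P : Subgroup G) : Set G) :=
    Subgroup.le_normalClosure
  have hQcard : Nat.card (P.subtype hle : Sylow p ↥(Subgroup.normalClosure
      ((P : Subgroup G) : Set G))) = p := by
    have e : Nat.card ↥((P : Subgroup G).subgroupOf (Subgroup.normalClosure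
        ((P : Subgroup G) : Set G))) = Nat.card ↥(P : Subgroup G) :=
      Nat.card_congr (Subgroup.subgroupOfEquivOfLe hle).toEquiv
    exact e.trans hP
  have hgenQ := Cfsg.Agent.Lib.Helper1.BrR1.normalClosure_subtype_eq_top p P hle
  letI : Fintype ↥(Subgroup.normalClosure ((P : Subgroup G) : Set G)) := Fintype.ofFinite _
  have hχL : IsCharacter ↥(Subgroup.normalClosure ((P : Subgroup G) : Set G))
      (fun l : ↥(Subgroup.normalClosure ((P : Subgroup G) : Set G)) => χ (l : G)) :=
    isCharacter_restrict _ hχ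
  have hfaithL : ∀ l : ↥(Subgroup.normalClosure ((P : Subgroup G) : Set G)),
      (fun l : ↥(Subgroup.normalClosure ((P : Subgroup G) : Set G)) => χ (l : G)) l =
        (fun l : ↥(Subgroup.normalClosure ((P : Subgroup G) : Set G)) => χ (l : G)) 1 → l = 1 :=
    fun l h => Subtype.ext (hfaith _ h)
  have hdegL : charDegree (fun l : ↥(Subgroup.normalClosure ((P : Subgroup G) : Set G)) =>
      χ (l : G)) = charDegree χ := rfl
  have hcent : ∀ u : G, u ∈ (P : Subgroup G) → ∀ l : G,
      l ∈ Subgroup.normalClosure ((P : Subgroup G) : Set G) → u * l = l * u := by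
    intro u hu l hl
    have hcomm := Cfsg.Agent.Lib.Helper49.BrR3.comm_of_constituents
      (fun l : ↥(Subgroup.normalClosure ((P : Subgroup G) : Set G)) => χ (l : G)) hχL hfaithL
      ⟨u, hle hu⟩ ?_ ⟨l, hl⟩
    · exact congrArg Subtype.val hcomm
    · intro ξ hξ
      have hd := Cfsg.Agent.Lib.Helper49.BrR3.degree_le_of_constituent _ hχL ξ hξ
      rw [hdegL] at hd
      have hdeg : 2 * charDegree (ξ : ↥(Subgroup.normalClosure ((P : Subgroup G) : Set G)) → ℂ)
          + 1 < p := by omega
      refine core p (P.subtype hle) hQcard hgenQ ξ hdeg ⟨u, hle hu⟩ ?_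
      show (⟨u, hle hu⟩ : ↥(Subgroup.normalClosure ((P : Subgroup G) : Set G))) ∈
        (P : Subgroup G).subgroupOf (Subgroup.normalClosure ((P : Subgroup G) : Set G))
      rw [Subgroup.mem_subgroupOf]
      exact hu
  have hPn : (P : Subgroup G).Normal :=
    Cfsg.Agent.Lib.Helper49.BrR5.normal_of_central_in_normalClosure p P hcent
  exact hnn (P : Subgroup G) hPn hP

end Cfsg.Agent.Lib.Helper74.BrauerMain
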