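import Mathlib
import Cfsg.Agent.Lib.Helper25.ACStmt
import Cfsg.Agent.Lib.Helper25.ACOddStmt

set_option autoImplicit false

/-! # S3911 piece BURNA (helper74) -/

namespace Cfsg.Agent.Lib.Helper74.AOBURNA

open Cfsg.Agent.Lib.Helper25.ACStmt Cfsg.Agent.Lib.Helper25.ACOddStmt

universe u

theorem main : BurnA.{u} := by
  intro G _ _ p _ P hcyc M hM hPM hsup
  have := hM
  classical
  obtain ⟨x, hxs⟩ := hcyc.exists_zpow_surjective
  have hx : ∀ y : ↥(P : Subgroup G), y ∈ Subgroup.zpowers x := fun y => by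
    obtain ⟨k, hk⟩ := hxs y
    exact ⟨k, hk⟩
  -- every element of P is a power of x
  have hPx : ∀ y ∈ (P : Subgroup G), ∃ k : ℤ, (x : G) ^ k = y := by
    intro y hy
    obtain ⟨k, hk⟩ := hxs ⟨y, hy⟩
    refine ⟨k, ?_⟩
    have := congrArg (Subtype.val) hk
    simpa using this
  obtain ⟨m, hm⟩ := (IsPGroup.iff_card).1 P.isPGroup'
  have hord : orderOf (x : G) = p ^ m := by
    rw [Subgroup.orderOf_coe, orderOf_eq_card_of_forall_mem_zpowers hx, hm]
  -- x ∉ M
  have hxM : (x : G) ∉ M := by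
    intro h
    apply hPM
    intro y hy
    obtain ⟨k, rfl⟩ := hPx y hy
    exact zpow_mem h k
  intro g hg0
  have hg := hg0
  rw [Subgroup.mem_normalizer_iff] at hg
  -- g x g⁻¹ = x ^ a
  obtain ⟨a, ha⟩ := hPx (g * x * g⁻¹) ((hg x).1 x.2)
  -- x^(a-1) ∈ M
  have hxa : (x : G) ^ (a - 1) ∈ M := by
    have hgtop : g ∈ M ⊔ (P : Subgroup G) := hsup ▸ Subgroup.mem_top g
    have h2 : g ∈ ((M ⊔ (P : Subgroup G) : Subgroup G) : Set G) := hgtop
    rw [Subgroup.normal_mul] at h2
    obtain ⟨mm, hmm, y, hy, rfl⟩ := Set.mem_mul.1 h2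
    obtain ⟨k, rfl⟩ := hPx y hy
    have e : (x : G) ^ (a - 1) = mm * ((x : G) * mm⁻¹ * (x : G)⁻¹) := by
      rw [zpow_sub_one, ha]
      have hc : (x : G) ^ k * (x : G) * ((x : G) ^ k)⁻¹ = x := by
        rw [← zpow_add_one, ← zpow_neg, ← zpow_add]; simp
      calc mm * (x : G) ^ k * x * (mm * (x : G) ^ k)⁻¹ * (x : G)⁻¹
          = mm * ((x : G) ^ k * x * ((x : G) ^ k)⁻¹) * mm⁻¹ * (x : G)⁻¹ := by group
        _ = mm * ((x : G) * mm⁻¹ * (x : G)⁻¹) := by rw [hc]; group
    rw [e]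
    exact M.mul_mem hmm (hM.conj_mem _ (M.inv_mem hmm) _)
  have hpa : (p : ℤ) ∣ a - 1 := by
    by_contra hnd
    have hcop : IsCoprime (a - 1) ((p : ℤ) ^ m) := by
      apply IsCoprime.pow_right
      have hp : Prime (p : ℤ) := Nat.prime_iff_prime_int.1 (Fact.out)
      exact (hp.coprime_iff_not_dvd.2 hnd).symm
    obtain ⟨u, v, huv⟩ := hcop
    apply hxM
    have h1 : (x : G) ^ ((p : ℤ) ^ m) = 1 := by
      have h0 := pow_orderOf_eq_one (x : G)
      rw [hord] at h0
      rw [← h0, ← zpow_natCast]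
      push_cast
      rfl
    have h3 : (x : G) = ((x : G) ^ (a - 1)) ^ u := by
      calc (x : G) = (x : G) ^ (u * (a - 1) + v * (p : ℤ) ^ m) := by rw [huv, zpow_one]
        _ = ((x : G) ^ (a - 1)) ^ u := by
            rw [zpow_add, mul_comm u, zpow_mul, mul_comm v, zpow_mul, h1, one_zpow, mul_one]
    rw [h3]
    exact zpow_mem hxa u
  have hiter : ∀ n : ℕ, g ^ n * (x : G) * (g ^ n)⁻¹ = (x : G) ^ (a ^ n) := by
    intro n
    induction n with
    | zero => simp
    | succ n ih =>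
      calc g ^ (n + 1) * (x : G) * (g ^ (n + 1))⁻¹
          = g * (g ^ n * (x : G) * (g ^ n)⁻¹) * g⁻¹ := by
            rw [pow_succ']; group
        _ = g * (x : G) ^ (a ^ n) * g⁻¹ := by rw [ih]
        _ = (g * (x : G) * g⁻¹) ^ (a ^ n) := conj_zpow.symm
        _ = ((x : G) ^ a) ^ (a ^ n) := by rw [ha]
        _ = (x : G) ^ (a ^ (n + 1)) := by rw [← zpow_mul, pow_succ']
  have hgpm : g ^ (p ^ m) * (x : G) * (g ^ (p ^ m))⁻¹ = x := by
    rw [hiter]
    have hd : ((p : ℤ) ^ m) ∣ a ^ (p ^ m) - 1 := by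
      have h0 := dvd_sub_pow_of_dvd_sub (R := ℤ) (p := p) (a := a) (b := 1)
        (by simpa using hpa) m
      rw [one_pow] at h0
      exact Dvd.dvd.trans (pow_dvd_pow _ (Nat.le_succ m)) h0
    have h1 : (x : G) ^ (a ^ (p ^ m) - 1) = 1 := by
      apply (orderOf_dvd_iff_zpow_eq_one).1
      rw [hord]; exact_mod_cast hd
    calc (x : G) ^ (a ^ (p ^ m)) = (x : G) ^ ((a ^ (p ^ m) - 1) + 1) := by
          congr 1; ring
      _ = x := by rw [zpow_add_one, h1, one_mul]
  have hgC : g ^ (p ^ m) ∈ Subgroup.centralizer ((P : Subgroup G) : Set G) := by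
    rw [Subgroup.mem_centralizer_iff]
    intro y hy
    obtain ⟨k, rfl⟩ := hPx y hy
    have hcomm : g ^ (p ^ m) * (x : G) = (x : G) * g ^ (p ^ m) := by
      have h0 : g ^ (p ^ m) * (x : G)
          = (g ^ (p ^ m) * (x : G) * (g ^ (p ^ m))⁻¹) * g ^ (p ^ m) := by
        generalize g ^ (p ^ m) = h
        group
      rw [h0, hgpm]
    exact ((Commute.zpow_right (show Commute (g ^ (p ^ m)) (x : G) from hcomm) k).eq).symm
  -- P ≤ C
  have hPC : (P : Subgroup G) ≤ Subgroup.centralizer ((P : Subgroup G) : Set G) := by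
    intro y hy
    rw [Subgroup.mem_centralizer_iff]
    intro z hz
    obtain ⟨k, rfl⟩ := hPx y hy
    obtain ⟨l, rfl⟩ := hPx z hz
    rw [← zpow_add, ← zpow_add, add_comm]
  have hCN : Subgroup.centralizer ((P : Subgroup G) : Set G)
      ≤ Subgroup.normalizer ((P : Subgroup G) : Set G) :=
    Subgroup.centralizer_le_normalizer _
  have hPN : (P : Subgroup G) ≤ Subgroup.normalizer ((P : Subgroup G) : Set G) :=
    hPC.trans hCN
  have hcop : Nat.Coprime ((Subgroup.centralizer ((P : Subgroup G) : Set G)).relIndex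
      (Subgroup.normalizer ((P : Subgroup G) : Set G))) (p ^ m) := by
    apply Nat.Coprime.pow_right
    rw [Nat.coprime_comm, Nat.Prime.coprime_iff_not_dvd Fact.out]
    intro hdvd
    have h1 : (Subgroup.centralizer ((P : Subgroup G) : Set G)).relIndex
        (Subgroup.normalizer ((P : Subgroup G) : Set G)) ∣
        (P : Subgroup G).relIndex (Subgroup.normalizer ((P : Subgroup G) : Set G)) :=
      Dvd.intro_left _ (Subgroup.relIndex_mul_relIndex _ _ _ hPC hCN)
    have h2 : (P : Subgroup G).relIndex (Subgroup.normalizer ((P : Subgroup G) : Set G)) ∣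
        (P : Subgroup G).index := Dvd.intro _ (Subgroup.relIndex_mul_index hPN)
    exact P.not_dvd_index (hdvd.trans (h1.trans h2))
  have hgN : g ^ (Subgroup.centralizer ((P : Subgroup G) : Set G)).relIndex
      (Subgroup.normalizer ((P : Subgroup G) : Set G)) ∈
      Subgroup.centralizer ((P : Subgroup G) : Set G) := by
    have h0 := Subgroup.pow_index_mem ((Subgroup.centralizer ((P : Subgroup G) : Set G)).subgroupOf
      (Subgroup.normalizer ((P : Subgroup G) : Set G)))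
      (⟨g, hg0⟩ : ↥(Subgroup.normalizer ((P : Subgroup G) : Set G)))
    rw [Subgroup.mem_subgroupOf] at h0
    simpa [Subgroup.relIndex] using h0
  obtain ⟨u, v, huv⟩ := Nat.isCoprime_iff_coprime.2 hcop
  have e1 : (g ^ (Subgroup.centralizer ((P : Subgroup G) : Set G)).relIndex
      (Subgroup.normalizer ((P : Subgroup G) : Set G))) ^ u
      = g ^ (u * (((Subgroup.centralizer ((P : Subgroup G) : Set G)).relIndex
      (Subgroup.normalizer ((P : Subgroup G) : Set G)) : ℕ) : ℤ)) := by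
    rw [mul_comm, zpow_mul, zpow_natCast]
  have e2 : (g ^ (p ^ m)) ^ v = g ^ (v * ((p ^ m : ℕ) : ℤ)) := by
    rw [mul_comm, zpow_mul, zpow_natCast]
  have e3 : g = (g ^ (Subgroup.centralizer ((P : Subgroup G) : Set G)).relIndex
      (Subgroup.normalizer ((P : Subgroup G) : Set G))) ^ u * (g ^ (p ^ m)) ^ v := by
    rw [e1, e2, ← zpow_add, huv, zpow_one]
  rw [e3]
  exact Subgroup.mul_mem _ (Subgroup.zpow_mem _ hgN u) (Subgroup.zpow_mem _ hgC v)

end Cfsg.Agent.Lib.Helper74.AOBURNA
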