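import Mathlib
import Cfsg.Agent.Lib.Helper59.FxStmt

set_option autoImplicit false

namespace Cfsg.Agent.Lib.Helper74.FxCYCORB

universe u v

open Cfsg.Agent.Lib.Helper59.FxStmt

theorem unique_invol {C : Type*} [Group C] [Finite C] [IsCyclic C] {a b : C}
    (ha : orderOf a = 2) (hb : orderOf b = 2) : a = b := by
  classical
  have := Fintype.ofFinite C
  by_contra hab
  have h := IsCyclic.card_pow_eq_one_le (α := C) (n := 2) (by norm_num)
  have hsub : ({1, a, b} : Finset C) ⊆ Finset.univ.filter (fun x => x ^ 2 = 1) := by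
    intro x hx
    simp only [Finset.mem_insert, Finset.mem_singleton] at hx
    rw [Finset.mem_filter]
    refine ⟨Finset.mem_univ _, ?_⟩
    rcases hx with rfl | rfl | rfl
    · simp
    · rw [← ha]; exact pow_orderOf_eq_one _
    · rw [← hb]; exact pow_orderOf_eq_one _
  have ha1 : (1 : C) ≠ a := by
    intro h1; rw [← h1] at ha; simp at ha
  have hb1 : (1 : C) ≠ b := by
    intro h1; rw [← h1] at hb; simp at hb
  have hcard : ({1, a, b} : Finset C).card = 3 := by
    rw [Finset.card_insert_of_notMem, Finset.card_insert_of_notMem, Finset.card_singleton]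
    · simpa using hab
    · simp only [Finset.mem_insert, Finset.mem_singleton, not_or]
      exact ⟨ha1, hb1⟩
  have := Finset.card_le_card hsub
  omega

theorem exists_pow_invol {C : Type*} [Group C] (hp : IsPGroup 2 C) (y : C) (hy : y ≠ 1) :
    ∃ n : ℕ, orderOf (y ^ n) = 2 := by
  obtain ⟨k, hk⟩ := (IsPGroup.iff_orderOf.1 hp) y
  rcases Nat.eq_zero_or_pos k with h0 | hpos
  · exfalso
    rw [h0, pow_zero, orderOf_eq_one_iff] at hk
    exact hy hk
  · obtain ⟨j, rfl⟩ : ∃ j, k = j + 1 := ⟨k - 1, by omega⟩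
    refine ⟨2 ^ j, ?_⟩
    rw [orderOf_pow_of_dvd (by positivity) (by rw [hk]; exact pow_dvd_pow 2 (by omega)), hk,
      pow_succ, Nat.mul_div_cancel_left _ (by positivity)]

theorem main : Cfsg.Agent.Lib.Helper59.FxStmt.CycOrb.{u, v} := by
  intro G _ _ Ω _ S α β s hC hcyc ω hωα hωβ
  rw [eq_bot_iff]
  intro x hx
  rw [Subgroup.mem_bot]
  by_contra hx1
  obtain ⟨hxS, hxω⟩ := hx
  obtain ⟨t, ht, ht1⟩ : ∃ t ∈ S ⊓ MulAction.stabilizer G α, t ≠ 1 := by
    by_contra hcon
    push Not at hcon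
    exact hC.Tne ((Subgroup.eq_bot_iff_forall _).2 hcon)
  have htβ : t ∈ S ⊓ MulAction.stabilizer G β := by rw [hC.Tβ]; exact ht
  have hp2 : IsPGroup 2 ↥S := hC.p2
  obtain ⟨n, hn⟩ := exists_pow_invol hp2 (⟨x, hxS⟩ : ↥S)
    (by intro h; exact hx1 (congrArg Subtype.val h))
  obtain ⟨m, hm⟩ := exists_pow_invol hp2 (⟨t, ht.1⟩ : ↥S)
    (by intro h; exact ht1 (congrArg Subtype.val h))
  have heq := unique_invol hn hm
  have heq' : x ^ n = t ^ m := by simpa using congrArg Subtype.val heq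
  have hz1 : x ^ n ≠ 1 := by
    intro h
    have h2 : (⟨x, hxS⟩ : ↥S) ^ n = 1 := Subtype.ext (by simpa using h)
    rw [h2, orderOf_one] at hn
    omega
  have hzω : (x ^ n) • ω = ω := (MulAction.stabilizer G ω).pow_mem hxω n
  have hzα : (x ^ n) • α = α := by
    rw [heq']; exact (MulAction.stabilizer G α).pow_mem ht.2 m
  have hzβ : (x ^ n) • β = β := by
    rw [heq']; exact (MulAction.stabilizer G β).pow_mem htβ.2 m
  rcases hC.f3 (x ^ n) hz1 ω α β hzω hzα hzβ with h | h | h
  · exact hωα h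
  · exact hωβ h
  · exact hC.ne h

end Cfsg.Agent.Lib.Helper74.FxCYCORB
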