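import Mathlib
import Cfsg.Agent.Lib.Helper59.FxStmt

set_option autoImplicit false

namespace Cfsg.Agent.Lib.Helper74.FxNCYC

universe u v

open Cfsg.Agent.Lib.Helper59.FxStmt

theorem main (h : Sgn.{u}) : NCyc.{u, v} := by
  intro G _ _ Ω _ P α β s hC hidx hcyc
  classical
  have := Fintype.ofFinite G
  have hfact : Fact (Nat.Prime 2) := ⟨Nat.prime_two⟩
  set T : Subgroup G := (P : Subgroup G) ⊓ MulAction.stabilizer G α with hT
  set T' : Subgroup ↥(P : Subgroup G) := T.subgroupOf (P : Subgroup G) with hT'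
  have hT'idx : T'.index = 2 := hidx
  obtain ⟨gP, hgP⟩ := IsCyclic.exists_monoid_generator (α := ↥(P : Subgroup G))
  have hsq : gP ^ 2 ∈ T' := Subgroup.sq_mem_of_index_two hT'idx gP
  have hgT : gP ∉ T' := by
    intro hg
    have htop : T' = ⊤ := by
      rw [eq_top_iff]
      intro y _
      obtain ⟨j, rfl⟩ := hgP y
      exact T'.pow_mem hg j
    rw [htop, Subgroup.index_top] at hT'idx
    omega
  set g : G := (gP : G) with hg
  set m := Nat.card (P : Subgroup G) with hm
  have hord : orderOf g = m := by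
    rw [hg, Subgroup.orderOf_coe]
    refine orderOf_eq_card_of_forall_mem_zpowers (fun y => ?_)
    obtain ⟨j, hj⟩ := hgP y
    exact Subgroup.mem_zpowers_iff.2 ⟨j, by rw [zpow_natCast]; exact hj⟩
  have hmeven : Even m := by
    have h2 : 2 ∣ m := by
      rw [← hidx]; exact Subgroup.relIndex_dvd_card _ _
    exact even_iff_two_dvd.2 h2
  set ρ : Equiv.Perm G := MulAction.toPerm g with hρ
  have hρpow : ∀ j : ℕ, ρ ^ j = MulAction.toPerm (g ^ j) := by
    intro j
    have h1 := map_pow (MulAction.toPermHom G G) g j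
    rw [MulAction.toPermHom_apply, MulAction.toPermHom_apply] at h1
    exact h1.symm
  have hρm : ρ ^ m = 1 := by
    rw [hρpow, ← hord, pow_orderOf_eq_one]
    ext x
    simp
  have hfree : ∀ x : G, ρ x ≠ x → ∀ j : ℕ, (ρ ^ j) x = x → m ∣ j := by
    intro x _ j hj
    rw [hρpow] at hj
    have h1 : g ^ j * x = x := hj
    have h2 : g ^ j = 1 := by simpa using h1
    rw [← hord]
    exact orderOf_dvd_of_pow_eq_one h2
  have hsign := h ρ m hmeven hρm hfree
  have hg1 : g ≠ 1 := by
    intro h1
    rw [h1, orderOf_one] at hord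
    rw [← hord] at hmeven
    exact absurd hmeven (by decide)
  have hsupp : ρ.support = Finset.univ := by
    rw [Finset.eq_univ_iff_forall]
    intro x
    rw [Equiv.Perm.mem_support]
    intro hx
    have h1 : g * x = x := hx
    exact hg1 (by simpa using h1)
  have hmpos : 0 < m := Nat.card_pos
  have hodd : Odd (Fintype.card G / m) := by
    have hmul : m * (P : Subgroup G).index = Nat.card G := Subgroup.card_mul_index _
    have h1 : Fintype.card G / m = (P : Subgroup G).index := by
      rw [← Nat.card_eq_fintype_card, ← hmul]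
      exact Nat.mul_div_cancel_left _ hmpos
    rw [h1]
    exact Nat.not_even_iff_odd.1 (fun he => P.not_dvd_index (even_iff_two_dvd.1 he))
  have hsg : Equiv.Perm.sign ρ = -1 := by
    rw [hsign, hsupp, Finset.card_univ]
    exact hodd.neg_one_pow
  set f : G →* ℤˣ := Equiv.Perm.sign.comp (MulAction.toPermHom G G) with hf
  have hfg : f g = -1 := hsg
  have hfpow : ∀ j : ℕ, f (g ^ j) = (-1) ^ j := by
    intro j
    rw [map_pow, hfg]
  have hne : (-1 : ℤˣ) ≠ 1 := by decide
  refine ⟨f.ker, MonoidHom.normal_ker f, ?_, ?_, ?_⟩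
  · rw [Subgroup.index_ker]
    have hsurj : Function.Surjective f := by
      intro u
      rcases Int.units_eq_one_or u with rfl | rfl
      · exact ⟨1, map_one f⟩
      · exact ⟨g, hfg⟩
    rw [MonoidHom.range_eq_top.2 hsurj, Subgroup.card_top, Nat.card_eq_fintype_card,
      Fintype.card_units_int]
  · intro x hx
    have hxP : x ∈ (P : Subgroup G) := hx.1
    obtain ⟨j, hj⟩ := hgP ⟨x, hxP⟩
    replace hj : gP ^ j = ⟨x, hxP⟩ := hj
    have hxj : x = g ^ j := by
      have h1 := congrArg Subtype.val hj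
      simpa using h1.symm
    have hjeven : Even j := by
      by_contra hodd'
      rw [Nat.not_even_iff_odd] at hodd'
      obtain ⟨k, rfl⟩ := hodd'
      have h1 : gP ^ (2 * k + 1) ∈ T' := by
        rw [hj]; exact Subgroup.mem_subgroupOf.2 hx
      rw [pow_succ, pow_mul] at h1
      exact hgT ((Subgroup.mul_mem_cancel_left T' (T'.pow_mem hsq k)).1 h1)
    rw [MonoidHom.mem_ker, hxj, hfpow]
    exact hjeven.neg_one_pow
  · intro x hxP hxN
    obtain ⟨j, hj⟩ := hgP ⟨x, hxP⟩
    replace hj : gP ^ j = ⟨x, hxP⟩ := hj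
    have hxj : x = g ^ j := by
      have h1 := congrArg Subtype.val hj
      simpa using h1.symm
    rw [MonoidHom.mem_ker, hxj, hfpow] at hxN
    have hjeven : Even j := (neg_one_pow_eq_one_iff_even hne).1 hxN
    obtain ⟨k, rfl⟩ := hjeven
    have h1 : gP ^ (k + k) ∈ T' := by
      rw [← two_mul, pow_mul]; exact T'.pow_mem hsq k
    rw [hj] at h1
    exact (Subgroup.mem_subgroupOf.1 h1).2

end Cfsg.Agent.Lib.Helper74.FxNCYC
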