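import Mathlib
import Cfsg.Agent.Lib.Helper59.FxStmt

set_option autoImplicit false

namespace Cfsg.Agent.Lib.Helper74.FxORD4

universe u

theorem main : Cfsg.Agent.Lib.Helper59.FxStmt.Ord4.{u} := by
  intro S _ _ hcard
  by_cases hc : IsCyclic S
  · exact Or.inl hc
  · right
    have hexp : Monoid.exponent S = 2 :=
      (not_isCyclic_iff_exponent_eq_prime Nat.prime_two (by rw [hcard]; norm_num)).1 hc
    have : IsKleinFour S := ⟨hcard, hexp⟩
    exact IsKleinFour.nonempty_mulEquiv

end Cfsg.Agent.Lib.Helper74.FxORD4
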