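import Mathlib
import Cfsg.Agent.Lib.Helper44.GAStmt
import Cfsg.Agent.Lib.Helper44.MaxTS3

/-!
# S2718, piece NEG: a similarity with `g² = -μ(g)` preserves the two classes
-/

set_option autoImplicit false

namespace Cfsg.Agent.Lib.Helper74.GANEG

open Matrix Module QuadraticMap
open Cfsg.Agent.Lib.Helper43.OPlAut Cfsg.Agent.Lib.Helper45.OmegaAut
open Cfsg.Agent.Lib.Helper44.OFld0 Cfsg.Agent.Lib.Helper44.OFld1
  Cfsg.Agent.Lib.Helper44.OFldStmt Cfsg.Agent.Lib.Helper44.GFStmt
open Cfsg.Agent.Lib.Helper44.MaxTS Cfsg.Agent.Lib.Helper44.NegPairs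
  Cfsg.Agent.Lib.Helper44.QSpace Cfsg.Agent.Lib.Helper44.MaxTS3
  Cfsg.Agent.Lib.Helper44.GAStmt

universe u

/-- The corank of the radical of an alternating form is even (characteristic not `2`). -/
theorem even_sub_rad {F : Type*} [Field F] {W : Type*} [AddCommGroup W] [Module F W]
    [FiniteDimensional F W]
    (h2 : (2 : F) ≠ 0) (B : W →ₗ[F] W →ₗ[F] F) (hB : ∀ x, B x x = 0) (R : Submodule F W)
    (hR1 : ∀ r ∈ R, ∀ w, B w r = 0) (hR2 : ∀ y, (∀ w, B w y = 0) → y ∈ R) :
    Even (finrank F W - finrank F R) := by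
  classical
  obtain ⟨C, hC⟩ := Submodule.exists_isCompl R
  have hdim : finrank F R + finrank F C = finrank F W := Submodule.finrank_add_eq_of_isCompl hC
  have hskew : ∀ x y, B x y = - B y x := by
    intro x y
    have h := hB (x + y)
    simp only [map_add, LinearMap.add_apply, hB, zero_add, add_zero] at h
    linear_combination h
  set k := finrank F C with hk
  let b : Basis (Fin k) F C := Module.finBasis F C
  let N : Matrix (Fin k) (Fin k) F := Matrix.of fun i j => B (b i : W) (b j : W)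
  have hdet : N.det ≠ 0 := by
    intro h0
    obtain ⟨v, hv0, hv⟩ := (Matrix.exists_mulVec_eq_zero_iff).2 h0
    set y : C := ∑ j, v j • b j with hy
    have hycoe : (y : W) = ∑ j, v j • (b j : W) := by
      rw [hy, Submodule.coe_sum]
      rfl
    have h1 : ∀ i, B (b i : W) (y : W) = 0 := by
      intro i
      have h := congrFun hv i
      simp only [Matrix.mulVec, dotProduct, N, Matrix.of_apply, Pi.zero_apply] at h
      rw [hycoe, map_sum, ← h]
      refine Finset.sum_congr rfl (fun j _ => ?_)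
      rw [map_smul, smul_eq_mul, mul_comm]
    have h2' : ∀ c : C, B (c : W) (y : W) = 0 := by
      intro c
      have hc : (c : W) = ∑ i, (b.repr c i) • (b i : W) := by
        conv_lhs => rw [← b.sum_repr c]
        rw [Submodule.coe_sum]
        rfl
      rw [hc, map_sum, LinearMap.sum_apply]
      refine Finset.sum_eq_zero (fun i _ => ?_)
      rw [map_smul, LinearMap.smul_apply, h1, smul_zero]
    have h3 : ∀ w, B w (y : W) = 0 := by
      intro w
      have hw : w ∈ R ⊔ C := by rw [hC.sup_eq_top]; trivial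
      obtain ⟨r, hr, c, hc, rfl⟩ := Submodule.mem_sup.1 hw
      rw [map_add, LinearMap.add_apply, h2' ⟨c, hc⟩, add_zero, hskew, hR1 r hr, neg_zero]
    have h4 : (y : W) ∈ R := hR2 _ h3
    have h5 : (y : W) ∈ R ⊓ C := ⟨h4, y.2⟩
    rw [hC.inf_eq_bot, Submodule.mem_bot] at h5
    have h6 : y = 0 := Subtype.ext h5
    have h7 := Fintype.linearIndependent_iff.1 b.linearIndependent v (by rw [← hy]; exact h6)
    exact hv0 (funext h7)
  have hT : Nᵀ = -N := by
    ext i j
    simp only [Matrix.transpose_apply, Matrix.neg_apply, N, Matrix.of_apply]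
    exact hskew _ _
  have hdet2 : N.det = (-1) ^ k * N.det := by
    conv_lhs => rw [← Matrix.det_transpose, hT, Matrix.det_neg, Fintype.card_fin]
  have hkeven : Even k := by
    by_contra hodd
    rw [Nat.not_even_iff_odd] at hodd
    rw [hodd.neg_one_pow] at hdet2
    have h3 : (2 : F) * N.det = 0 := by linear_combination hdet2
    rcases mul_eq_zero.1 h3 with h | h
    · exact h2 h
    · exact hdet h
  have h4 : finrank F W - finrank F R = k := by omega
  rw [h4]; exact hkeven

theorem main : NegSq.{u} := by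
  intro F _ _ m hm h2 ε hε g μ hsq hsim
  classical
  set G : Matrix (Fin m ⊕ Fin m) (Fin m ⊕ Fin m) F :=
    ((g : GL (Fin m ⊕ Fin m) F) : Matrix (Fin m ⊕ Fin m) (Fin m ⊕ Fin m) F) with hG
  set Q := plusQ m F with hQ
  have hQG : ∀ x, Q (G *ᵥ x) = μ * Q x := hsim
  have hGG : ∀ x, G *ᵥ (G *ᵥ x) = (-μ) • x := by
    intro x
    rw [Matrix.mulVec_mulVec, hsq, Matrix.smul_mulVec, Matrix.one_mulVec]
  have hμ : μ ≠ 0 := by
    rintro rfl
    have h1 : G * G = 0 := by rw [hsq]; simp
    have hinv : G * ((g : GL (Fin m ⊕ Fin m) F)⁻¹ : GL (Fin m ⊕ Fin m) F).1 = 1 :=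
      Units.mul_inv _
    have hG0 : G = 0 := by
      calc G = G * (G * ((g : GL (Fin m ⊕ Fin m) F)⁻¹ : GL (Fin m ⊕ Fin m) F).1) := by
            rw [hinv, mul_one]
        _ = (G * G) * ((g : GL (Fin m ⊕ Fin m) F)⁻¹ : GL (Fin m ⊕ Fin m) F).1 := by
            rw [mul_assoc]
        _ = 0 := by rw [h1, zero_mul]
    rw [hG0, zero_mul] at hinv
    have h3 := congrFun (congrFun hinv (Sum.inl ⟨0, hm⟩)) (Sum.inl ⟨0, hm⟩)
    simp at h3
  have hpol : ∀ x y, polar Q (G *ᵥ x) (G *ᵥ y) = μ * polar Q x y := by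
    intro x y
    unfold polar
    rw [← Matrix.mulVec_add, hQG, hQG, hQG]; ring
  have halt : ∀ x, polar Q x (G *ᵥ x) = 0 := by
    intro x
    have h1 := hpol x (G *ᵥ x)
    rw [hGG, polar_smul_right, polar_comm Q (G *ᵥ x) x, smul_eq_mul] at h1
    have h3 : (2 * μ) * polar Q x (G *ᵥ x) = 0 := by linear_combination (-1 : F) * h1
    rcases mul_eq_zero.1 h3 with h | h
    · exact absurd h (mul_ne_zero h2 hμ)
    · exact h
  set U : Submodule F (Fin m ⊕ Fin m → F) :=
    LinearMap.ker (LinearMap.funLeft F F (Sum.inr : Fin m → Fin m ⊕ Fin m)) with hU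
  have hTS : TS Q m U := ts_std (F := F) m
  have hS : Sep Q := sep_plusQ (F := F) m
  have hV : finrank F (Fin m ⊕ Fin m → F) = 2 * m := finrank_plus m
  let B : ↥U →ₗ[F] ↥U →ₗ[F] F :=
    LinearMap.mk₂ F (fun x y => polar Q (x : Fin m ⊕ Fin m → F) (G *ᵥ (y : Fin m ⊕ Fin m → F)))
      (fun x x' y => by simp only [Submodule.coe_add]; exact polar_add_left _ _ _ _)
      (fun c x y => by simp only [Submodule.coe_smul]; exact polar_smul_left _ _ _ _)
      (fun x y y' => by
        simp only [Submodule.coe_add, Matrix.mulVec_add]; exact polar_add_right _ _ _ _)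
      (fun c x y => by
        simp only [Submodule.coe_smul, Matrix.mulVec_smul]; exact polar_smul_right _ _ _ _)
  have hBapp : ∀ x y : ↥U, B x y
      = polar Q (x : Fin m ⊕ Fin m → F) (G *ᵥ (y : Fin m ⊕ Fin m → F)) := fun x y => rfl
  set R0 : Submodule F (Fin m ⊕ Fin m → F) := U ⊓ U.map (Matrix.toLin' G) with hR0
  let R : Submodule F ↥U := R0.comap U.subtype
  have hfr : finrank F R = finrank F R0 :=
    (Submodule.comapSubtypeEquivOfLe (inf_le_left : R0 ≤ U)).finrank_eq
  have hev := even_sub_rad h2 B (fun x => halt x) R ?_ ?_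
  · rw [hTS.1, hfr] at hev
    exact (hε.par g U hTS).2 hev
  · intro r hr w
    have hr' : (r : Fin m ⊕ Fin m → F) ∈ R0 := hr
    obtain ⟨u0, hu0, hu0r⟩ := hr'.2
    rw [hBapp, ← hu0r, Matrix.toLin'_apply, hGG, polar_smul_right,
      hTS.polar_eq_zero w.2 hu0, smul_zero]
  · intro y hy
    have h1 : G *ᵥ (y : Fin m ⊕ Fin m → F) ∈ U :=
      hTS.mem_of_orth hS hV (fun u hu => hy ⟨u, hu⟩)
    refine ⟨y.2, (-μ)⁻¹ • (G *ᵥ (y : Fin m ⊕ Fin m → F)), U.smul_mem _ h1, ?_⟩
    rw [Matrix.toLin'_apply, Matrix.mulVec_smul, hGG, smul_smul,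
      inv_mul_cancel₀ (neg_ne_zero.2 hμ), one_smul]
    rfl

end Cfsg.Agent.Lib.Helper74.GANEG
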