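import Cfsg.Agent.Lib.Helper75.NDStmt
import Cfsg.Agent.Lib.Helper16.Cover2
import Cfsg.Agent.Lib.Helper77.BPInd
import Cfsg.Agent.Lib.Helper77.BPPairs

set_option autoImplicit false

namespace Cfsg.Agent.Lib.Helper74.NdCOV

open Cfsg

universe u

theorem main : Cfsg.Agent.Lib.Helper75.NDStmt.COV.{u} := by
  intro G _ _ p _ M hM P _ _ hP χ ξ hcon
  have hMp := Cfsg.Agent.Lib.Helper77.LocalRing.isPrime_of_isPModular hM
  haveI : Fintype G := Fintype.ofFinite G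
  have hind := Cfsg.Agent.Lib.Helper16.Cover2.isInducedBlock_of_cover hM P hP
    (Subgroup.centralizer (P : Set G)) le_rfl
    (blockOf M (ξ : Subgroup.centralizer (P : Set G) → ℂ))
    (Cfsg.Agent.Lib.Helper16.ZR.isPBlock_blockOf ξ)
    (blockOf M (χ : G → ℂ)) (Cfsg.Agent.Lib.Helper16.ZR.isPBlock_blockOf χ) χ
    (Cfsg.Agent.Lib.Helper16.ZR.mem_blockOf_self hMp χ) ξ
    (Cfsg.Agent.Lib.Helper16.ZR.mem_blockOf_self hMp ξ) hcon
  exact (Cfsg.Agent.Lib.Helper77.BPInd.isBrauerPairOf_iff_isInducedBlock hM P hP _ _).mpr hind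

end Cfsg.Agent.Lib.Helper74.NdCOV
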