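import Cfsg.Agent.Lib.Helper75.NDStmt
import Cfsg.Agent.Lib.Helper74.NdCOV

set_option autoImplicit false

namespace Cfsg.Agent.Lib.Helper74.NdCOV2

open Cfsg

universe u

theorem main : Cfsg.Agent.Lib.Helper75.NDStmt.COV2.{u} := by
  intro G _ _ p _ M hM P _ _ hP B e hpair ξ hξ χ hcon
  have hMp := Cfsg.Agent.Lib.Helper77.LocalRing.isPrime_of_isPModular hM
  have he : IsPBlock M e := hpair.1.2
  have hB : IsPBlock M B := hpair.2.1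
  have hcov := Cfsg.Agent.Lib.Helper74.NdCOV.main.{u} G p M hM P hP χ ξ hcon
  have hee : e = blockOf M (ξ : Subgroup.centralizer (P : Set G) → ℂ) :=
    Cfsg.Agent.Lib.Helper16.ZR.isPBlock_eq_blockOf hMp he hξ
  rw [← hee] at hcov
  obtain ⟨χ₀, hχ₀⟩ := Cfsg.Agent.Lib.Helper77.BPPairs.isBrauerPairOf_iff hM P e hpair.1
  have h1 : χ₀ ∈ B := (hχ₀ B hB).mp hpair
  have h2 : χ₀ ∈ blockOf M (χ : G → ℂ) :=
    (hχ₀ _ (Cfsg.Agent.Lib.Helper16.ZR.isPBlock_blockOf χ)).mp hcov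
  have e1 : B = blockOf M (χ₀ : G → ℂ) := Cfsg.Agent.Lib.Helper16.ZR.isPBlock_eq_blockOf hMp hB h1
  have e2 : blockOf M (χ : G → ℂ) = blockOf M (χ₀ : G → ℂ) :=
    Cfsg.Agent.Lib.Helper16.ZR.isPBlock_eq_blockOf hMp
      (Cfsg.Agent.Lib.Helper16.ZR.isPBlock_blockOf χ) h2
  rw [e1, ← e2]
  exact Cfsg.Agent.Lib.Helper16.ZR.mem_blockOf_self hMp χ

end Cfsg.Agent.Lib.Helper74.NdCOV2
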