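import Cfsg.Agent.Lib.Helper75.NDStmt
import Cfsg.Agent.Lib.CT.Kernel

set_option autoImplicit false

namespace Cfsg.Agent.Lib.Helper74.NdDEFL

open Cfsg

universe u

theorem main : Cfsg.Agent.Lib.Helper75.NDStmt.DEFL.{u} := by
  intro H H' _ _ _ f hf ψ hψ
  have hN : ∀ n ∈ f.ker, (ψ : H → ℂ) n = (ψ : H → ℂ) 1 := by
    intro n hn
    have := hψ 1 n (MonoidHom.mem_ker.mp hn)
    rwa [one_mul] at this
  obtain ⟨χbar, hirr, hχ⟩ := Cfsg.Agent.Lib.CT.Kernel.exists_quotient_irr (N := f.ker) ψ.2 hN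
  let e : H ⧸ f.ker ≃* H' := QuotientGroup.quotientKerEquivOfSurjective f hf
  refine ⟨⟨fun h' => χbar (e.symm h'),
    Cfsg.Agent.Lib.CT.Ops.isIrrCharacter_comp_mulEquiv e.symm hirr⟩, fun h => ?_⟩
  show χbar (e.symm (f h)) = (ψ : H → ℂ) h
  have he : e.symm (f h) = (h : H ⧸ f.ker) := by
    rw [MulEquiv.symm_apply_eq]
    rfl
  rw [he, hχ]

end Cfsg.Agent.Lib.Helper74.NdDEFL
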