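import Cfsg.Agent.Lib.Helper75.NDStmt
import Cfsg.Agent.Lib.Helper75.CentralProd
import Cfsg.Agent.Lib.Helper74.NdDEFL
import Cfsg.Agent.Lib.CT.Kernel

set_option autoImplicit false

namespace Cfsg.Agent.Lib.Helper74.NdEXT

open Cfsg

universe u

theorem main : Cfsg.Agent.Lib.Helper75.NDStmt.EXT.{u} := by
  intro G _ _ D θ hθ
  have hcomm : ∀ u ∈ D, ∀ v ∈ Subgroup.centralizer (D : Set G), u * v = v * u :=
    fun u hu v hv => Subgroup.mem_centralizer_iff.mp hv u hu
  let m := Cfsg.Agent.Lib.Helper75.CentralProd.mulHom D (Subgroup.centralizer (D : Set G)) hcomm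
  have hmem : ∀ x : ↥D × ↥(Subgroup.centralizer (D : Set G)),
      m x ∈ D ⊔ Subgroup.centralizer (D : Set G) := fun x =>
    Subgroup.mul_mem _ (Subgroup.mem_sup_left x.1.2) (Subgroup.mem_sup_right x.2.2)
  let f : ↥D × ↥(Subgroup.centralizer (D : Set G)) →* ↥(D ⊔ Subgroup.centralizer (D : Set G)) :=
    m.codRestrict _ hmem
  have hf : Function.Surjective f := by
    rintro ⟨l, hl⟩
    have hrange : m.range = D ⊔ Subgroup.centralizer (D : Set G) := by
      unfold m Cfsg.Agent.Lib.Helper75.CentralProd.mulHom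
      rw [MonoidHom.noncommCoprod_range, Subgroup.range_subtype, Subgroup.range_subtype]
    rw [← hrange] at hl
    obtain ⟨x, hx⟩ := hl
    exact ⟨x, Subtype.ext hx⟩
  have hirr : IsIrrCharacter (↥D × ↥(Subgroup.centralizer (D : Set G)))
      (fun x => (θ : Subgroup.centralizer (D : Set G) → ℂ) x.2) :=
    Cfsg.Agent.Lib.CT.Ops.isIrrCharacter_comp_surjective
      (MonoidHom.snd ↥D ↥(Subgroup.centralizer (D : Set G)))
      (fun c => ⟨(1, c), rfl⟩) θ.2
  have hchar : IsCharacter (Subgroup.centralizer (D : Set G))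
      (θ : Subgroup.centralizer (D : Set G) → ℂ) :=
    Cfsg.Agent.Lib.CT.Ops.IsIrrCharacter.isCharacter θ.2
  obtain ⟨η, hη⟩ := Cfsg.Agent.Lib.Helper74.NdDEFL.main.{u}
    (↥D × ↥(Subgroup.centralizer (D : Set G))) ↥(D ⊔ Subgroup.centralizer (D : Set G)) f hf
    ⟨_, hirr⟩ (by
      intro h k hk
      show (θ : Subgroup.centralizer (D : Set G) → ℂ) (h.2 * k.2)
        = (θ : Subgroup.centralizer (D : Set G) → ℂ) h.2
      have hk' : (k.1 : G) * (k.2 : G) = 1 := congrArg Subtype.val hk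
      have hk2 : ((k.2 : Subgroup.centralizer (D : Set G)) : G) ∈ D := by
        have : (k.2 : G) = (k.1 : G)⁻¹ := eq_inv_of_mul_eq_one_right hk'
        rw [this]
        exact D.inv_mem k.1.2
      exact Cfsg.Agent.Lib.CT.Kernel.apply_mul_of_eq' hchar (hθ k.2 hk2) h.2)
  refine ⟨η, fun l d c hd hl => ?_⟩
  have : l = f (⟨d, hd⟩, c) := Subtype.ext hl
  rw [this, hη]

end Cfsg.Agent.Lib.Helper74.NdEXT
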