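import Cfsg.Agent.Lib.Helper75.NDStmt
import Cfsg.Agent.Lib.Helper81.CliffCorr
import Cfsg.Agent.Lib.CT.Kernel
import Cfsg.Agent.Lib.CT.Wedderburn

set_option autoImplicit false
set_option linter.style.haveILetI false

namespace Cfsg.Agent.Lib.Helper74.NdIND

open Cfsg Cfsg.Agent.Lib.Helper81.Cliff Cfsg.Agent.Lib.Helper81.CliffCorr
open scoped ComplexConjugate commutatorElement

universe u

/-- Inducing an irreducible character of a normal subgroup whose stabilizer is the subgroup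
itself: the induced character is irreducible, vanishes off the subgroup, and is the average of
the conjugates on it. -/
theorem layer1 {T : Type u} [Group T] [Fintype T] (N : Subgroup T) [N.Normal]
    (φ : IrrCharacter ↥N) (hstab : ∀ t : T, conjI N t φ = φ → t ∈ N) :
    ∃ ψ : IrrCharacter T,
      (∀ n : ↥N, ψ.1 n = (Nat.card ↥N : ℂ)⁻¹ * ∑ x : T, (conjI N x φ).1 n) ∧
      (∀ t : T, t ∉ N → ψ.1 t = 0) := by
  classical
  haveI := Cfsg.Agent.Lib.CT.Wedderburn.finite_irrCharacter T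
  haveI := Cfsg.Agent.Lib.CT.Wedderburn.finite_irrCharacter ↥N
  haveI := Fintype.ofFinite (IrrCharacter T)
  haveI := Fintype.ofFinite (IrrCharacter ↥N)
  haveI : Fintype ↥N := Fintype.ofFinite _
  obtain ⟨χ, h1, -, -, -⟩ := induced_isIrr N φ N
    (fun g => ⟨fun hg => conjI_of_mem N g hg φ, hstab g⟩) le_rfl φ (by
      funext n
      rw [resTo_apply]
      congr 1)
  refine ⟨χ, fun n => ?_, fun t ht => ?_⟩
  · rw [← h1]
    exact indFun_res N φ n
  · rw [← h1]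
    exact Cfsg.Agent.Lib.CT.FrobRec.indFun_eq_zero_of_normal N φ.1 t ht

theorem D_le_Ct {G : Type u} [Group G] (D : Subgroup G) [D.Normal] :
    D ≤ Cfsg.Agent.Lib.Helper75.NDStmt.Ct D := by
  intro d hd
  rw [Subgroup.mem_comap, Subgroup.mem_centralizer_iff]
  rintro y ⟨d', hd', rfl⟩
  simp only [QuotientGroup.mk'_apply]
  rw [← QuotientGroup.mk_mul, ← QuotientGroup.mk_mul, QuotientGroup.eq]
  have : (d' * d)⁻¹ * (d * d') = ⁅d⁻¹, d'⁻¹⁆ := by
    rw [commutatorElement_def]; group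
  rw [this]
  exact Subgroup.commutator_mem_commutator (D.inv_mem hd) (D.inv_mem hd')

theorem main : Cfsg.Agent.Lib.Helper75.NDStmt.IND.{u} := by
  intro G _ _ D _ _ θ η hη hst
  classical
  have hD_le : D ≤ Cfsg.Agent.Lib.Helper75.NDStmt.Ct D := D_le_Ct D
  have hC_le : Subgroup.centralizer (D : Set G) ≤ Cfsg.Agent.Lib.Helper75.NDStmt.Ct D :=
    Cfsg.Agent.Lib.Helper75.NDStmt.centralizer_le_Ct D
  have hL_le : D ⊔ Subgroup.centralizer (D : Set G) ≤ Cfsg.Agent.Lib.Helper75.NDStmt.Ct D :=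
    sup_le hD_le hC_le
  haveI hDbar : (Cfsg.Agent.Lib.Helper75.NDStmt.Dbar D).Normal :=
    Subgroup.Normal.map inferInstance _ (QuotientGroup.mk'_surjective _)
  haveI hCtn : (Cfsg.Agent.Lib.Helper75.NDStmt.Ct D).Normal := inferInstance
  haveI : Fintype ↥(Cfsg.Agent.Lib.Helper75.NDStmt.Ct D) := Fintype.ofFinite _
  -- the normal subgroup `L` inside `Ct D`
  let N : Subgroup ↥(Cfsg.Agent.Lib.Helper75.NDStmt.Ct D) :=
    (D ⊔ Subgroup.centralizer (D : Set G)).subgroupOf (Cfsg.Agent.Lib.Helper75.NDStmt.Ct D)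
  haveI hNn : N.Normal := inferInstance
  let e : ↥N ≃* ↥(D ⊔ Subgroup.centralizer (D : Set G)) := Subgroup.subgroupOfEquivOfLe hL_le
  let φ : IrrCharacter ↥N :=
    ⟨fun n => η.1 (e n), Cfsg.Agent.Lib.CT.Ops.isIrrCharacter_comp_mulEquiv e η.2⟩
  have hφ : ∀ (n : ↥N) (d : G) (c : Subgroup.centralizer (D : Set G)), d ∈ D →
      (((n : ↥(Cfsg.Agent.Lib.Helper75.NDStmt.Ct D)) : G)) = d * (c : G) → φ.1 n = θ.1 c :=
    fun n d c hd hn => hη (e n) d c hd hn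
  have hconjN : ∀ (t : ↥(Cfsg.Agent.Lib.Helper75.NDStmt.Ct D)) (n : ↥N),
      (((MulAut.conjNormal t n : ↥N) : ↥(Cfsg.Agent.Lib.Helper75.NDStmt.Ct D)) : G)
        = (t : G) * ((n : ↥(Cfsg.Agent.Lib.Helper75.NDStmt.Ct D)) : G) * (t : G)⁻¹ := by
    intro t n
    rw [MulAut.conjNormal_apply]
    rfl
  -- the stabilizer of `φ` is `N`
  have hstab : ∀ t : ↥(Cfsg.Agent.Lib.Helper75.NDStmt.Ct D), conjI N t φ = φ → t ∈ N := by
    intro t ht
    show (t : G) ∈ D ⊔ Subgroup.centralizer (D : Set G)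
    apply hst t.1 t.2
    intro k k' hkk'
    let n' : ↥N := ⟨⟨k'.1, hC_le k'.2⟩, Subgroup.mem_subgroupOf.mpr (Subgroup.mem_sup_right k'.2)⟩
    have h1 : (conjI N t φ).1 n' = φ.1 n' := by rw [ht]
    rw [conjI_apply] at h1
    have h2 : φ.1 n' = θ.1 k' := hφ n' 1 k' D.one_mem (by rw [one_mul])
    have h3 : φ.1 (MulAut.conjNormal t⁻¹ n') = θ.1 k := by
      apply hφ _ 1 k D.one_mem
      rw [hconjN, one_mul]
      show ((t⁻¹ : ↥(Cfsg.Agent.Lib.Helper75.NDStmt.Ct D)) : G) * (k' : G)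
        * ((t⁻¹ : ↥(Cfsg.Agent.Lib.Helper75.NDStmt.Ct D)) : G)⁻¹ = (k : G)
      rw [hkk']
      show (t : G)⁻¹ * ((t : G) * (k : G) * (t : G)⁻¹) * ((t : G)⁻¹)⁻¹ = (k : G)
      group
    rw [← h2, ← h3, h1]
  obtain ⟨ψ, hψN, hψ0⟩ := layer1 N φ hstab
  have hψchar : IsCharacter ↥(Cfsg.Agent.Lib.Helper75.NDStmt.Ct D) ψ.1 :=
    Cfsg.Agent.Lib.CT.Ops.IsIrrCharacter.isCharacter ψ.2
  have hcardN : (Nat.card ↥N : ℂ)⁻¹ ≠ 0 :=
    inv_ne_zero (Nat.cast_ne_zero.mpr Nat.card_pos.ne')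
  refine ⟨ψ, ?_, ?_, ?_⟩
  · -- `D` is in the kernel
    intro g g' d hd hg'
    let dT : ↥(Cfsg.Agent.Lib.Helper75.NDStmt.Ct D) := ⟨d, hD_le hd⟩
    let nd : ↥N := ⟨dT, Subgroup.mem_subgroupOf.mpr (Subgroup.mem_sup_left hd)⟩
    have hg'' : g' = g * dT := Subtype.ext hg'
    rw [hg'']
    apply Cfsg.Agent.Lib.CT.Kernel.apply_mul_of_eq' hψchar
    have e1 : ψ.1 dT = ψ.1 ((nd : ↥N) : ↥(Cfsg.Agent.Lib.Helper75.NDStmt.Ct D)) := rfl
    have e2 : ψ.1 1 = ψ.1 (((1 : ↥N)) : ↥(Cfsg.Agent.Lib.Helper75.NDStmt.Ct D)) := rfl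
    rw [e1, e2, hψN, hψN]
    congr 1
    apply Finset.sum_congr rfl
    intro x _
    rw [conjI_apply, conjI_apply, map_one]
    have h1 : φ.1 (MulAut.conjNormal x⁻¹ nd) = θ.1 1 := by
      apply hφ _ ((x : G)⁻¹ * d * (x : G)) 1
      · have := (inferInstance : D.Normal).conj_mem d hd (x : G)⁻¹
        simpa using this
      · rw [hconjN]
        show ((x⁻¹ : ↥(Cfsg.Agent.Lib.Helper75.NDStmt.Ct D)) : G) * d
          * ((x⁻¹ : ↥(Cfsg.Agent.Lib.Helper75.NDStmt.Ct D)) : G)⁻¹ = _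
        simp
    have h2 : φ.1 1 = θ.1 1 := hφ 1 1 1 D.one_mem (by simp)
    rw [h1, h2]
  · -- `ψ` lies over `θ`
    have hf : ∀ c : Subgroup.centralizer (D : Set G),
        ψ.1 (Cfsg.Agent.Lib.Helper75.NDStmt.cincl D c) = (Nat.card ↥N : ℂ)⁻¹ *
          ∑ x : ↥(Cfsg.Agent.Lib.Helper75.NDStmt.Ct D),
            (conjI (Subgroup.centralizer (D : Set G)) (x : G) θ).1 c := by
      intro c
      let nc : ↥N := ⟨Cfsg.Agent.Lib.Helper75.NDStmt.cincl D c,
        Subgroup.mem_subgroupOf.mpr (Subgroup.mem_sup_right c.2)⟩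
      have e1 : ψ.1 (Cfsg.Agent.Lib.Helper75.NDStmt.cincl D c)
          = ψ.1 ((nc : ↥N) : ↥(Cfsg.Agent.Lib.Helper75.NDStmt.Ct D)) := rfl
      rw [e1, hψN]
      congr 1
      apply Finset.sum_congr rfl
      intro x _
      rw [conjI_apply, conjI_apply]
      apply hφ _ 1 _ D.one_mem
      rw [hconjN, one_mul, MulAut.conjNormal_apply]
      rfl
    have key : classInner (fun c : Subgroup.centralizer (D : Set G) =>
          ψ.1 (Cfsg.Agent.Lib.Helper75.NDStmt.cincl D c)) θ.1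
        = (Nat.card ↥N : ℂ)⁻¹ * ∑ x : ↥(Cfsg.Agent.Lib.Helper75.NDStmt.Ct D),
            classInner (conjI (Subgroup.centralizer (D : Set G)) (x : G) θ).1 θ.1 := by
      simp only [classInner, hf, Finset.mul_sum, Finset.sum_mul]
      rw [Finset.sum_comm]
      apply Finset.sum_congr rfl
      intro x _
      apply Finset.sum_congr rfl
      intro c _
      ring
    rw [key]
    apply mul_ne_zero hcardN
    have hsum : ∑ x : ↥(Cfsg.Agent.Lib.Helper75.NDStmt.Ct D),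
        classInner (conjI (Subgroup.centralizer (D : Set G)) (x : G) θ).1 θ.1
        = ((Finset.univ.filter (fun x : ↥(Cfsg.Agent.Lib.Helper75.NDStmt.Ct D) =>
            conjI (Subgroup.centralizer (D : Set G)) (x : G) θ = θ)).card : ℂ) := by
      rw [← Finset.sum_boole]
      apply Finset.sum_congr rfl
      intro x _
      exact Cfsg.Agent.Lib.CT.Wedderburn.irr_orthonormal _ _
    rw [hsum]
    have hpos : 0 < (Finset.univ.filter (fun x : ↥(Cfsg.Agent.Lib.Helper75.NDStmt.Ct D) =>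
        conjI (Subgroup.centralizer (D : Set G)) (x : G) θ = θ)).card := by
      apply Finset.card_pos.mpr
      refine ⟨1, ?_⟩
      rw [Finset.mem_filter]
      exact ⟨Finset.mem_univ _, conjI_one _ θ⟩
    exact Nat.cast_ne_zero.mpr hpos.ne'
  · -- invariance
    intro x hx k k' hkk'
    have hLn : (D ⊔ Subgroup.centralizer (D : Set G)).Normal := inferInstance
    by_cases hk : k ∈ N
    · have hk' : k' ∈ N := by
        show (k' : G) ∈ D ⊔ Subgroup.centralizer (D : Set G)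
        rw [hkk']
        exact hLn.conj_mem _ hk x
      let nk : ↥N := ⟨k, hk⟩
      let nk' : ↥N := ⟨k', hk'⟩
      have e1 : ψ.1 k = ψ.1 ((nk : ↥N) : ↥(Cfsg.Agent.Lib.Helper75.NDStmt.Ct D)) := rfl
      have e2 : ψ.1 k' = ψ.1 ((nk' : ↥N) : ↥(Cfsg.Agent.Lib.Helper75.NDStmt.Ct D)) := rfl
      rw [e1, e2, hψN, hψN]
      congr 1
      let σ : ↥(Cfsg.Agent.Lib.Helper75.NDStmt.Ct D) ≃ ↥(Cfsg.Agent.Lib.Helper75.NDStmt.Ct D) :=
        (MulAut.conjNormal x : ↥(Cfsg.Agent.Lib.Helper75.NDStmt.Ct D) ≃*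
          ↥(Cfsg.Agent.Lib.Helper75.NDStmt.Ct D)).toEquiv
      rw [← Equiv.sum_comp σ]
      apply Finset.sum_congr rfl
      intro s _
      rw [conjI_apply, conjI_apply]
      -- decompose `s⁻¹ k s = d c`
      have hm : (((MulAut.conjNormal s⁻¹ nk : ↥N) : ↥(Cfsg.Agent.Lib.Helper75.NDStmt.Ct D)) : G)
          ∈ D ⊔ Subgroup.centralizer (D : Set G) :=
        (MulAut.conjNormal s⁻¹ nk : ↥N).2
      rw [← SetLike.mem_coe, Subgroup.normal_mul, Set.mem_mul] at hm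
      obtain ⟨d, hd, c, hc, hdc⟩ := hm
      have h1 : φ.1 (MulAut.conjNormal s⁻¹ nk) = θ.1 ⟨c, hc⟩ := hφ _ d ⟨c, hc⟩ hd hdc.symm
      have hσs : ((σ s : ↥(Cfsg.Agent.Lib.Helper75.NDStmt.Ct D)) : G) = x * (s : G) * x⁻¹ := by
        show (((MulAut.conjNormal x : ↥(Cfsg.Agent.Lib.Helper75.NDStmt.Ct D) ≃*
          ↥(Cfsg.Agent.Lib.Helper75.NDStmt.Ct D)) s : ↥(Cfsg.Agent.Lib.Helper75.NDStmt.Ct D)) : G) = _
        rw [MulAut.conjNormal_apply]
      have h2 : φ.1 (MulAut.conjNormal (σ s)⁻¹ nk')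
          = θ.1 (MulAut.conjNormal x (⟨c, hc⟩ : Subgroup.centralizer (D : Set G))) := by
        apply hφ _ (x * d * x⁻¹) _ ((inferInstance : D.Normal).conj_mem d hd x)
        rw [hconjN, MulAut.conjNormal_apply]
        have hk1 : (((nk' : ↥N) : ↥(Cfsg.Agent.Lib.Helper75.NDStmt.Ct D)) : G)
            = x * (k : G) * x⁻¹ := hkk'
        have hk2 : (((σ s)⁻¹ : ↥(Cfsg.Agent.Lib.Helper75.NDStmt.Ct D)) : G)
            = x * (s : G)⁻¹ * x⁻¹ := by
          show ((σ s : ↥(Cfsg.Agent.Lib.Helper75.NDStmt.Ct D)) : G)⁻¹ = _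
          rw [hσs]; group
        rw [hk1, hk2]
        have hdc' : d * c = (s : G)⁻¹ * (k : G) * (s : G) := by
          rw [hdc, hconjN]
          show ((s⁻¹ : ↥(Cfsg.Agent.Lib.Helper75.NDStmt.Ct D)) : G) * (k : G)
            * ((s⁻¹ : ↥(Cfsg.Agent.Lib.Helper75.NDStmt.Ct D)) : G)⁻¹ = _
          simp
        show x * (s : G)⁻¹ * x⁻¹ * (x * (k : G) * x⁻¹) * (x * (s : G)⁻¹ * x⁻¹)⁻¹
          = x * d * x⁻¹ * (x * c * x⁻¹)
        have : x * d * x⁻¹ * (x * c * x⁻¹) = x * (d * c) * x⁻¹ := by group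
        rw [this, hdc']
        group
      rw [h1, h2]
      exact hx ⟨c, hc⟩ _ (by rw [MulAut.conjNormal_apply])
    · have hk' : k' ∉ N := by
        intro hk'
        apply hk
        show (k : G) ∈ D ⊔ Subgroup.centralizer (D : Set G)
        have h1 : (k : G) = x⁻¹ * (k' : G) * x⁻¹⁻¹ := by rw [hkk']; group
        rw [h1]
        exact hLn.conj_mem _ hk' x⁻¹
      rw [hψ0 k hk, hψ0 k' hk']

end Cfsg.Agent.Lib.Helper74.NdIND
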