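import Mathlib

/-!
# A `p`-modular injectivity lemma for convolution-type operators on functions on a `p`-group

Let `P` be a finite `p`-group, `A : P → ι → ι → ℤ` a family of integer matrices whose sum is
`c • 1` with `p ∤ c`.  Then the operator `x ↦ (y' ↦ ∑ y₀, A y₀ *ᵥ x (y' * y₀))` on
`P → ι → ℤ` is injective (`sol_int_eq_zero`).  The proof reduces modulo `p`, where the kernel is
a `P`-stable finite `p`-group, so that a nonzero kernel would contain a nonzero constant function.
-/

set_option autoImplicit false

namespace Cfsg.Agent.Lib.Helper74.PModMatrix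

variable {P : Type*} [Group P] [Fintype P] {ι : Type*} [Fintype ι] [DecidableEq ι]

/-- `x` is annihilated by the convolution-type operator attached to `A`. -/
def IsSol {R : Type*} [CommRing R] (A : P → ι → ι → R) (x : P → ι → R) : Prop :=
  ∀ (y' : P) (k : ι), ∑ y₀ : P, ∑ j : ι, A y₀ k j * x (y' * y₀) j = 0

theorem sol_zmod_eq_zero (p : ℕ) [Fact p.Prime] (hP : IsPGroup p P) (A : P → ι → ι → ZMod p)
    (c : ZMod p) (hc : c ≠ 0) (hA : ∀ k j, ∑ y : P, A y k j = if k = j then c else 0)
    (z : P → ι → ZMod p) (hz : IsSol A z) : z = 0 := by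
  classical
  by_contra hz0
  let K : AddSubgroup (P → ι → ZMod p) :=
    { carrier := {z | IsSol A z}
      zero_mem' := by
        intro y' k
        simp
      add_mem' := by
        intro a b ha hb y' k
        have h1 := ha y' k
        have h2 := hb y' k
        simp only [Pi.add_apply, mul_add, Finset.sum_add_distrib]
        rw [h1, h2, add_zero]
      neg_mem' := by
        intro a ha y' k
        have h1 := ha y' k
        simp only [Pi.neg_apply, mul_neg, Finset.sum_neg_distrib]
        rw [h1, neg_zero] }
  have hKmem : ∀ w : K, IsSol A w.1 := fun w => w.2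
  let act : MulAction P K :=
    { smul := fun x w => ⟨fun y => w.1 (x⁻¹ * y), by
        intro y' k
        have := hKmem w (x⁻¹ * y') k
        simpa [mul_assoc] using this⟩
      one_smul := by
        intro w
        apply Subtype.ext
        funext y
        change w.1 (1⁻¹ * y) = w.1 y
        rw [inv_one, one_mul]
      mul_smul := by
        intro a b w
        apply Subtype.ext
        funext y
        change w.1 ((a * b)⁻¹ * y) = w.1 (b⁻¹ * (a⁻¹ * y))
        rw [mul_inv_rev, mul_assoc] }
  have hsmul : ∀ (x : P) (w : K) (y : P), (x • w).1 y = w.1 (x⁻¹ * y) := fun _ _ _ => rfl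
  have hcard : p ∣ Nat.card K := by
    have hzK : (⟨z, hz⟩ : K) ≠ 0 := by
      intro h
      apply hz0
      exact congrArg Subtype.val h
    have h1 : addOrderOf (⟨z, hz⟩ : K) = p := by
      apply addOrderOf_eq_prime _ hzK
      apply Subtype.ext
      funext y j
      simp
    have h2 := addOrderOf_dvd_natCard (⟨z, hz⟩ : K)
    rwa [h1] at h2
  have h0fix : (0 : K) ∈ MulAction.fixedPoints P K := by
    intro x
    apply Subtype.ext
    funext y
    rfl
  obtain ⟨b, hbfix, hb0⟩ := hP.exists_fixed_point_of_prime_dvd_card_of_fixed_point K hcard h0fix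
  have hconst : ∀ y, b.1 y = b.1 1 := by
    intro y
    have h1 := congrArg (fun w : K => w.1 1) (hbfix y⁻¹)
    simp only [hsmul, inv_inv, mul_one] at h1
    exact h1
  have hb1 : b.1 1 = 0 := by
    funext k
    have h1 := hKmem b 1 k
    have h2 : ∑ y₀ : P, ∑ j : ι, A y₀ k j * b.1 (1 * y₀) j
        = ∑ j : ι, (∑ y₀ : P, A y₀ k j) * b.1 1 j := by
      rw [Finset.sum_comm]
      refine Finset.sum_congr rfl fun j _ => ?_
      rw [Finset.sum_mul]
      refine Finset.sum_congr rfl fun y₀ _ => ?_
      rw [one_mul, hconst y₀]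
    rw [h2] at h1
    simp only [hA] at h1
    simp only [ite_mul, zero_mul, Finset.sum_ite_eq, Finset.mem_univ, if_true] at h1
    exact (mul_eq_zero.mp h1).resolve_left hc
  apply hb0
  apply Subtype.ext
  funext y
  rw [hconst y, hb1]
  rfl

theorem sol_int_eq_zero (p : ℕ) [Fact p.Prime] (hP : IsPGroup p P) (A : P → ι → ι → ℤ) (c : ℤ)
    (hc : ¬ (p : ℤ) ∣ c) (hA : ∀ k j, ∑ y : P, A y k j = if k = j then c else 0)
    (x : P → ι → ℤ) (hx : IsSol A x) : x = 0 := by
  have hp : p.Prime := Fact.out
  have hdiv : ∀ x : P → ι → ℤ, IsSol A x → ∀ y j, (p : ℤ) ∣ x y j := by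
    intro x hx y j
    have h1 := sol_zmod_eq_zero p hP (fun y k j => ((A y k j : ℤ) : ZMod p)) ((c : ℤ) : ZMod p)
      (by rwa [Ne, ZMod.intCast_zmod_eq_zero_iff_dvd])
      (by
        intro k j
        rw [← Int.cast_sum, hA]
        split_ifs <;> simp)
      (fun y j => ((x y j : ℤ) : ZMod p))
      (by
        intro y' k
        have := congrArg (Int.cast : ℤ → ZMod p) (hx y' k)
        simpa using this)
    have h2 := congrFun (congrFun h1 y) j
    exact (ZMod.intCast_zmod_eq_zero_iff_dvd _ p).mp h2
  have hpow : ∀ n : ℕ, ∀ x : P → ι → ℤ, IsSol A x → ∀ y j, (p : ℤ) ^ n ∣ x y j := by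
    intro n
    induction n with
    | zero =>
      intro x hx y j
      simp
    | succ n ih =>
      intro x hx y j
      have hd := hdiv x hx
      choose x' hx' using hd
      have hsol' : IsSol A x' := by
        intro y' k
        have h1 := hx y' k
        have h3 : ∑ y₀ : P, ∑ j : ι, A y₀ k j * x (y' * y₀) j
            = (p : ℤ) * ∑ y₀ : P, ∑ j : ι, A y₀ k j * x' (y' * y₀) j := by
          rw [Finset.mul_sum]
          refine Finset.sum_congr rfl fun y₀ _ => ?_
          rw [Finset.mul_sum]
          refine Finset.sum_congr rfl fun j _ => ?_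
          rw [hx' (y' * y₀) j]
          ring
        rw [h3] at h1
        exact (mul_eq_zero.mp h1).resolve_left (by exact_mod_cast hp.ne_zero)
      rw [hx' y j, pow_succ']
      exact mul_dvd_mul_left _ (ih x' hsol' y j)
  funext y j
  by_contra h
  have hfin : FiniteMultiplicity (p : ℤ) (x y j) :=
    Int.finiteMultiplicity_iff.mpr ⟨by simpa using hp.ne_one, h⟩
  obtain ⟨n, hn⟩ := hfin
  exact hn (hpow (n + 1) x hx y j)

end Cfsg.Agent.Lib.Helper74.PModMatrix
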