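import Cfsg.Agent.Lib.Helper53.RUStmt

/-!
# S2522 piece C23 : `CaseII3Stmt`

In dimension three, for `g` of determinant one with `g - 1` injective and a functional `φ`
that is not an eigenvector of the transpose of `g - 1`, there is `x` with `φ ((g - 1) x) = 0`
such that `g x` is not in `(g - 1) (ker φ)`.
-/

set_option autoImplicit false

namespace Cfsg.Agent.Lib.Helper74.RUC23

universe u v

open Polynomial

/-- Cayley--Hamilton in dimension three, pointwise. -/
theorem cubic {K : Type u} [Field K] {V : Type v} [AddCommGroup V] [Module K V]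
    [Module.Finite K V] (h3 : Module.finrank K V = 3) (g : Module.End K V)
    (hdet : LinearMap.det g = 1) :
    (∀ v : V, g (g (g v)) + g.charpoly.coeff 2 • g (g v) + g.charpoly.coeff 1 • g v - v = 0) ∧
      g.charpoly.eval 1 = 1 + g.charpoly.coeff 2 + g.charpoly.coeff 1 - 1 := by
  have hmon : g.charpoly.Monic := LinearMap.charpoly_monic g
  have hdeg : g.charpoly.natDegree = 3 := by rw [LinearMap.charpoly_natDegree, h3]
  have hc3 : g.charpoly.coeff 3 = 1 := by
    have := hmon.coeff_natDegree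
    rwa [hdeg] at this
  have hc0 : g.charpoly.coeff 0 = -1 := by
    have h := LinearMap.det_eq_sign_charpoly_coeff g
    rw [hdet, h3] at h
    have : (1 : K) = - g.charpoly.coeff 0 := by
      rw [h]; ring
    rw [this]; ring
  have hCH := LinearMap.aeval_self_charpoly g
  rw [Polynomial.aeval_eq_sum_range, hdeg] at hCH
  simp only [Finset.sum_range_succ, Finset.sum_range_zero, hc3, hc0] at hCH
  refine ⟨fun v => ?_, ?_⟩
  · have := congrArg (fun T : Module.End K V => T v) hCH
    have e2 : (g ^ 2) v = g (g v) := by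
      rw [pow_two]; rfl
    have e3 : (g ^ 3) v = g (g (g v)) := by
      rw [pow_succ, pow_two]; rfl
    simp only [LinearMap.add_apply, LinearMap.smul_apply, pow_zero, pow_one,
      Module.End.one_apply, LinearMap.zero_apply, zero_add, one_smul, neg_smul, e2, e3,
      LinearMap.neg_apply] at this
    rw [← this]
    abel
  · rw [Polynomial.eval_eq_sum_range, hdeg]
    simp only [Finset.sum_range_succ, Finset.sum_range_zero, hc3, hc0]
    ring

theorem main : Cfsg.Agent.Lib.Helper53.RUStmt.CaseII3Stmt.{u, v} := by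
  intro K _ V _ _ _ h3 g hdet hker φ hφ
  by_contra hcon
  push Not at hcon
  -- `A = g - 1` is injective
  have hinj : Function.Injective ⇑(g - 1 : Module.End K V) := LinearMap.ker_eq_bot.mp hker
  have hA : ∀ v : V, (g - 1) v = g v - v := fun v => by
    simp [LinearMap.sub_apply]
  -- φ ≠ 0
  have hφ0 : φ ≠ 0 := by
    intro h0
    apply hφ 0
    rw [h0]; simp
  -- φ ∘ g is not a multiple of φ
  have hnm : ∀ c : K, ¬ (∀ v : V, φ (g v) = c * φ v) := by
    intro c hc
    apply hφ (c - 1)
    ext v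
    simp only [LinearMap.comp_apply, LinearMap.smul_apply, smul_eq_mul, hA, map_sub, hc]
    ring
  -- step 1
  have h1 : ∀ y : V, φ ((g - 1) ((g - 1) y)) = 0 → φ (g y) = 0 := by
    intro y hy
    obtain ⟨w, hw, hgw⟩ := hcon ((g - 1) y) hy
    have hcomm : g ((g - 1) y) = (g - 1) (g y) := by
      simp only [hA, map_sub]
    rw [hcomm] at hgw
    have := hinj hgw
    rw [this]; exact hw
  -- a vector where φ A A does not vanish
  have h2 : ∃ v₀ : V, φ ((g - 1) ((g - 1) v₀)) ≠ 0 := by
    by_contra hall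
    push Not at hall
    apply hnm 0
    intro v
    rw [h1 v (hall v)]; ring
  obtain ⟨v₀, hv₀⟩ := h2
  obtain ⟨s, h3', hs0⟩ : ∃ s : K, (∀ v : V, φ (g v) = s * φ ((g - 1) ((g - 1) v))) ∧ s ≠ 0 := by
    obtain ⟨d, hd⟩ : ∃ d : K, d = φ ((g - 1) ((g - 1) v₀)) := ⟨_, rfl⟩
    rw [← hd] at hv₀
    have h3' : ∀ v : V, φ (g v) = (φ (g v₀) / d) * φ ((g - 1) ((g - 1) v)) := by
      intro v
      obtain ⟨c, hc⟩ : ∃ c : K, c = φ ((g - 1) ((g - 1) v)) / d := ⟨_, rfl⟩
      have hu : φ ((g - 1) ((g - 1) (v - c • v₀))) = 0 := by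
        rw [map_sub, map_sub, map_sub, map_smul, map_smul, map_smul, smul_eq_mul, ← hd, hc]
        field_simp
        ring
      have := h1 _ hu
      rw [map_sub, map_sub, map_smul, map_smul, smul_eq_mul, sub_eq_zero] at this
      rw [this, hc]
      field_simp
    refine ⟨_, h3', ?_⟩
    intro h0
    apply hnm 0
    intro v
    rw [h3' v, h0]; ring
  -- the recursion
  obtain ⟨τ, h4⟩ : ∃ τ : K, ∀ v : V, φ (g (g v)) = τ * φ (g v) - φ v := by
    refine ⟨2 + s⁻¹, fun v => ?_⟩
    have := h3' v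
    have hAA : φ ((g - 1) ((g - 1) v)) = φ (g (g v)) - 2 * φ (g v) + φ v := by
      simp only [hA, map_sub]
      ring
    rw [hAA] at this
    field_simp
    linear_combination (-1 : K) * this
  obtain ⟨hCH, hev⟩ := cubic h3 g hdet
  obtain ⟨c₂, hc2⟩ : ∃ c : K, c = g.charpoly.coeff 2 := ⟨_, rfl⟩
  obtain ⟨c₁, hc1⟩ : ∃ c : K, c = g.charpoly.coeff 1 := ⟨_, rfl⟩
  rw [← hc2, ← hc1] at hev
  simp only [← hc2, ← hc1] at hCH
  obtain ⟨a, hadef⟩ : ∃ a : K, a = τ ^ 2 - 1 + c₂ * τ + c₁ := ⟨_, rfl⟩
  obtain ⟨b, hbdef⟩ : ∃ b : K, b = -τ - c₂ - 1 := ⟨_, rfl⟩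
  have h5 : ∀ v : V, a * φ (g v) + b * φ v = 0 := by
    intro v
    have := congrArg φ (hCH v)
    rw [map_sub, map_add, map_add, map_smul, map_smul, smul_eq_mul, smul_eq_mul, map_zero,
      h4 (g v), h4 v] at this
    rw [hadef, hbdef]
    linear_combination this
  have ha : a = 0 := by
    by_contra hne
    apply hnm (-b / a)
    intro v
    have := h5 v
    field_simp
    linear_combination this
  have hb : b = 0 := by
    by_contra hne
    apply hφ0
    ext v
    have := h5 v
    rw [ha, zero_mul, zero_add] at this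
    simpa [hne] using this
  have hroot : g.charpoly.IsRoot 1 := by
    rw [Polynomial.IsRoot.def, hev]
    rw [hadef] at ha
    rw [hbdef] at hb
    linear_combination ha + (τ - 1) * hb
  have hev1 := (Module.End.hasEigenvalue_iff_isRoot_charpoly g 1).mpr hroot
  obtain ⟨v, hv⟩ := hev1.exists_hasEigenvector
  have hv1 : g v = v := by
    have := hv.apply_eq_smul
    rwa [one_smul] at this
  have hvk : v ∈ LinearMap.ker (g - 1) := by
    rw [LinearMap.mem_ker, hA, hv1, sub_self]
  rw [hker] at hvk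
  exact hv.2 ((Submodule.mem_bot K).mp hvk)

end Cfsg.Agent.Lib.Helper74.RUC23
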