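import Mathlib
import Cfsg.Prelude.Def_Characters
import Cfsg.Agent.Lib.CT.MatCoeff
import Cfsg.Agent.Lib.CT.FSInd
import Cfsg.Agent.Lib.Helper81.Basic

/-!
# Real representations and the Frobenius–Schur indicator

An irreducible complex representation has Frobenius–Schur indicator `1` if and only if
it can be realized over the real numbers (matrix proofs).
-/

set_option autoImplicit false

namespace Cfsg.Agent.Lib.Helper74.RealRep

open Matrix Cfsg Cfsg.Agent.Lib.CT.MatCoeff Cfsg.Agent.Lib.CT.FSInd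
open scoped ComplexConjugate

universe u
variable {G : Type u} [Group G] {n : ℕ}

/-! ### Part I: a real representation has indicator one -/

/-- averaging gives an intertwiner -/
theorem average_intertwine [Fintype G] (ρ : Representation ℂ G (Fin n → ℂ)) {m : ℕ}
    (Y : G → Matrix (Fin m) (Fin m) ℂ) (hY : ∀ g h, Y (g * h) = Y g * Y h)
    (B : Matrix (Fin m) (Fin n) ℂ) (h : G) :
    Y h * (∑ g : G, Y g * B * mat ρ g⁻¹) = (∑ g : G, Y g * B * mat ρ g⁻¹) * mat ρ h := by
  rw [Matrix.mul_sum, Matrix.sum_mul]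
  refine Fintype.sum_equiv (Equiv.mulLeft h) _ _ fun g => ?_
  simp only [Equiv.coe_mulLeft]
  rw [hY, _root_.mul_inv_rev, Matrix.mul_assoc (Y h * Y g * B), ← mat_mul, inv_mul_cancel_right]
  simp only [Matrix.mul_assoc]

/-- some average is a nonzero intertwiner when the traces agree -/
theorem exists_average_ne_zero [Fintype G] (ρ : Representation ℂ G (Fin n → ℂ))
    [hirr : ρ.IsIrreducible]
    (Y : G → Matrix (Fin n) (Fin n) ℂ) (hY : ∀ g, (Y g).trace = ρ.character g) :
    ∃ B : Matrix (Fin n) (Fin n) ℂ, ∑ g : G, Y g * B * mat ρ g⁻¹ ≠ 0 := by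
  by_contra hcon
  push Not at hcon
  have h1 : ∀ a b c d : Fin n, ∑ g : G, Y g b a * mat ρ g⁻¹ c d = 0 := by
    intro a b c d
    have h := congrFun (congrFun (hcon (Matrix.single a c (1:ℂ))) b) d
    rw [Matrix.sum_apply] at h
    simpa [mul_single_mul_apply] using h
  have h2 : ∑ g : G, ρ.character g * ρ.character g⁻¹ = 0 := by
    have : ∀ g : G, ρ.character g * ρ.character g⁻¹ = ∑ a, ∑ c, Y g a a * mat ρ g⁻¹ c c := by
      intro g
      rw [← hY g, character_eq_trace, Matrix.trace, Matrix.trace, Finset.sum_mul_sum]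
      rfl
    simp only [this]
    rw [Finset.sum_comm]
    refine Finset.sum_eq_zero fun a _ => ?_
    rw [Finset.sum_comm]
    exact Finset.sum_eq_zero fun c _ => h1 a a c c
  have h3 := Cfsg.Agent.Lib.Helper81.Basic.irr_orth
    (⟨ρ.character, n, ρ, hirr, rfl⟩ : IrrCharacter G) ⟨ρ.character, n, ρ, hirr, rfl⟩
  rw [if_pos rfl] at h3
  have h4 : (Nat.card G : ℂ) ≠ 0 := Nat.cast_ne_zero.mpr Nat.card_pos.ne'
  exact h4 (h3.symm.trans h2)

/-- a nonzero square intertwiner into an irreducible representation is invertible -/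
theorem isUnit_of_intertwine (ρ : Representation ℂ G (Fin n → ℂ)) [hirr : ρ.IsIrreducible]
    (Y : G → Matrix (Fin n) (Fin n) ℂ) (P : Matrix (Fin n) (Fin n) ℂ)
    (hP : ∀ h, Y h * P = P * mat ρ h) (hP0 : P ≠ 0) : IsUnit P := by
  let W : Subrepresentation ρ :=
    { toSubmodule := LinearMap.ker (Matrix.toLin' P)
      apply_mem_toSubmodule := by
        intro g v hv
        rw [LinearMap.mem_ker, Matrix.toLin'_apply] at hv ⊢
        rw [← mat_mulVec, Matrix.mulVec_mulVec, ← hP g, ← Matrix.mulVec_mulVec, hv,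
          Matrix.mulVec_zero] }
  rcases eq_bot_or_eq_top W with h | h
  · rw [← Matrix.mulVec_injective_iff_isUnit]
    have hker : LinearMap.ker (Matrix.toLin' P) = ⊥ := by
      have := congrArg Subrepresentation.toSubmodule h
      exact this
    rw [Matrix.ker_toLin'_eq_bot_iff] at hker
    intro v w hvw
    have : P *ᵥ (v - w) = 0 := by rw [Matrix.mulVec_sub, hvw, sub_self]
    exact sub_eq_zero.mp (hker _ this)
  · exfalso
    apply hP0
    apply Matrix.toLin'.injective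
    rw [map_zero]
    refine LinearMap.ext fun v => ?_
    have hv : v ∈ W.toSubmodule := by rw [h]; trivial
    exact hv

/-- A representation realized over the reals has Frobenius–Schur indicator one. -/
theorem fsInd_eq_one_of_real [Fintype G] (ρ : Representation ℂ G (Fin n → ℂ))
    [hirr : ρ.IsIrreducible] {m : ℕ} (σ : Representation ℝ G (Fin m → ℝ))
    (hσ : ∀ g : G, ((LinearMap.trace ℝ (Fin m → ℝ) (σ g) : ℝ) : ℂ) = ρ.character g) :
    fsInd ρ.character = 1 := by
  classical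
  -- the real matrices
  set Yr : G → Matrix (Fin m) (Fin m) ℝ := fun g => LinearMap.toMatrix' (σ g) with hYr
  have hYr_mul : ∀ g h, Yr (g * h) = Yr g * Yr h := by
    intro g h
    simp [hYr, map_mul, LinearMap.toMatrix'_mul]
  have hYr_one : Yr 1 = 1 := by
    simp [hYr, LinearMap.toMatrix'_one]
  have hYr_tr : ∀ g, LinearMap.trace ℝ (Fin m → ℝ) (σ g) = (Yr g).trace := by
    intro g
    rw [LinearMap.trace_eq_matrix_trace ℝ (Pi.basisFun ℝ (Fin m)),
      LinearMap.toMatrix_eq_toMatrix']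
  set Y : G → Matrix (Fin m) (Fin m) ℂ := fun g => (Yr g).map Complex.ofRealHom with hYdef
  have hY_mul : ∀ g h, Y (g * h) = Y g * Y h := by
    intro g h
    simp only [hYdef, hYr_mul, Matrix.map_mul]
  have hY_one : Y 1 = 1 := by
    simp only [hYdef, hYr_one]
    exact Matrix.map_one _ (map_zero _) (map_one _)
  have hY_tr : ∀ g, (Y g).trace = ρ.character g := by
    intro g
    rw [← hσ g, hYr_tr g]
    simp [hYdef, Matrix.trace, Matrix.map_apply]
  -- dimensions agree
  have hmn : m = n := by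
    have h1 := hY_tr 1
    rw [hY_one, Matrix.trace_one, character_eq_trace, mat_one, Matrix.trace_one] at h1
    simpa using h1
  subst hmn
  obtain ⟨B, hB⟩ := exists_average_ne_zero ρ Y hY_tr
  set P := ∑ g : G, Y g * B * mat ρ g⁻¹ with hPdef
  have hP : ∀ h, Y h * P = P * mat ρ h := fun h => average_intertwine ρ Y hY_mul B h
  have hPu := isUnit_of_intertwine ρ Y P hP hB
  have hdet : IsUnit P.det := (Matrix.isUnit_iff_isUnit_det P).1 hPu
  have hP1 : P⁻¹ * P = 1 := Matrix.nonsing_inv_mul P hdet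
  have hP2 : P * P⁻¹ = 1 := Matrix.mul_nonsing_inv P hdet
  -- the invariant symmetric form
  set Hr : Matrix (Fin m) (Fin m) ℝ := ∑ g : G, (Yr g)ᵀ * Yr g with hHr
  set H : Matrix (Fin m) (Fin m) ℂ := ∑ g : G, (Y g)ᵀ * Y g with hH
  have hHsymm : Hᵀ = H := by
    rw [hH, Matrix.transpose_sum]
    refine Finset.sum_congr rfl fun g _ => ?_
    rw [Matrix.transpose_mul, Matrix.transpose_transpose]
  have hHinv : ∀ h, (Y h)ᵀ * H * Y h = H := by
    intro h
    rw [hH, Finset.mul_sum, Finset.sum_mul]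
    refine Fintype.sum_equiv (Equiv.mulRight h) _ _ fun g => ?_
    simp only [Equiv.coe_mulRight]
    rw [hY_mul, Matrix.transpose_mul]
    simp only [Matrix.mul_assoc]
  have hHmap : H = Hr.map Complex.ofRealHom := by
    rw [hH, hHr]
    ext i j
    simp only [Matrix.sum_apply, Matrix.map_apply, Matrix.mul_apply, Matrix.transpose_apply,
      hYdef, map_sum, map_mul]
  have hm : 0 < m := pos_dim ρ
  have hH0 : H ≠ 0 := by
    intro h0
    have h1 : Hr ⟨0, hm⟩ ⟨0, hm⟩ = 0 := by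
      have := congrFun (congrFun h0 ⟨0, hm⟩) ⟨0, hm⟩
      rw [hHmap, Matrix.map_apply] at this
      simpa using this
    rw [hHr, Matrix.sum_apply] at h1
    have h2 : ∀ g ∈ (Finset.univ : Finset G), 0 ≤ ((Yr g)ᵀ * Yr g) ⟨0, hm⟩ ⟨0, hm⟩ := by
      intro g _
      rw [Matrix.mul_apply]
      refine Finset.sum_nonneg fun k _ => ?_
      rw [Matrix.transpose_apply]
      exact mul_self_nonneg _
    have h3 := (Finset.sum_eq_zero_iff_of_nonneg h2).1 h1 1 (Finset.mem_univ _)
    rw [hYr_one] at h3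
    simp at h3
  set M' := Pᵀ * H * P with hM'
  have hM'inv : IsInvForm ρ M' := by
    intro g
    calc (mat ρ g)ᵀ * M' * mat ρ g = (P * mat ρ g)ᵀ * H * (P * mat ρ g) := by
          rw [hM', Matrix.transpose_mul]; simp only [Matrix.mul_assoc]
      _ = Pᵀ * ((Y g)ᵀ * H * Y g) * P := by
          rw [← hP g, Matrix.transpose_mul]; simp only [Matrix.mul_assoc]
      _ = M' := by rw [hHinv g]
  have hM'symm : M'ᵀ = M' := by
    rw [hM', Matrix.transpose_mul, Matrix.transpose_mul, Matrix.transpose_transpose, hHsymm,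
      Matrix.mul_assoc]
  have hM'0 : M' ≠ 0 := by
    intro h0
    apply hH0
    have hPt : (P⁻¹)ᵀ * Pᵀ = 1 := by
      rw [← Matrix.transpose_mul, hP2, Matrix.transpose_one]
    calc H = ((P⁻¹)ᵀ * Pᵀ) * H * (P * P⁻¹) := by rw [hPt, hP2, Matrix.one_mul, Matrix.mul_one]
      _ = (P⁻¹)ᵀ * M' * P⁻¹ := by rw [hM']; simp only [Matrix.mul_assoc]
      _ = 0 := by rw [h0, Matrix.mul_zero, Matrix.zero_mul]
  obtain ⟨_, h2⟩ := fsInd_of_isInvForm hM'inv hM'0
  rw [hM'symm] at h2
  have h3 : (1 - fsInd ρ.character) • M' = 0 := by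
    rw [sub_smul, one_smul, ← h2, sub_self]
  rcases smul_eq_zero.1 h3 with h | h
  · exact (sub_eq_zero.1 h).symm
  · exact absurd h hM'0

/-! ### Part II: indicator one gives a real representation -/

/-- entrywise complex conjugation as a ring homomorphism -/
noncomputable def cj : Matrix (Fin n) (Fin n) ℂ →+* Matrix (Fin n) (Fin n) ℂ :=
  (starRingEnd ℂ).mapMatrix

theorem cj_apply (A : Matrix (Fin n) (Fin n) ℂ) (i j : Fin n) : cj A i j = conj (A i j) := rfl

theorem cj_cj (A : Matrix (Fin n) (Fin n) ℂ) : cj (cj A) = A := by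
  ext i j; simp [cj_apply]

theorem cj_smul (c : ℂ) (A : Matrix (Fin n) (Fin n) ℂ) : cj (c • A) = conj c • cj A := by
  ext i j; simp [cj_apply]

theorem cj_transpose (A : Matrix (Fin n) (Fin n) ℂ) : cj Aᵀ = Aᴴ := by
  ext i j; simp [cj_apply]

theorem conjTranspose_cj (A : Matrix (Fin n) (Fin n) ℂ) : (cj A)ᴴ = Aᵀ := by
  ext i j; simp [cj_apply]

theorem conjTranspose_transpose_eq_cj (A : Matrix (Fin n) (Fin n) ℂ) : Aᴴᵀ = cj A := by
  ext i j; simp [cj_apply]

/-- the squared Frobenius norm -/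
noncomputable def frob (A : Matrix (Fin n) (Fin n) ℂ) : ℝ := ∑ i, ∑ j, Complex.normSq (A i j)

theorem trace_conjTranspose_mul (A : Matrix (Fin n) (Fin n) ℂ) :
    (Aᴴ * A).trace = (frob A : ℂ) := by
  unfold frob
  rw [Matrix.trace]
  push_cast
  rw [Finset.sum_comm]
  refine Finset.sum_congr rfl fun i _ => ?_
  simp only [Matrix.diag_apply, Matrix.mul_apply, Matrix.conjTranspose_apply]
  refine Finset.sum_congr rfl fun j _ => ?_
  rw [Complex.star_def, ← Complex.normSq_eq_conj_mul_self]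

theorem frob_nonneg (A : Matrix (Fin n) (Fin n) ℂ) : 0 ≤ frob A :=
  Finset.sum_nonneg fun _ _ => Finset.sum_nonneg fun _ _ => Complex.normSq_nonneg _

theorem frob_pos {A : Matrix (Fin n) (Fin n) ℂ} (hA : A ≠ 0) : 0 < frob A := by
  rcases (frob_nonneg A).lt_or_eq with h | h
  · exact h
  · exfalso
    apply hA
    ext i j
    have h1 := (Finset.sum_eq_zero_iff_of_nonneg
      (fun i _ => Finset.sum_nonneg fun j _ => Complex.normSq_nonneg (A i j))).1 h.symm i
      (Finset.mem_univ _)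
    have h2 := (Finset.sum_eq_zero_iff_of_nonneg
      (fun j _ => Complex.normSq_nonneg (A i j))).1 h1 j (Finset.mem_univ _)
    simpa using h2

/-- a matrix `S` with `X g * S = S * conj (X g)` and `S * conj S` a positive real scalar -/
theorem exists_conj_intertwiner [Fintype G] (ρ : Representation ℂ G (Fin n → ℂ))
    [hirr : ρ.IsIrreducible] (h1 : fsInd ρ.character = 1) :
    ∃ S : Matrix (Fin n) (Fin n) ℂ, (∀ g, mat ρ g * S = S * cj (mat ρ g)) ∧
      ∃ r : ℝ, 0 < r ∧ S * cj S = (r : ℂ) • (1 : Matrix (Fin n) (Fin n) ℂ) := by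
  classical
  have hn : 0 < n := pos_dim ρ
  have hne : fsInd ρ.character ≠ 0 := by rw [h1]; exact one_ne_zero
  obtain ⟨M, hM0, hM⟩ := exists_isInvForm_of_char_inv ((fsInd_ne_zero_iff ρ).1 hne)
  have hMsymm : Mᵀ = M := by
    have := (fsInd_of_isInvForm hM hM0).2
    rwa [h1, one_smul] at this
  have hMu := isInvForm_isUnit hM hM0
  have hdet : IsUnit M.det := (Matrix.isUnit_iff_isUnit_det M).1 hMu
  have hM1 : M⁻¹ * M = 1 := Matrix.nonsing_inv_mul M hdet
  have hM2 : M * M⁻¹ = 1 := Matrix.mul_nonsing_inv M hdet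
  set H : Matrix (Fin n) (Fin n) ℂ := ∑ g : G, (mat ρ g)ᴴ * mat ρ g with hH
  have hHherm : Hᴴ = H := by
    rw [hH, Matrix.conjTranspose_sum]
    refine Finset.sum_congr rfl fun g _ => ?_
    rw [Matrix.conjTranspose_mul, Matrix.conjTranspose_conjTranspose]
  have hHinv : ∀ h, (mat ρ h)ᴴ * H * mat ρ h = H := by
    intro h
    rw [hH, Finset.mul_sum, Finset.sum_mul]
    refine Fintype.sum_equiv (Equiv.mulRight h) _ _ fun g => ?_
    simp only [Equiv.coe_mulRight]
    rw [mat_mul, Matrix.conjTranspose_mul]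
    simp only [Matrix.mul_assoc]
  have hHtr : H.trace = ((∑ g : G, frob (mat ρ g) : ℝ) : ℂ) := by
    rw [hH, Matrix.trace_sum]
    push_cast
    exact Finset.sum_congr rfl fun g _ => trace_conjTranspose_mul _
  have ha : 0 < ∑ g : G, frob (mat ρ g) := by
    refine Finset.sum_pos' (fun g _ => frob_nonneg _) ⟨1, Finset.mem_univ _, ?_⟩
    apply frob_pos
    rw [mat_one]
    intro h0
    have := congrFun (congrFun h0 ⟨0, hn⟩) ⟨0, hn⟩
    simp at this
  obtain ⟨S, hS⟩ : ∃ S, S = M⁻¹ * Hᵀ := ⟨_, rfl⟩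
  have hMS : M * S = Hᵀ := by rw [hS, ← Matrix.mul_assoc, hM2, Matrix.one_mul]
  have hS1 : ∀ g, mat ρ g * S = S * cj (mat ρ g) := by
    intro g
    have e1 : mat ρ g * M⁻¹ = M⁻¹ * (mat ρ g⁻¹)ᵀ := by
      calc mat ρ g * M⁻¹ = M⁻¹ * (M * mat ρ g) * M⁻¹ := by
            rw [← Matrix.mul_assoc, hM1, Matrix.one_mul]
        _ = M⁻¹ * ((mat ρ g⁻¹)ᵀ * M) * M⁻¹ := by rw [isInvForm_mul_mat hM g]
        _ = M⁻¹ * (mat ρ g⁻¹)ᵀ * (M * M⁻¹) := by simp only [Matrix.mul_assoc]
        _ = M⁻¹ * (mat ρ g⁻¹)ᵀ := by rw [hM2, Matrix.mul_one]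
    have e2 : (mat ρ g⁻¹)ᵀ * Hᵀ = Hᵀ * cj (mat ρ g) := by
      have h3 := congrArg Matrix.transpose (hHinv g⁻¹)
      rw [Matrix.transpose_mul, Matrix.transpose_mul, conjTranspose_transpose_eq_cj] at h3
      calc (mat ρ g⁻¹)ᵀ * Hᵀ = (mat ρ g⁻¹)ᵀ * Hᵀ * cj (mat ρ g⁻¹ * mat ρ g) := by
            rw [mat_inv_mul, map_one, Matrix.mul_one]
        _ = ((mat ρ g⁻¹)ᵀ * (Hᵀ * cj (mat ρ g⁻¹))) * cj (mat ρ g) := by
            rw [map_mul]; simp only [Matrix.mul_assoc]
        _ = Hᵀ * cj (mat ρ g) := by rw [h3]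
    calc mat ρ g * S = mat ρ g * M⁻¹ * Hᵀ := by rw [hS, Matrix.mul_assoc]
      _ = M⁻¹ * ((mat ρ g⁻¹)ᵀ * Hᵀ) := by rw [e1, Matrix.mul_assoc]
      _ = S * cj (mat ρ g) := by rw [e2, hS, Matrix.mul_assoc]
  have hcomm : ∀ g, mat ρ g * (S * cj S) = (S * cj S) * mat ρ g := by
    intro g
    calc mat ρ g * (S * cj S) = S * cj (mat ρ g) * cj S := by rw [← Matrix.mul_assoc, hS1 g]
      _ = S * cj (mat ρ g * S) := by rw [map_mul, Matrix.mul_assoc]
      _ = S * cj (S * cj (mat ρ g)) := by rw [hS1 g]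
      _ = S * cj S * mat ρ g := by rw [map_mul, cj_cj, Matrix.mul_assoc]
  obtain ⟨c, hc⟩ := schur_scalar ρ _ hcomm
  obtain ⟨W, hW⟩ : ∃ W, W = cj S := ⟨_, rfl⟩
  have hMW : cj M * W = H := by
    rw [hW, ← map_mul, hMS, cj_transpose, hHherm]
  have hWM : Wᴴ * M = H := by
    have hMc : Mᴴ = cj M := by rw [← cj_transpose, hMsymm]
    calc Wᴴ * M = (Mᴴ * W)ᴴ := by
          rw [Matrix.conjTranspose_mul, Matrix.conjTranspose_conjTranspose]
      _ = H := by rw [hMc, hMW, hHherm]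
  have hkey : Wᴴ * Hᵀ * W = c • H := by
    calc Wᴴ * Hᵀ * W = Wᴴ * M * (S * W) := by rw [← hMS]; simp only [Matrix.mul_assoc]
      _ = c • H := by rw [hW, hc, ← hW, hWM, Matrix.mul_smul, Matrix.mul_one]
  have hHT : Hᵀ = ∑ g : G, (cj (mat ρ g))ᴴ * cj (mat ρ g) := by
    rw [hH, Matrix.transpose_sum]
    refine Finset.sum_congr rfl fun g _ => ?_
    rw [Matrix.transpose_mul, conjTranspose_cj, conjTranspose_transpose_eq_cj]
  have hkey2 : Wᴴ * Hᵀ * W = ∑ g : G, (cj (mat ρ g) * W)ᴴ * (cj (mat ρ g) * W) := by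
    rw [hHT, Finset.mul_sum, Finset.sum_mul]
    refine Finset.sum_congr rfl fun g _ => ?_
    rw [Matrix.conjTranspose_mul]; simp only [Matrix.mul_assoc]
  have htr : c * ((∑ g : G, frob (mat ρ g) : ℝ) : ℂ)
      = ((∑ g : G, frob (cj (mat ρ g) * W) : ℝ) : ℂ) := by
    rw [← hHtr, ← smul_eq_mul, ← Matrix.trace_smul, ← hkey, hkey2, Matrix.trace_sum]
    push_cast
    exact Finset.sum_congr rfl fun g _ => trace_conjTranspose_mul _
  have hW0 : W ≠ 0 := by
    intro h0
    rw [h0, Matrix.mul_zero] at hMW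
    rw [← hMW, Matrix.trace_zero] at hHtr
    have : (∑ g : G, frob (mat ρ g)) = 0 := by exact_mod_cast hHtr.symm
    exact ha.ne' this
  have hb : 0 < ∑ g : G, frob (cj (mat ρ g) * W) := by
    refine Finset.sum_pos' (fun g _ => frob_nonneg _) ⟨1, Finset.mem_univ _, ?_⟩
    apply frob_pos
    rw [mat_one, map_one, Matrix.one_mul]
    exact hW0
  refine ⟨S, hS1, (∑ g : G, frob (cj (mat ρ g) * W)) / (∑ g : G, frob (mat ρ g)),
    div_pos hb ha, ?_⟩
  rw [hc]
  congr 1
  have ha' : ((∑ g : G, frob (mat ρ g) : ℝ) : ℂ) ≠ 0 := by exact_mod_cast ha.ne'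
  rw [Complex.ofReal_div, eq_div_iff ha']
  exact htr

/-- a normalized `S` with `X g * S = S * conj (X g)` and `S * conj S = 1` -/
theorem exists_conj_intertwiner_normalized [Fintype G] (ρ : Representation ℂ G (Fin n → ℂ))
    [hirr : ρ.IsIrreducible] (h1 : fsInd ρ.character = 1) :
    ∃ S : Matrix (Fin n) (Fin n) ℂ, (∀ g, mat ρ g * S = S * cj (mat ρ g)) ∧ S * cj S = 1 := by
  obtain ⟨S, hS1, r, hr, hS2⟩ := exists_conj_intertwiner ρ h1
  set a : ℝ := (Real.sqrt r)⁻¹ with ha
  have hsq : a * a * r = 1 := by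
    have h2 : Real.sqrt r * Real.sqrt r = r := Real.mul_self_sqrt hr.le
    have h3 : Real.sqrt r ≠ 0 := (Real.sqrt_pos.2 hr).ne'
    calc a * a * r = (Real.sqrt r)⁻¹ * (Real.sqrt r)⁻¹ * (Real.sqrt r * Real.sqrt r) := by
          rw [h2]
      _ = ((Real.sqrt r)⁻¹ * Real.sqrt r) * ((Real.sqrt r)⁻¹ * Real.sqrt r) := by ring
      _ = 1 := by rw [inv_mul_cancel₀ h3, one_mul]
  refine ⟨(a : ℂ) • S, fun g => ?_, ?_⟩
  · rw [Matrix.mul_smul, Matrix.smul_mul, hS1 g]
  · rw [cj_smul, Complex.conj_ofReal, Matrix.smul_mul, Matrix.mul_smul, hS2, smul_smul, smul_smul]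
    have : (a : ℂ) * (a : ℂ) * (r : ℂ) = 1 := by exact_mod_cast hsq
    rw [this, one_smul]

/-- if `A + z • B` is invertible for some complex `z`, it is invertible for some real `z` -/
theorem exists_real_isUnit_add_smul (A B : Matrix (Fin n) (Fin n) ℂ) (z₀ : ℂ)
    (h : IsUnit (A + z₀ • B)) : ∃ t : ℝ, IsUnit (A + (t : ℂ) • B) := by
  classical
  set N : Matrix (Fin n) (Fin n) (Polynomial ℂ) :=
    A.map Polynomial.C + (Polynomial.X : Polynomial ℂ) • B.map Polynomial.C with hN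
  have heval : ∀ z : ℂ, Polynomial.eval z N.det = (A + z • B).det := by
    intro z
    have h1 := (Polynomial.evalRingHom z).map_det N
    have h2 : (Polynomial.evalRingHom z).mapMatrix N = A + z • B := by
      ext i j
      simp [hN, Matrix.add_apply, Matrix.smul_apply]
      ring
    rw [h2] at h1
    exact h1
  have hp : N.det ≠ 0 := by
    intro h0
    have h1 := heval z₀
    rw [h0, Polynomial.eval_zero] at h1
    exact ((Matrix.isUnit_iff_isUnit_det _).1 h).ne_zero h1.symm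
  by_contra hcon
  push Not at hcon
  apply hp
  apply Polynomial.eq_zero_of_infinite_isRoot
  refine Set.Infinite.mono ?_ (Set.infinite_range_of_injective Complex.ofReal_injective)
  rintro _ ⟨t, rfl⟩
  show Polynomial.IsRoot N.det (t : ℂ)
  rw [Polynomial.IsRoot, heval]
  by_contra hdet
  exact hcon t ((Matrix.isUnit_iff_isUnit_det _).2 (isUnit_iff_ne_zero.2 hdet))

/-- Hilbert 90 for matrices: `S * conj S = 1` implies `S * conj P = P` for an invertible `P` -/
theorem exists_unit_hilbert90 (S : Matrix (Fin n) (Fin n) ℂ) (hS : S * cj S = 1) :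
    ∃ P : Matrix (Fin n) (Fin n) ℂ, IsUnit P ∧ S * cj P = P := by
  have hu : IsUnit ((1 + S) + Complex.I • (Complex.I • (1 - S))) := by
    have h1 : (1 + S) + Complex.I • (Complex.I • (1 - S)) = S + S := by
      rw [smul_smul, Complex.I_mul_I, neg_one_smul]
      abel
    rw [h1]
    have h2 : (S + S) * ((1 / 2 : ℂ) • cj S) = 1 := by
      rw [Matrix.mul_smul, add_mul, hS, ← two_smul ℂ (1 : Matrix (Fin n) (Fin n) ℂ), smul_smul]
      norm_num
    exact IsUnit.of_mul_eq_one _ h2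
  obtain ⟨t, ht⟩ := exists_real_isUnit_add_smul (1 + S) (Complex.I • (1 - S)) Complex.I hu
  refine ⟨_, ht, ?_⟩
  have hcjS : S * cj S = 1 := hS
  rw [map_add, map_add, map_one, cj_smul, cj_smul, map_sub, map_one, Complex.conj_ofReal,
    Complex.conj_I, Matrix.mul_add, Matrix.mul_add, Matrix.mul_one, Matrix.mul_smul,
    Matrix.mul_smul, Matrix.mul_sub, Matrix.mul_one, hcjS]
  rw [smul_smul, smul_smul, mul_neg, neg_smul, ← smul_neg, neg_sub]
  abel

/-- An irreducible representation with Frobenius–Schur indicator one is realized over the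
reals. -/
theorem exists_real_of_fsInd_eq_one [Fintype G] (ρ : Representation ℂ G (Fin n → ℂ))
    [hirr : ρ.IsIrreducible] (h1 : fsInd ρ.character = 1) :
    ∃ σ : Representation ℝ G (Fin n → ℝ),
      ∀ g : G, ((LinearMap.trace ℝ (Fin n → ℝ) (σ g) : ℝ) : ℂ) = ρ.character g := by
  classical
  obtain ⟨S, hS1, hS2⟩ := exists_conj_intertwiner_normalized ρ h1
  obtain ⟨P, hPu, hSP⟩ := exists_unit_hilbert90 S hS2
  have hdet : IsUnit P.det := (Matrix.isUnit_iff_isUnit_det P).1 hPu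
  have hP1 : P⁻¹ * P = 1 := Matrix.nonsing_inv_mul P hdet
  have hP2 : P * P⁻¹ = 1 := Matrix.mul_nonsing_inv P hdet
  obtain ⟨R, hR⟩ : ∃ R : G → Matrix (Fin n) (Fin n) ℂ, ∀ g, R g = P⁻¹ * mat ρ g * P :=
    ⟨_, fun _ => rfl⟩
  have hR_mul : ∀ g h, R (g * h) = R g * R h := by
    intro g h
    rw [hR, hR, hR, mat_mul]
    calc P⁻¹ * (mat ρ g * mat ρ h) * P = P⁻¹ * mat ρ g * (P * P⁻¹) * mat ρ h * P := by
          rw [hP2]; simp only [Matrix.mul_assoc, Matrix.mul_one]
      _ = P⁻¹ * mat ρ g * P * (P⁻¹ * mat ρ h * P) := by simp only [Matrix.mul_assoc]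
  have hR_one : R 1 = 1 := by rw [hR, mat_one, Matrix.mul_one, hP1]
  have hR_tr : ∀ g, (R g).trace = ρ.character g := by
    intro g
    rw [character_eq_trace, hR, Matrix.mul_assoc, Matrix.trace_mul_comm, Matrix.mul_assoc, hP2,
      Matrix.mul_one]
  have hPR : ∀ g, P * R g = mat ρ g * P := by
    intro g
    rw [hR, ← Matrix.mul_assoc, ← Matrix.mul_assoc, hP2, Matrix.one_mul]
  have hR_real : ∀ g, cj (R g) = R g := by
    intro g
    have h2 : P * cj (R g) = P * R g := by
      calc P * cj (R g) = S * (cj P * cj (R g)) := by rw [← Matrix.mul_assoc, hSP]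
        _ = S * cj (P * R g) := by rw [map_mul]
        _ = S * cj (mat ρ g * P) := by rw [hPR]
        _ = S * cj (mat ρ g) * cj P := by rw [map_mul, Matrix.mul_assoc]
        _ = mat ρ g * (S * cj P) := by rw [← hS1 g, Matrix.mul_assoc]
        _ = P * R g := by rw [hSP, hPR]
    calc cj (R g) = P⁻¹ * (P * cj (R g)) := by rw [← Matrix.mul_assoc, hP1, Matrix.one_mul]
      _ = R g := by rw [h2, ← Matrix.mul_assoc, hP1, Matrix.one_mul]
  obtain ⟨Rr, hRr⟩ : ∃ Rr : G → Matrix (Fin n) (Fin n) ℝ, ∀ g, Rr g = (R g).map Complex.re :=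
    ⟨_, fun _ => rfl⟩
  have hRr_map : ∀ g, (Rr g).map Complex.ofRealHom = R g := by
    intro g
    ext i j
    rw [hRr, Matrix.map_apply, Matrix.map_apply, Complex.ofRealHom_eq_coe]
    have h3 := congrFun (congrFun (hR_real g) i) j
    rw [cj_apply] at h3
    exact Complex.conj_eq_iff_re.1 h3
  have hinj : ∀ A B : Matrix (Fin n) (Fin n) ℝ,
      A.map Complex.ofRealHom = B.map Complex.ofRealHom → A = B := by
    intro A B hAB
    ext i j
    have := congrFun (congrFun hAB i) j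
    simpa using this
  have hRr_mul : ∀ g h, Rr (g * h) = Rr g * Rr h := by
    intro g h
    apply hinj
    rw [Matrix.map_mul, hRr_map, hRr_map, hRr_map, hR_mul]
  have hRr_one : Rr 1 = 1 := by
    apply hinj
    rw [hRr_map, hR_one, Matrix.map_one _ (map_zero _) (map_one _)]
  let σ : Representation ℝ G (Fin n → ℝ) :=
    { toFun := fun g => Matrix.toLin' (Rr g)
      map_one' := by rw [hRr_one, Matrix.toLin'_one]; rfl
      map_mul' := fun g h => by rw [hRr_mul, Matrix.toLin'_mul]; rfl }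
  refine ⟨σ, fun g => ?_⟩
  have h4 : LinearMap.trace ℝ (Fin n → ℝ) (σ g) = (Rr g).trace := by
    rw [LinearMap.trace_eq_matrix_trace ℝ (Pi.basisFun ℝ (Fin n)),
      LinearMap.toMatrix_eq_toMatrix']
    show (LinearMap.toMatrix' (Matrix.toLin' (Rr g))).trace = _
    rw [LinearMap.toMatrix'_toLin']
  rw [h4, ← hR_tr g, ← hRr_map g]
  simp [Matrix.trace, Matrix.map_apply]

end Cfsg.Agent.Lib.Helper74.RealRep
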