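import Mathlib
import Cfsg.Prelude.Def_Characters
import Cfsg.Agent.Lib.CT.IndChar
import Cfsg.Agent.Lib.CT.FSInd
import Cfsg.Agent.Lib.CT.LinChar
import Cfsg.Agent.Lib.Helper26.Coherence
import Cfsg.Agent.Lib.Helper74.RealRep

/-!
# Induction of real representations and the Frobenius–Schur indicator

The representation induced from a real representation is real; hence an irreducible character
induced from a character afforded by a real representation has Frobenius–Schur indicator one.
Also: a linear character with indicator one takes the value one on squares.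
-/

set_option autoImplicit false
set_option linter.unusedSectionVars false
set_option linter.unusedVariables false

namespace Cfsg.Agent.Lib.Helper74.RealInd

open Cfsg Cfsg.Agent.Lib.CT Cfsg.Agent.Lib.CT.IndChar Cfsg.Agent.Lib.CT.FSInd
open Cfsg.Agent.Lib.Helper26
open scoped ComplexConjugate

universe u

variable {G : Type u} [Group G] (H : Subgroup G) {n : ℕ} (σ : Representation ℝ H (Fin n → ℝ))

/-- The induced real representation on `(G ⧸ H) → (Fin n → ℝ)`. -/
noncomputable def indRepR : Representation ℝ G ((G ⧸ H) → (Fin n → ℝ)) where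
  toFun g := LinearMap.pi (fun q => (σ (cocycle H g (g⁻¹ • q))).comp (LinearMap.proj (g⁻¹ • q)))
  map_one' := by
    apply LinearMap.ext
    intro F
    funext q
    simp [cocycle_one]
  map_mul' g g' := by
    apply LinearMap.ext
    intro F
    funext q
    simp only [LinearMap.pi_apply, LinearMap.coe_comp, LinearMap.coe_proj, Function.comp_apply,
      Function.eval, Module.End.mul_apply]
    rw [cocycle_mul, map_mul, Module.End.mul_apply]
    have h1 : g' • (g * g')⁻¹ • q = g⁻¹ • q := by
      rw [← mul_smul]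
      congr 1
      group
    have h2 : (g * g')⁻¹ • q = g'⁻¹ • g⁻¹ • q := by
      rw [← mul_smul]
      congr 1
      group
    rw [h1, h2]

theorem indRepR_apply (g : G) (F : (G ⧸ H) → (Fin n → ℝ)) (q : G ⧸ H) :
    indRepR H σ g F q = σ (cocycle H g (g⁻¹ • q)) (F (g⁻¹ • q)) := rfl

/-- The trace of the induced real representation. -/
theorem trace_indRepR [Fintype (G ⧸ H)] [DecidableEq (G ⧸ H)] (g : G) :
    LinearMap.trace ℝ ((G ⧸ H) → (Fin n → ℝ)) (indRepR H σ g) =
      ∑ q : G ⧸ H, if g • q = q then LinearMap.trace ℝ (Fin n → ℝ) (σ (cocycle H g q)) else 0 := by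
  rw [LinearMap.trace_eq_matrix_trace ℝ (Pi.basis (fun _ : G ⧸ H => Pi.basisFun ℝ (Fin n)))]
  rw [Matrix.trace, Fintype.sum_sigma]
  apply Finset.sum_congr rfl
  intro q _
  simp only [Matrix.diag_apply, LinearMap.toMatrix_apply, Pi.basis_apply, Pi.basis_repr,
    Pi.basisFun_apply, Pi.basisFun_repr, indRepR_apply]
  by_cases hq : g • q = q
  · have hq' : g⁻¹ • q = q := by
      rw [inv_smul_eq_iff, hq]
    rw [if_pos hq]
    simp only [hq', Pi.single_eq_same]
    rw [LinearMap.trace_eq_matrix_trace ℝ (Pi.basisFun ℝ (Fin n))]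
    simp [Matrix.trace]
  · have hq' : g⁻¹ • q ≠ q := by
      intro h
      apply hq
      rw [inv_smul_eq_iff] at h
      exact h.symm
    rw [if_neg hq]
    simp [Pi.single_eq_of_ne hq']

/-- The trace of the induced real representation is the induced function of the trace. -/
theorem trace_indRepR_eq_indFun [Fintype G] (θ : H → ℂ)
    (hθ : ∀ h : H, ((LinearMap.trace ℝ (Fin n → ℝ) (σ h) : ℝ) : ℂ) = θ h) (g : G) :
    ((LinearMap.trace ℝ ((G ⧸ H) → (Fin n → ℝ)) (indRepR H σ g) : ℝ) : ℂ) = indFun H θ g := by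
  classical
  have : Fintype (G ⧸ H) := Fintype.ofFinite _
  have hcf : IsClassFunction H θ := by
    intro x y
    rw [← hθ, ← hθ]
    congr 1
    exact Representation.char_conj σ x y
  rw [indFun_eq_sum_rep H θ hcf g, trace_indRepR, Complex.ofReal_sum]
  apply Finset.sum_congr rfl
  intro q _
  by_cases hq : g • q = q
  · have hmem := (smul_eq_iff_mem H g q).mp hq
    rw [if_pos hq, FrobRec.extendByZero_apply_of_mem H _ hmem, hθ]
    congr 1
    apply Subtype.ext
    simp [cocycle, hq]
  · have hmem : (rep H q)⁻¹ * g * rep H q ∉ H := fun h => hq ((smul_eq_iff_mem H g q).mpr h)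
    rw [if_neg hq, FrobRec.extendByZero_apply_of_not_mem H _ hmem, Complex.ofReal_zero]

/-- An irreducible character induced from the trace of a real representation has
Frobenius–Schur indicator one. -/
theorem fsInd_indFun_eq_one [Fintype G] (θ : H → ℂ)
    (hθ : ∀ h : H, ((LinearMap.trace ℝ (Fin n → ℝ) (σ h) : ℝ) : ℂ) = θ h)
    (hirr : IsIrrCharacter G (indFun H θ)) : fsInd (indFun H θ) = 1 := by
  classical
  have : Fintype (G ⧸ H) := Fintype.ofFinite _
  obtain ⟨m, ρ, hρirr, hρ⟩ := hirr
  obtain ⟨e, he⟩ : ∃ e : ((G ⧸ H) → (Fin n → ℝ)) ≃ₗ[ℝ]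
      (Fin (Module.finrank ℝ ((G ⧸ H) → (Fin n → ℝ))) → ℝ),
      e = (Module.finBasis ℝ ((G ⧸ H) → (Fin n → ℝ))).equivFun := ⟨_, rfl⟩
  obtain ⟨τ, hτ⟩ : ∃ τ : Representation ℝ G
      (Fin (Module.finrank ℝ ((G ⧸ H) → (Fin n → ℝ))) → ℝ),
      ∀ g, τ g = e.conj (indRepR H σ g) :=
    ⟨(e.conjRingEquiv : Module.End ℝ ((G ⧸ H) → (Fin n → ℝ)) →* _).comp (indRepR H σ),
      fun g => rfl⟩
  have hτtr : ∀ g : G, ((LinearMap.trace ℝ _ (τ g) : ℝ) : ℂ) = ρ.character g := by
    intro g
    rw [hτ, LinearMap.trace_conj', trace_indRepR_eq_indFun H σ θ hθ g, hρ]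
  have := hρirr
  have h1 := Cfsg.Agent.Lib.Helper74.RealRep.fsInd_eq_one_of_real ρ τ hτtr
  rw [hρ] at h1
  exact h1

/-- A linear character with Frobenius–Schur indicator one is trivial on squares. -/
theorem linear_sq_eq_one [Fintype G] {μ : G → ℂ} (hμ : IsCharacter G μ) (h1 : μ 1 = 1)
    (hfs : fsInd μ = 1) (g : G) : μ (g * g) = 1 := by
  obtain ⟨f, hf⟩ := LinChar.exists_hom_of_isCharacter μ hμ h1
  have hirr : IsIrrCharacter G (fun g => (((f * f) g : ℂˣ) : ℂ)) := LinChar.isIrrCharacter_of_hom (f * f)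
  have hinner' : classInner (fun g => (((f * f) g : ℂˣ) : ℂ)) (fun _ => (1 : ℂ)) = fsInd μ := by
    rw [fsInd_def]
    unfold classInner
    congr 1
    apply Finset.sum_congr rfl
    intro s _
    rw [hf, map_mul, map_one, mul_one]
    rfl
  have hinner : classInner (fun g => (((f * f) g : ℂˣ) : ℂ)) (fun _ => (1 : ℂ)) = 1 := by
    rw [hinner', hfs]
  have heq : (fun g => (((f * f) g : ℂˣ) : ℂ)) = fun _ => (1 : ℂ) := by
    by_contra hne
    rw [Coherence.irr_inner_ne hirr Ops.isIrrCharacter_one hne] at hinner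
    exact zero_ne_one hinner
  have := congrFun heq g
  rw [hf, map_mul]
  simpa using this

end Cfsg.Agent.Lib.Helper74.RealInd
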