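import Mathlib
import Cfsg.Agent.Lib.Helper96.SylAltBasic

set_option autoImplicit false

namespace Cfsg.Agent.Lib.Helper74.SADCORE

open Equiv Cfsg.Agent.Lib.Lead.SylTwoSym Cfsg.Agent.Lib.Helper96.SylAltStmt
  Cfsg.Agent.Lib.Helper96.SylAltBasic

section

variable {Ω : Type} [DecidableEq Ω] [Fintype Ω]

/-- the even elements of `S` supported in `V`, as a subgroup -/
def supSub (S : Subgroup (Perm Ω)) (V : Set Ω) : Subgroup (Perm Ω) where
  carrier := {x | x ∈ ev S ∧ SupOn x V}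
  one_mem' := ⟨(ev S).one_mem, fun _ _ => rfl⟩
  mul_mem' := by
    rintro x y ⟨hx, hx'⟩ ⟨hy, hy'⟩
    refine ⟨(ev S).mul_mem hx hy, fun a ha => ?_⟩
    rw [Perm.mul_apply, hy' a ha, hx' a ha]
  inv_mem' := by
    rintro x ⟨hx, hx'⟩
    refine ⟨(ev S).inv_mem hx, fun a ha => ?_⟩
    rw [Perm.inv_eq_iff_eq, hx' a ha]

/-- the even elements of `S` fixing `U` pointwise, as a subgroup -/
def fixSub (S : Subgroup (Perm Ω)) (U : Set Ω) : Subgroup (Perm Ω) where
  carrier := {x | x ∈ ev S ∧ FixOn x U}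
  one_mem' := ⟨(ev S).one_mem, fun _ _ => rfl⟩
  mul_mem' := by
    rintro x y ⟨hx, hx'⟩ ⟨hy, hy'⟩
    refine ⟨(ev S).mul_mem hx hy, fun a ha => ?_⟩
    rw [Perm.mul_apply, hy' a ha, hx' a ha]
  inv_mem' := by
    rintro x ⟨hx, hx'⟩
    refine ⟨(ev S).inv_mem hx, fun a ha => ?_⟩
    rw [Perm.inv_eq_iff_eq, hx' a ha]

theorem mem_supSub {S : Subgroup (Perm Ω)} {V : Set Ω} {x : Perm Ω} :
    x ∈ supSub S V ↔ x ∈ ev S ∧ SupOn x V := Iff.rfl

theorem mem_fixSub {S : Subgroup (Perm Ω)} {U : Set Ω} {x : Perm Ω} :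
    x ∈ fixSub S U ↔ x ∈ ev S ∧ FixOn x U := Iff.rfl

/-- an element commuting with a transposition acts on its support -/
theorem mem_pair {τ₀ x : Perm Ω} (hsw : τ₀.IsSwap) (hc : τ₀ * x = x * τ₀) {ω : Ω}
    (hω : τ₀ ω ≠ ω) : x ω = ω ∨ x ω = τ₀ ω := by
  have h1 : τ₀ (x ω) ≠ x ω := by
    have : τ₀ (x ω) = x (τ₀ ω) := by
      have := congrArg (fun f : Perm Ω => f ω) hc
      simpa [Perm.mul_apply] using this
    rw [this]
    exact fun h => hω (x.injective h)
  have h2 := swap_of_moves hsw hω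
  rw [h2] at h1
  exact (Equiv.swap_apply_ne_self_iff.mp h1).2

theorem comm_apply {τ₀ x : Perm Ω} (hc : τ₀ * x = x * τ₀) (ω : Ω) : τ₀ (x ω) = x (τ₀ ω) := by
  have := congrArg (fun f : Perm Ω => f ω) hc
  simpa [Perm.mul_apply] using this

theorem swap_sq {τ₀ : Perm Ω} (hsw : τ₀.IsSwap) : τ₀ * τ₀ = 1 := by
  ext a
  rw [Perm.mul_apply, isSwap_apply_apply hsw, Perm.one_apply]

end

theorem main : Cfsg.Agent.Lib.Helper96.SylAltStmt.DCORE' := by
  intro split _zb Ω _ _ S hS τ₀ hτ₀ hcen U hU hfix0 ⟨τ₁, hτ₁, a, haU, hτ₁a⟩ ⟨τ₂, hτ₂, hne20, hfix2⟩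
  have hsw0 : τ₀.IsSwap := hτ₀.2
  have hsq0 : τ₀ * τ₀ = 1 := swap_sq hsw0
  set V : Set Ω := U ∪ {c | τ₀ c ≠ c} with hV
  have hsup0 : SupOn τ₀ V := by
    intro c hc
    by_contra h
    exact hc (Or.inr h)
  have hnotV : ∀ c, c ∉ V → c ∉ U ∧ τ₀ c = c := by
    intro c hc
    refine ⟨fun h => hc (Or.inl h), ?_⟩
    by_contra h
    exact hc (Or.inr h)
  refine ⟨supSub S V, fixSub S U, ?_, ?_, ?_, ?_, ?_, ?_, ?_⟩
  · -- A ≠ ⊥
    intro hbot
    have hmem : τ₁ * τ₀ ∈ supSub S V := by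
      refine ⟨mem_ev.mpr ⟨S.mul_mem hτ₁.1 hτ₀.1, ?_⟩, ?_⟩
      · rw [map_mul, sign_of_mem_swapsIn hτ₁, sign_of_mem_swapsIn hτ₀]; decide
      · intro c hc
        obtain ⟨hcU, hc0⟩ := hnotV c hc
        rw [Perm.mul_apply, hc0, supOn_of_swap_moves hU hτ₁ haU hτ₁a c hcU]
    rw [hbot, Subgroup.mem_bot] at hmem
    have := congrArg (fun f : Perm Ω => f a) hmem
    simp only [Perm.mul_apply, Perm.one_apply] at this
    rw [hfix0 a haU] at this
    exact hτ₁a this
  · -- B ≠ ⊥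
    intro hbot
    have hmem : τ₂ * τ₀ ∈ fixSub S U := by
      refine ⟨mem_ev.mpr ⟨S.mul_mem hτ₂.1 hτ₀.1, ?_⟩, ?_⟩
      · rw [map_mul, sign_of_mem_swapsIn hτ₂, sign_of_mem_swapsIn hτ₀]; decide
      · intro c hc
        rw [Perm.mul_apply, hfix0 c hc, hfix2 c hc]
    rw [hbot, Subgroup.mem_bot] at hmem
    apply hne20
    calc τ₂ = τ₂ * (τ₀ * τ₀) := by rw [hsq0, mul_one]
      _ = (τ₂ * τ₀) * τ₀ := by rw [mul_assoc]
      _ = τ₀ := by rw [hmem, one_mul]
  · exact fun x hx => hx.1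
  · exact fun x hx => hx.1
  · -- commute
    intro x hx y hy
    obtain ⟨hxe, hxs⟩ := hx
    obtain ⟨hye, hyf⟩ := hy
    have hxS : x ∈ S := (mem_ev.mp hxe).1
    have hyS : y ∈ S := (mem_ev.mp hye).1
    have hcx := hcen x hxS
    have hcy := hcen y hyS
    ext ω
    simp only [Perm.mul_apply]
    by_cases hωU : ω ∈ U
    · rw [hyf ω hωU, hyf _ (hU x hxS ω hωU)]
    · by_cases hω0 : τ₀ ω = ω
      · -- ω outside V
        have hωV : ω ∉ V := by
          rintro (h | h)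
          · exact hωU h
          · exact h hω0
        have hyω : y ω ∉ V := by
          rintro (h | h)
          · exact inv_compl hU y hyS ω hωU h
          · apply h
            rw [comm_apply hcy, hω0]
        rw [hxs ω hωV, hxs _ hyω]
      · rcases mem_pair hsw0 hcx hω0 with h1 | h1 <;> rcases mem_pair hsw0 hcy hω0 with h2 | h2
        · rw [h1, h2, h1]
        · rw [h1, h2, ← comm_apply hcx, h1]
        · rw [h1, h2, h1, ← comm_apply hcy, h2]
        · rw [h1, h2, ← comm_apply hcx, h1, ← comm_apply hcy, h2]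
  · -- A ⊓ B = ⊥
    rw [eq_bot_iff]
    intro x hx
    obtain ⟨⟨hxe, hxs⟩, ⟨-, hxf⟩⟩ := hx
    rw [Subgroup.mem_bot]
    by_contra hx1
    have hxS : x ∈ S := (mem_ev.mp hxe).1
    have hcx := hcen x hxS
    obtain ⟨ω, hω⟩ : ∃ ω, x ω ≠ ω := by
      by_contra hcon
      push Not at hcon
      exact hx1 (Perm.ext hcon)
    have hωU : ω ∉ U := fun h => hω (hxf ω h)
    have hω0 : τ₀ ω ≠ ω := by
      intro h
      apply hω
      apply hxs
      rintro (h' | h')
      · exact hωU h'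
      · exact h' h
    have hxω : x ω = τ₀ ω := by
      rcases mem_pair hsw0 hcx hω0 with h | h
      · exact absurd h hω
      · exact h
    have hswap := swap_of_moves hsw0 hω0
    have hxeq : x = τ₀ := by
      ext c
      by_cases hc1 : c = ω
      · rw [hc1, hxω]
      · by_cases hc2 : c = τ₀ ω
        · rw [hc2, ← comm_apply hcx, hxω]
        · have hτc : τ₀ c = c := by
            rw [hswap]
            exact Equiv.swap_apply_of_ne_of_ne hc1 hc2
          rw [hτc]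
          by_cases hcU : c ∈ U
          · exact hxf c hcU
          · apply hxs
            rintro (h' | h')
            · exact hcU h'
            · exact h' hτc
    have hs1 : Perm.sign x = 1 := (mem_ev.mp hxe).2
    rw [hxeq, sign_of_mem_swapsIn hτ₀] at hs1
    exact absurd hs1 (by decide)
  · -- A ⊔ B = ev S
    apply le_antisymm
    · exact sup_le (fun x hx => hx.1) (fun x hx => hx.1)
    · intro x hx
      obtain ⟨hxS, hxsign⟩ := mem_ev.mp hx
      obtain ⟨u, hu, v, hv, hus, hvf, rfl⟩ := split Ω S hS U hU x hxS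
      rw [map_mul] at hxsign
      rcases Int.units_eq_one_or (Perm.sign u) with hsu | hsu
      · have hsv : Perm.sign v = 1 := by rw [hsu, one_mul] at hxsign; exact hxsign
        apply Subgroup.mul_mem_sup
        · refine ⟨mem_ev.mpr ⟨hu, hsu⟩, fun c hc => hus c (hnotV c hc).1⟩
        · exact ⟨mem_ev.mpr ⟨hv, hsv⟩, hvf⟩
      · have hsv : Perm.sign v = -1 := by
          rw [hsu] at hxsign
          have : Perm.sign v = -1 * (-1 * Perm.sign v) := by simp
          rw [this, hxsign]; simp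
        have : u * v = (u * τ₀) * (τ₀ * v) := by
          calc u * v = u * (τ₀ * τ₀) * v := by rw [hsq0, mul_one]
            _ = (u * τ₀) * (τ₀ * v) := by group
        rw [this]
        apply Subgroup.mul_mem_sup
        · refine ⟨mem_ev.mpr ⟨S.mul_mem hu hτ₀.1, ?_⟩, fun c hc => ?_⟩
          · rw [map_mul, hsu, sign_of_mem_swapsIn hτ₀]; decide
          · obtain ⟨hcU, hc0⟩ := hnotV c hc
            rw [Perm.mul_apply, hc0, hus c hcU]
        · refine ⟨mem_ev.mpr ⟨S.mul_mem hτ₀.1 hv, ?_⟩, fun c hc => ?_⟩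
          · rw [map_mul, hsv, sign_of_mem_swapsIn hτ₀]; decide
          · rw [Perm.mul_apply, hvf c hc, hfix0 c hc]

end Cfsg.Agent.Lib.Helper74.SADCORE
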