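import Mathlib
import Cfsg.Agent.Lib.Helper96.SylAltBasic

set_option autoImplicit false

namespace Cfsg.Agent.Lib.Helper74.SAMA1

open Equiv Cfsg.Agent.Lib.Lead.SylTwoSym Cfsg.Agent.Lib.Helper96.SylAltStmt
  Cfsg.Agent.Lib.Helper96.SylAltBasic

theorem main : Cfsg.Agent.Lib.Helper96.SylAltStmt.MA1' := by
  intro step1 m3 pg zc Ω _ _ S hS h6 hnc htwo A B hA hB hidp
  have hAle : A ≤ ev S := hidp.1
  have hBle : B ≤ ev S := hidp.2.1
  have hinf : A ⊓ B = ⊥ := hidp.2.2.2.1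
  have hev2 : IsPGroup 2 (ev S) := IsPGroup.to_le hS.1 inf_le_left
  set U : Set Ω := {c | Cov S c ∧ ∃ y ∈ A, CZ S c y} with hUdef
  have hU : Inv S U := by
    rintro s hs c ⟨⟨τ, hτ, hτc⟩, y, hyA, hy1, hy2, hy3⟩
    refine ⟨⟨s * τ * s⁻¹, conj_mem_swapsIn hτ hs, ?_⟩, y, hyA, hy1, hy2, fun a => ?_⟩
    · have e : (s * τ * s⁻¹) (s c) = s (τ c) := by simp [Perm.mul_apply]
      rw [e]
      exact fun h => hτc (s.injective h)
    · rw [hy3 a]
      constructor
      · rintro ⟨t, ht, rfl⟩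
        exact ⟨t * s⁻¹, S.mul_mem ht (S.inv_mem hs), by simp [Perm.mul_apply]⟩
      · rintro ⟨t, ht, rfl⟩
        exact ⟨t * s, S.mul_mem ht hs, by simp [Perm.mul_apply]⟩
  have h5 : ∀ c ∈ Uᶜ, Cov S c → ∃ y ∈ B, CZ S c y := by
    intro c hc hcov
    obtain ⟨x, hx, hxAB⟩ := step1 Ω S hS hnc htwo A B hidp c hcov
    rcases hxAB with hxA | hxB
    · exact absurd ⟨hcov, x, hxA, hx⟩ hc
    · exact ⟨x, hxB, hx⟩
  -- nontrivial central elements of ev S inside A and B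
  obtain ⟨a, haA, ha1, hacen⟩ := pg (Perm Ω) (ev S) A hev2 hAle hA
    (fun q hq x hx => idp_normal_left hidp hq hx)
  obtain ⟨b, hbB, hb1, hbcen⟩ := pg (Perm Ω) (ev S) B hev2 hBle hB
    (fun q hq x hx => idp_normal_right hidp hq hx)
  have haS : Cen S a := zc Ω S hS h6 a (hAle haA) (fun y hy => hacen y hy)
  have hbS : Cen S b := zc Ω S hS h6 b (hBle hbB) (fun y hy => hbcen y hy)
  have haS' : a ∈ S := (mem_ev.mp (hAle haA)).1
  have hbS' : b ∈ S := (mem_ev.mp (hBle hbB)).1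
  refine ⟨U, hU, ?_, ?_, fun c hc _ => hc.2, h5⟩
  · -- some transposition moves a point of U
    by_contra hcon
    have hall : ∀ c ∈ (Set.univ : Set Ω), Cov S c → ∃ y ∈ B, CZ S c y := by
      intro c _ hcov
      apply h5 c _ hcov
      intro hcU
      obtain ⟨τ, hτ, hτc⟩ := hcov
      exact hcon ⟨τ, hτ, c, hcU, hτc⟩
    have haB : a ∈ B := m3 Ω S hS B Set.univ hall a haS' haS (fun c hc => absurd (Set.mem_univ c) hc)
    have : a ∈ A ⊓ B := ⟨haA, haB⟩
    rw [hinf, Subgroup.mem_bot] at this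
    exact ha1 this
  · -- some transposition fixes U pointwise
    by_contra hcon
    have hall : ∀ c ∈ (Set.univ : Set Ω), Cov S c → ∃ y ∈ A, CZ S c y := by
      intro c _ hcov
      obtain ⟨τ, hτ, hτc⟩ := hcov
      have hcU : c ∈ U := by
        rcases supOn_or_fixOn hU hτ with h | h
        · by_contra hc
          exact hτc (h c hc)
        · exact absurd ⟨τ, hτ, h⟩ hcon
      exact hcU.2
    have hbA : b ∈ A := m3 Ω S hS A Set.univ hall b hbS' hbS (fun c hc => absurd (Set.mem_univ c) hc)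
    have : b ∈ A ⊓ B := ⟨hbA, hbB⟩
    rw [hinf, Subgroup.mem_bot] at this
    exact hb1 this

end Cfsg.Agent.Lib.Helper74.SAMA1
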