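import Mathlib
import Cfsg.Agent.Lib.Helper96.SylAltBasic

set_option autoImplicit false

namespace Cfsg.Agent.Lib.Helper74.SASTEP1

open Equiv Cfsg.Agent.Lib.Lead.SylTwoSym Cfsg.Agent.Lib.Helper96.SylAltStmt
  Cfsg.Agent.Lib.Helper96.SylAltBasic

theorem main : Cfsg.Agent.Lib.Helper96.SylAltStmt.STEP1' := by
  intro m1 eb _zb Ω _ _ S hS hnc htwo A B hidp c ⟨τ, hτ, hτc⟩
  set U : Set Ω := {a | ∃ s ∈ S, s c = a} with hUdef
  have hU : Inv S U := inv_orbit S c
  -- a transposition fixing the orbit pointwise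
  have hfix : ∃ τ' ∈ swapsIn S, FixOn τ' U := by
    obtain ⟨τ₁, hτ₁, τ₂, hτ₂, hconj⟩ := htwo
    rcases supOn_or_fixOn hU hτ₁ with h1 | h1
    · rcases supOn_or_fixOn hU hτ₂ with h2 | h2
      · exfalso
        -- both move a point of the orbit
        have hmv : ∀ σ : Perm Ω, σ ∈ swapsIn S → SupOn σ U → ∃ s ∈ S, σ (s c) ≠ s c := by
          intro σ hσ hsup
          obtain ⟨x, y, hxy, hσe⟩ := hσ.2
          have hx : σ x ≠ x := by
            rw [hσe, Equiv.swap_apply_left]; exact fun h => hxy h.symm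
          have hxU : x ∈ U := by
            by_contra h
            exact hx (hsup x h)
          obtain ⟨s, hs, hsx⟩ := hxU
          exact ⟨s, hs, by rw [hsx]; exact hx⟩
        obtain ⟨s₁, hs₁, hm1⟩ := hmv τ₁ hτ₁ h1
        obtain ⟨s₂, hs₂, hm2⟩ := hmv τ₂ hτ₂ h2
        have hg : s₂ * s₁⁻¹ ∈ S := S.mul_mem hs₂ (S.inv_mem hs₁)
        have hcm := conj_mem_swapsIn hτ₁ hg
        have hmove : (s₂ * s₁⁻¹ * τ₁ * (s₂ * s₁⁻¹)⁻¹) (s₂ c) ≠ s₂ c := by
          have e : (s₂ * s₁⁻¹ * τ₁ * (s₂ * s₁⁻¹)⁻¹) (s₂ c) = s₂ (s₁⁻¹ (τ₁ (s₁ c))) := by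
            simp [Perm.mul_apply]
          rw [e]
          intro h
          apply hm1
          have := congrArg (fun z => s₁ (s₂⁻¹ z)) h
          simpa using this
        exact hconj _ hg (eq_of_moves hS.1 hcm hτ₂ hmove hm2)
      · exact ⟨τ₂, hτ₂, h2⟩
    · exact ⟨τ₁, hτ₁, h1⟩
  have hAle : A ≤ ev S := hidp.1
  have hBle : B ≤ ev S := hidp.2.1
  have hevS : ∀ x, x ∈ ev S → x ∈ S := fun x hx => (mem_ev.mp hx).1
  -- a nontrivial central element supported in the orbit is the CZ element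
  have hcz : ∀ x : Perm Ω, x ∈ S → x ≠ 1 → SupOn x U → Cen S x → CZ S c x := by
    intro x hxS hx1 hsup hcen
    refine ⟨hxS, hcen, fun a => ⟨fun ha => ?_, ?_⟩⟩
    · by_contra h
      exact ha (hsup a h)
    · rintro ⟨s, hs, rfl⟩
      obtain ⟨b, hb⟩ : ∃ b, x b ≠ b := by
        by_contra hcon
        push Not at hcon
        exact hx1 (Perm.ext hcon)
      have hbU : b ∈ U := by
        by_contra h
        exact hb (hsup b h)
      obtain ⟨t, ht, rfl⟩ := hbU
      have hg : s * t⁻¹ ∈ S := S.mul_mem hs (S.inv_mem ht)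
      have hc1 := hcen _ hg
      have h2 : x (s c) = (s * t⁻¹) (x (t c)) := by
        have := congrArg (fun f : Perm Ω => f (t c)) hc1
        simpa [Perm.mul_apply] using this
      rw [h2]
      intro h3
      apply hb
      have := congrArg (fun z => t (s⁻¹ z)) h3
      simpa [Perm.mul_apply] using this
  rcases m1 Ω S hS A hAle (fun q hq x hx => idp_normal_left hidp hq hx) U hU hfix with
    ⟨x, hxA, hx1, hxs, hxc⟩ | hA
  · exact ⟨x, hcz x (hevS x (hAle hxA)) hx1 hxs hxc, Or.inl hxA⟩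
  rcases m1 Ω S hS B hBle (fun q hq x hx => idp_normal_right hidp hq hx) U hU hfix with
    ⟨x, hxB, hx1, hxs, hxc⟩ | hB
  · exact ⟨x, hcz x (hevS x (hBle hxB)) hx1 hxs hxc, Or.inr hxB⟩
  exfalso
  obtain ⟨τ', hτ', hfτ'⟩ := hfix
  obtain ⟨e, he, hes, q, hq, hneq⟩ := eb Ω S hS c τ τ' hτ hτc (hnc τ hτ) hτ' hfτ'
  obtain ⟨a, ha, b, hb, rfl⟩ := idp_mul hidp hq
  apply hneq
  have h1 := hA a ha e he hes
  have h2 := hB b hb e he hes
  calc e * (a * b) = (e * a) * b := by rw [mul_assoc]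
    _ = (a * e) * b := by rw [h1]
    _ = a * (e * b) := by rw [mul_assoc]
    _ = a * (b * e) := by rw [h2]
    _ = a * b * e := by rw [mul_assoc]

end Cfsg.Agent.Lib.Helper74.SASTEP1
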