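import Mathlib
import Cfsg.Agent.Lib.Helper3.Spectral
import Cfsg.Agent.Lib.Helper4.GlauDet

/-!
Representation-theoretic tools: the averaging operator over a subgroup without fixed points,
the determinant of an element of order `2 ^ s` acting through a multiple of the regular
representation, and linear characters of even order.
-/

set_option autoImplicit false
set_option linter.unusedSectionVars false
set_option linter.unusedVariables false

namespace Cfsg.Agent.Lib.Helper74.SCRep

open Cfsg.Agent.Lib.Helper3 Cfsg.Agent.Lib.Helper4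

/-- If the character sums to zero over a subgroup `A`, it sums to zero over every coset. -/
theorem sum_trace_mul_eq_zero {V : Type*} [AddCommGroup V] [Module ℂ V] [FiniteDimensional ℂ V]
    {G : Type*} [Group G] (ρ : Representation ℂ G V) (A : Subgroup G) [Fintype A]
    (h0 : ∑ a : A, LinearMap.trace ℂ V (ρ a) = 0) (g : G) :
    ∑ a : A, LinearMap.trace ℂ V (ρ (g * a)) = 0 := by
  obtain ⟨T, hT⟩ : ∃ T : Module.End ℂ V, T = ∑ a : A, ρ a := ⟨_, rfl⟩
  have hbT : ∀ b : A, ρ b * T = T := by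
    intro b
    rw [hT, Finset.mul_sum]
    rw [← Fintype.sum_equiv (Equiv.mulLeft b) (fun a : A => ρ (b : G) * ρ (a : G))
      (fun a : A => ρ (a : G))]
    intro a
    rw [Equiv.coe_mulLeft, Subgroup.coe_mul, map_mul]
  have hTT : T * T = (Fintype.card A : ℂ) • T := by
    conv_lhs => rw [hT]
    rw [Finset.sum_mul, ← hT, Finset.sum_congr rfl (fun b _ => hbT b), Finset.sum_const,
      Finset.card_univ, Nat.cast_smul_eq_nsmul]
  have hA0 : (Fintype.card A : ℂ) ≠ 0 := Nat.cast_ne_zero.mpr Fintype.card_ne_zero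
  obtain ⟨P, hP⟩ : ∃ P : Module.End ℂ V, P = (Fintype.card A : ℂ)⁻¹ • T := ⟨_, rfl⟩
  have hidem : IsIdempotentElem P := by
    show P * P = P
    rw [hP, smul_mul_smul_comm, hTT, smul_smul]
    congr 1
    field_simp
  have htr : LinearMap.trace ℂ V P = 0 := by
    rw [hP, map_smul, hT, map_sum, h0, smul_zero]
  have hrank := ((LinearMap.isProj_range_iff_isIdempotentElem P).mpr hidem).trace
  rw [htr] at hrank
  have hrank' : Module.finrank ℂ (LinearMap.range P) = 0 := by exact_mod_cast hrank.symm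
  have hP0 : P = 0 := by
    rw [← LinearMap.range_eq_bot]
    exact Submodule.finrank_eq_zero.mp hrank'
  have hT0 : T = 0 := by
    have : T = (Fintype.card A : ℂ) • P := by
      rw [hP, smul_smul, mul_inv_cancel₀ hA0, one_smul]
    rw [this, hP0, smul_zero]
  have : ∑ a : A, LinearMap.trace ℂ V (ρ (g * a)) = LinearMap.trace ℂ V (ρ g * T) := by
    rw [hT, Finset.mul_sum, map_sum]
    apply Finset.sum_congr rfl
    intro a _
    rw [map_mul]
  rw [this, hT0, mul_zero, map_zero]

theorem pow_apply_eigen {V : Type*} [AddCommGroup V] [Module ℂ V] (T : V →ₗ[ℂ] V) (v : V)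
    (c : ℂ) (h : T v = c • v) (i : ℕ) : (T ^ i) v = c ^ i • v := by
  induction i with
  | zero => simp
  | succ i ih =>
    rw [pow_succ, Module.End.mul_apply, h, map_smul, ih, smul_smul, pow_succ']

/-- An element of order `2 ^ s` whose nontrivial powers have trace zero acts with determinant
`-1` when the dimension is an odd multiple of `2 ^ s`. -/
theorem det_eq_neg_one {V : Type*} [AddCommGroup V] [Module ℂ V] [FiniteDimensional ℂ V]
    {H : Type*} [Group H] [Finite H] (ρ : Representation ℂ H V) (w : H) (s r : ℕ) (hs : 1 ≤ s)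
    (hw : orderOf w = 2 ^ s) (hr : Odd r) (hdim : Module.finrank ℂ V = r * 2 ^ s)
    (hvan : ∀ j : ℕ, ¬ (2 ^ s ∣ j) → LinearMap.trace ℂ V (ρ (w ^ j)) = 0) :
    LinearMap.det (ρ w) = -1 := by
  classical
  obtain ⟨b, μ, hb, hμ⟩ := Spectral.exists_eigenbasis ρ w
  rw [hw] at hμ
  rw [GlauDet.det_eq_prod_of_eigenbasis b (ρ w) μ hb]
  obtain ⟨ζ, hζ⟩ : ∃ ζ : ℂ, IsPrimitiveRoot ζ (2 ^ s) :=
    ⟨_, Complex.isPrimitiveRoot_exp (2 ^ s) (by positivity)⟩
  have hpsum : ∀ j : ℕ, 0 < j →
      ∑ i, μ i ^ j = ∑ i : Fin (Module.finrank ℂ V), (ζ ^ (i : ℕ)) ^ j := by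
    intro j hj
    by_cases hd : 2 ^ s ∣ j
    · obtain ⟨q, rfl⟩ := hd
      apply Finset.sum_congr rfl
      intro i _
      rw [pow_mul, hμ i, one_pow, ← pow_mul, mul_comm (i : ℕ), mul_assoc, pow_mul,
        hζ.pow_eq_one, one_pow]
    · have h1 : ∑ i, μ i ^ j = 0 := by
        rw [← hvan j hd, map_pow]
        exact (Spectral.trace_eq_sum_of_eigenbasis b (ρ w ^ j) (fun i => μ i ^ j)
          (fun i => pow_apply_eigen (ρ w) (b i) (μ i) (hb i) j)).symm
      rw [h1]
      have hq : ζ ^ j ≠ 1 := fun e => hd ((hζ.pow_eq_one_iff_dvd j).mp e)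
      have hqn : (ζ ^ j) ^ (Module.finrank ℂ V) = 1 := by
        rw [hdim, ← pow_mul, mul_comm j, mul_comm r, mul_assoc, pow_mul, hζ.pow_eq_one, one_pow]
      rw [Finset.sum_congr rfl (fun i _ => by rw [← pow_mul, mul_comm, pow_mul]),
        Fin.sum_univ_eq_sum_range (fun i => (ζ ^ j) ^ i)]
      have := geom_sum_mul (ζ ^ j) (Module.finrank ℂ V)
      rw [hqn, sub_self] at this
      exact ((mul_eq_zero.mp this).resolve_right (sub_ne_zero.mpr hq)).symm
  rw [GlauDet.prod_eq_of_psum_eq μ (fun i => ζ ^ (i : ℕ)) hpsum, Finset.prod_pow_eq_pow_sum,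
    Fin.sum_univ_eq_sum_range (fun i => i)]
  obtain ⟨k, hk⟩ : ∃ k, s = k + 1 := ⟨s - 1, by omega⟩
  have h2k : 2 ^ s = 2 * 2 ^ k := by rw [hk, pow_succ, mul_comm]
  have hζk : ζ ^ (2 ^ k) = -1 := by
    have h1 : ζ ^ (2 ^ k) * ζ ^ (2 ^ k) = 1 := by
      rw [← pow_add, ← two_mul, ← h2k, hζ.pow_eq_one]
    rcases mul_self_eq_one_iff.mp h1 with h | h
    · exfalso
      have hpos : 0 < 2 ^ k := by positivity
      exact hζ.pow_ne_one_of_pos_of_lt hpos.ne' (by rw [h2k]; omega) h
    · exact h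
  have hn : Module.finrank ℂ V = r * (2 * 2 ^ k) := by rw [hdim, h2k]
  have hsum : ∑ i ∈ Finset.range (Module.finrank ℂ V), i =
      2 ^ k * (r * (Module.finrank ℂ V - 1)) := by
    have h1 := Finset.sum_range_id_mul_two (Module.finrank ℂ V)
    have h2 : (∑ i ∈ Finset.range (Module.finrank ℂ V), i) * 2 =
        (2 ^ k * (r * (Module.finrank ℂ V - 1))) * 2 := by
      rw [h1]
      nth_rewrite 1 [hn]
      ring
    exact Nat.eq_of_mul_eq_mul_right (by norm_num) h2
  rw [hsum, pow_mul, hζk]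
  apply Odd.neg_one_pow
  apply Odd.mul hr
  have hpos : 0 < 2 ^ k := by positivity
  have hr0 : 0 < r := hr.pos
  have hev : Even (Module.finrank ℂ V) := by
    rw [hn]
    exact ⟨r * 2 ^ k, by ring⟩
  have h1 : 1 ≤ Module.finrank ℂ V := by
    rw [hn]
    have : 1 ≤ r * (2 * 2 ^ k) := Nat.mul_pos hr0 (by omega)
    exact this
  exact Nat.Even.sub_odd h1 hev odd_one

/-- A homomorphism to the units of `ℂ` taking the value `-1` forces an even index of the
commutator subgroup. -/
theorem even_index_of_hom {G : Type*} [Group G] [Finite G] (δ : G →* ℂˣ) (w : G)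
    (hw : δ w = -1) : Even (commutator G).index := by
  have h1 : δ.ker.index ∣ (commutator G).index :=
    Subgroup.index_dvd_of_le (Abelianization.commutator_subset_ker δ)
  have h2 : δ.ker.index = Nat.card δ.range := Subgroup.index_ker δ
  have h3 : orderOf (⟨δ w, MonoidHom.mem_range.mpr ⟨w, rfl⟩⟩ : δ.range) = 2 := by
    rw [← Subgroup.orderOf_coe]
    show orderOf (δ w) = 2
    rw [hw]
    have : Fact (Nat.Prime 2) := ⟨Nat.prime_two⟩
    apply orderOf_eq_prime
    · norm_num
    · intro h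
      have := congrArg Units.val h
      norm_num at this
  have h4 : 2 ∣ Nat.card δ.range := by
    rw [← h3]
    exact orderOf_dvd_natCard _
  exact even_iff_two_dvd.mpr (h4.trans (h2 ▸ h1))

end Cfsg.Agent.Lib.Helper74.SCRep
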