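import Cfsg.Agent.Lib.Helper61.T2Stmt

set_option autoImplicit false

namespace Cfsg.Agent.Lib.Helper74.T2P26

universe u v

open Cfsg.Agent.Lib.Helper61.T2Stmt

theorem main : Cfsg.Agent.Lib.Helper61.T2Stmt.P26.{u, v} := by
  intro tools G _ _ Ω _ _ act Q hQ y hy1 hy2 hy3 C hC hgen hcard
  obtain ⟨-, t2, t3, t4⟩ := tools G Ω act.two (by omega)
  -- Step A: Q has a fixed point
  have hp5 : Fact (Nat.Prime 5) := ⟨by norm_num⟩
  have hQp : IsPGroup 5 Q := IsPGroup.of_card (n := 2) (by rw [hQ]; norm_num)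
  have hne : (MulAction.fixedPoints Q Ω).Nonempty := by
    apply IsPGroup.nonempty_fixed_point_of_prime_not_dvd_card hQp
    rw [Nat.card_eq_fintype_card, hcard]
    norm_num
  obtain ⟨α, hα⟩ := hne
  have hαQ : ∀ q ∈ Q, q • α = α := fun q hq => hα ⟨q, hq⟩
  -- Step B: freeness off α
  have hB : ∀ β : Ω, β ≠ α → ∀ q ∈ Q, q • β = β → q = 1 := by
    intro β hβ q hq hqβ
    have h1 := t3 α
    have h2 := t4 α β (Ne.symm hβ)
    rw [h2, act.card, hcard] at h1
    have h3 : Nat.card ↥(MulAction.stabilizer G α ⊓ MulAction.stabilizer G β) = 27648 := by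
      omega
    have hqm : q ∈ MulAction.stabilizer G α ⊓ MulAction.stabilizer G β :=
      ⟨MulAction.mem_stabilizer_iff.mpr (hαQ q hq), MulAction.mem_stabilizer_iff.mpr hqβ⟩
    have hd1 : orderOf q ∣ 27648 := by
      rw [← h3]
      have := orderOf_dvd_natCard (⟨q, hqm⟩ :
        ↥(MulAction.stabilizer G α ⊓ MulAction.stabilizer G β))
      rwa [Subgroup.orderOf_mk] at this
    have hd2 : orderOf q ∣ 25 := by
      rw [← hQ]
      have := orderOf_dvd_natCard (⟨q, hq⟩ : ↥Q)
      rwa [Subgroup.orderOf_mk] at this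
    have hd3 : orderOf q ∣ Nat.gcd 27648 25 := Nat.dvd_gcd hd1 hd2
    have hg : Nat.gcd 27648 25 = 1 := by norm_num
    rw [hg, Nat.dvd_one] at hd3
    exact orderOf_eq_one_iff.mp hd3
  -- Q is nontrivial
  have hQnt : ∃ q ∈ Q, q ≠ 1 := by
    by_contra hcon
    push Not at hcon
    have : Q = ⊥ := (Subgroup.eq_bot_iff_forall Q).mpr hcon
    rw [this, Subgroup.card_bot] at hQ
    omega
  -- Step C: y fixes α
  have hyα : y • α = α := by
    by_contra hne
    obtain ⟨q, hq, hq1⟩ := hQnt
    apply hq1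
    apply hB (y • α) hne q hq
    have : q • y • α = y • ((y⁻¹ * q * y) • α) := by
      simp only [← mul_smul]
      congr 1
      group
    rw [this, hαQ _ (hy2 q hq)]
  -- Step D: Q is transitive off α
  have hD : ∀ β : Ω, β ≠ α → ∀ γ : Ω, γ ≠ α → ∃ q ∈ Q, q • β = γ := by
    intro β hβ γ hγ
    let f : ↥Q → {ω : Ω // ω ≠ α} := fun q => ⟨(q : G) • β, by
      intro h
      apply hβ
      have : (q : G) • β = (q : G) • α := by rw [hαQ _ q.2]; exact h
      exact smul_left_cancel _ this⟩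
    have hinj : Function.Injective f := by
      intro q q' hqq
      have h1 : (q : G) • β = (q' : G) • β := congrArg Subtype.val hqq
      have h2 : ((q' : G)⁻¹ * (q : G)) • β = β := by
        rw [mul_smul, h1, ← mul_smul, inv_mul_cancel, one_smul]
      have h3 := hB β hβ _ (Q.mul_mem (Q.inv_mem q'.2) q.2) h2
      apply Subtype.ext
      exact (inv_mul_eq_one.mp h3).symm
    have hcardle : Nat.card {ω : Ω // ω ≠ α} ≤ Nat.card ↥Q := by
      classical
      rw [hQ, Nat.card_eq_fintype_card, Fintype.card_subtype_compl, Fintype.card_subtype_eq,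
        hcard]
    have hbij := hinj.bijective_of_nat_card_le hcardle
    obtain ⟨q, hq⟩ := hbij.2 ⟨γ, hγ⟩
    exact ⟨q, q.2, congrArg Subtype.val hq⟩
  -- Step E: y fixes at most one further point
  have hE : ∀ β γ : Ω, β ≠ α → γ ≠ α → y • β = β → y • γ = γ → β = γ := by
    intro β γ hβ hγ hyβ hyγ
    obtain ⟨q, hq, hqβ⟩ := hD β hβ γ hγ
    have hyβ' : y⁻¹ • β = β := by rw [inv_smul_eq_iff, hyβ]
    have h1 : (q⁻¹ * (y * q * y⁻¹)) • β = β := by
      rw [mul_smul, mul_smul, mul_smul, hyβ', hqβ, hyγ, ← hqβ, ← mul_smul, inv_mul_cancel,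
        one_smul]
    have h2 := hB β hβ _ (Q.mul_mem (Q.inv_mem hq) (hy1 q hq)) h1
    have h3 : q * y = y * q := by
      have : y * q * y⁻¹ = q := (inv_mul_eq_one.mp h2).symm
      calc q * y = (y * q * y⁻¹) * y := by rw [this]
        _ = y * q := by group
    have h4 := hy3 q hq h3
    rw [h4, one_smul] at hqβ
    exact hqβ
  -- Step F: elements of C fix α
  have hF : ∀ c ∈ C, c • α = α := by
    intro c hc
    obtain ⟨hcy, hodd⟩ := hC c hc
    have hcomm : ∀ ω : Ω, y • ω = ω → y • (c • ω) = c • ω := by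
      intro ω hω
      rw [← mul_smul, ← hcy, mul_smul, hω]
    by_contra hne
    have h1 := hcomm α hyα
    have h2 := hcomm _ h1
    have h3 : c • c • α = α := by
      by_contra hne2
      have := hE (c • α) (c • c • α) hne hne2 h1 h2
      exact hne (smul_left_cancel _ this).symm
    obtain ⟨t, ht⟩ := hodd
    have h4 : (c ^ 2) ^ (t + 1) = c := by
      rw [← pow_mul]
      have : 2 * (t + 1) = orderOf c + 1 := by omega
      rw [this, pow_succ, pow_orderOf_eq_one, one_mul]
    have h5 : c ^ 2 ∈ MulAction.stabilizer G α := by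
      rw [MulAction.mem_stabilizer_iff, pow_two, mul_smul]
      exact h3
    have h6 := pow_mem h5 (t + 1)
    rw [h4] at h6
    exact hne (MulAction.mem_stabilizer_iff.mp h6)
  -- Step G
  have hle : Subgroup.closure ((Q : Set G) ∪ {y} ∪ C) ≤ MulAction.stabilizer G α := by
    rw [Subgroup.closure_le]
    rintro g ((hg | hg) | hg)
    · exact MulAction.mem_stabilizer_iff.mpr (hαQ g hg)
    · rw [Set.mem_singleton_iff] at hg
      rw [hg]
      exact MulAction.mem_stabilizer_iff.mpr hyα
    · exact MulAction.mem_stabilizer_iff.mpr (hF g hg)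
  rw [hgen] at hle
  have hnt : Nontrivial Ω := by
    rw [← Fintype.one_lt_card_iff_nontrivial, hcard]; norm_num
  obtain ⟨γ, hγ⟩ := exists_ne α
  obtain ⟨g, hg⟩ := t2 α γ
  have := MulAction.mem_stabilizer_iff.mp (hle (Subgroup.mem_top g))
  rw [this] at hg
  exact hγ hg.symm

end Cfsg.Agent.Lib.Helper74.T2P26
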