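import Cfsg.Agent.Lib.Helper61.T2Stmt

set_option autoImplicit false

namespace Cfsg.Agent.Lib.Helper74.T2P40B

universe u v

/-- if a power `x ^ d` with `13 ∤ d` of an element of order 13 fixes a point, so does `x`. -/
theorem fix_of_pow_fix {G : Type u} [Group G] {Ω : Type v} [MulAction G Ω] {x : G}
    (hx : orderOf x = 13) (d : ℕ) (hd : ¬ 13 ∣ d) (β : Ω) (h : x ^ d • β = β) : x • β = β := by
  have hcop : Nat.Coprime d 13 := by
    have h13 : Nat.Prime 13 := by norm_num
    exact (Nat.Coprime.symm ((Nat.Prime.coprime_iff_not_dvd h13).mpr hd))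
  obtain ⟨m, -, hm⟩ := Nat.exists_mul_mod_eq_one_of_coprime hcop (by norm_num)
  have h1 : x ^ (d * m) = x := by
    rw [← pow_mod_orderOf, hx, hm, pow_one]
  have h2 : (x ^ d) ^ m ∈ MulAction.stabilizer G β :=
    pow_mem (MulAction.mem_stabilizer_iff.mpr h) m
  rw [← pow_mul, h1] at h2
  exact MulAction.mem_stabilizer_iff.mp h2

theorem pow_fix {G : Type u} [Group G] {Ω : Type v} [MulAction G Ω] {x : G} {β : Ω}
    (h : x • β = β) (k : ℕ) : x ^ k • β = β :=
  MulAction.mem_stabilizer_iff.mp (pow_mem (MulAction.mem_stabilizer_iff.mpr h) k)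

theorem part1 (G : Type u) [Group G] (Ω : Type v) [MulAction G Ω]
    (x u : G) (α : Ω) (hx : orderOf x = 13) (hα : x • α = α)
    (huniq : ∀ γ : Ω, x • γ = γ → γ = α) (hn : u * x * u⁻¹ ∈ Subgroup.zpowers x)
    (hnc : u * x ≠ x * u) :
    ∀ β γ : Ω, u • β = β → u • γ = γ → (∃ k : ℕ, γ = x ^ k • β) → β = γ := by
  have hfin : IsOfFinOrder x := by
    rw [← orderOf_pos_iff, hx]; norm_num
  obtain ⟨j, hj⟩ := (Submonoid.mem_powers_iff _ _).mp (hfin.mem_powers_iff_mem_zpowers.mpr hn)
  have hx13 : x ^ 13 = 1 := by rw [← hx]; exact pow_orderOf_eq_one x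
  have hj1 : ¬ 13 ∣ j + 12 := by
    intro hdvd
    apply hnc
    have hjm : j % 13 = 1 := by omega
    have : x ^ j = x := by
      rw [← pow_mod_orderOf, hx, hjm, pow_one]
    rw [this] at hj
    calc u * x = (u * x * u⁻¹) * u := by group
      _ = x * u := by rw [← hj]
  intro β γ hβ hγ ⟨k, hk⟩
  by_cases hk13 : 13 ∣ k
  · obtain ⟨t, rfl⟩ := hk13
    rw [hk, pow_mul, hx13, one_pow, one_smul]
  · -- u x^k u⁻¹ = x^(j k)
    have hconj : u * x ^ k * u⁻¹ = x ^ (j * k) := by
      rw [← conj_pow, ← hj, ← pow_mul]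
    have h1 : x ^ (j * k) • β = x ^ k • β := by
      have : u • (x ^ k • β) = x ^ (j * k) • β := by
        rw [← hconj, mul_smul, mul_smul]
        congr 2
        rw [eq_inv_smul_iff, hβ]
      rw [← this, ← hk, hγ]
    have h2 : x ^ (k * (j + 12)) • β = β := by
      have : x ^ (k * (j + 12)) = x ^ (12 * k) * x ^ (j * k) := by
        rw [← pow_add]; congr 1; ring
      rw [this, mul_smul, h1, ← mul_smul, ← pow_add]
      have : 12 * k + k = 13 * k := by ring
      rw [this, pow_mul, hx13, one_pow, one_smul]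
    have hnd : ¬ 13 ∣ k * (j + 12) := by
      have h13 : Nat.Prime 13 := by norm_num
      intro h
      rcases (Nat.Prime.dvd_mul h13).mp h with h | h
      · exact hk13 h
      · exact hj1 h
    have hxβ : x • β = β := fix_of_pow_fix hx _ hnd β h2
    have hβα : β = α := huniq β hxβ
    rw [hk, hβα, pow_fix hα]

open Classical in
theorem main : Cfsg.Agent.Lib.Helper61.T2Stmt.P40B.{u, v} := by
  intro G _ Ω _ _ hcard x u α hx hα huniq hn hnc
  have hp1 := part1 G Ω x u α hx hα huniq hn hnc
  have hx13 : x ^ 13 = 1 := by rw [← hx]; exact pow_orderOf_eq_one x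
  refine ⟨hp1, ?_⟩
  -- the fixed point set as a finset
  set F : Finset Ω := Finset.univ.filter (fun γ => u • γ = γ) with hF
  have hFc : Nat.card {γ : Ω // u • γ = γ} = F.card := by
    rw [Nat.card_eq_fintype_card, Fintype.card_subtype]
  set F' : Finset Ω := F.erase α with hF'
  set f : Ω × ℕ → Ω := fun p => x ^ p.2 • p.1 with hf
  have hmem : ∀ φ, φ ∈ F' ↔ (φ ≠ α ∧ u • φ = φ) := by
    intro φ
    simp [hF', hF]
  have hmaps : ∀ p ∈ F' ×ˢ Finset.range 13, f p ∈ (Finset.univ.erase α : Finset Ω) := by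
    intro p hp
    rw [Finset.mem_product] at hp
    rw [Finset.mem_erase]
    refine ⟨?_, Finset.mem_univ _⟩
    intro h
    have h2 : x ^ p.2 • p.1 = x ^ p.2 • α := by rw [pow_fix hα]; exact h
    exact ((hmem _).mp hp.1).1 (smul_left_cancel _ h2)
  have hinj : Set.InjOn f (F' ×ˢ Finset.range 13 : Finset (Ω × ℕ)) := by
    rintro ⟨φ, i⟩ hp ⟨ψ, j⟩ hq heq
    rw [Finset.mem_coe, Finset.mem_product] at hp hq
    simp only [hf] at heq
    simp only at hp hq
    have hi : i < 13 := Finset.mem_range.mp hp.2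
    have hj : j < 13 := Finset.mem_range.mp hq.2
    have hφ := (hmem _).mp hp.1
    have hψ := (hmem _).mp hq.1
    -- ψ = x^(i + 12 j) φ
    have h1 : ψ = x ^ (i + 12 * j) • φ := by
      have : x ^ (i + 12 * j) • φ = x ^ (12 * j) • (x ^ i • φ) := by
        rw [← mul_smul, ← pow_add]; congr 2; ring
      rw [this, heq, ← mul_smul, ← pow_add]
      have : 12 * j + j = 13 * j := by ring
      rw [this, pow_mul, hx13, one_pow, one_smul]
    have h2 : φ = ψ := hp1 φ ψ hφ.2 hψ.2 ⟨_, h1⟩
    subst h2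
    have h3 : i = j := by
      by_contra hne
      have hnd : ¬ 13 ∣ i + 12 * j := by omega
      exact hφ.1 (huniq φ (fix_of_pow_fix hx _ hnd φ h1.symm))
    rw [h3]
  have hcard' : (Finset.univ.erase α : Finset Ω).card = 39 := by
    rw [Finset.card_erase_of_mem (Finset.mem_univ _), Finset.card_univ, hcard]
  have hle : (F' ×ˢ Finset.range 13).card ≤ 39 := by
    rw [← hcard']
    exact Finset.card_le_card_of_injOn f hmaps hinj
  rw [Finset.card_product, Finset.card_range] at hle
  have hF'3 : F'.card ≤ 3 := by omega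
  have hFle : F.card - 1 ≤ F'.card := Finset.pred_card_le_card_erase
  refine ⟨by rw [hFc]; omega, ?_⟩
  intro h4 β
  rw [hFc] at h4
  have hαF : α ∈ F := by
    by_contra hα'
    have : F' = F := Finset.erase_eq_of_notMem hα'
    rw [this] at hF'3
    omega
  have huα : u • α = α := by
    have := hαF
    rw [hF, Finset.mem_filter] at this
    exact this.2
  by_cases hβ : β = α
  · exact ⟨0, by rw [pow_zero, one_smul, hβ, huα]⟩
  · have hF'c : F'.card = 3 := by omega
    have himg : (F' ×ˢ Finset.range 13).image f = Finset.univ.erase α := by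
      apply Finset.eq_of_subset_of_card_le
      · intro ω hω
        obtain ⟨p, hp, rfl⟩ := Finset.mem_image.mp hω
        exact hmaps p hp
      · rw [Finset.card_image_of_injOn hinj, Finset.card_product, Finset.card_range, hF'c,
          hcard']
    have hβm : β ∈ (F' ×ˢ Finset.range 13).image f := by
      rw [himg, Finset.mem_erase]
      exact ⟨hβ, Finset.mem_univ _⟩
    obtain ⟨⟨φ, i⟩, hp, hpe⟩ := Finset.mem_image.mp hβm
    rw [Finset.mem_product] at hp
    have hφ := (hmem _).mp hp.1
    simp only [hf] at hpe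
    refine ⟨12 * i, ?_⟩
    have : x ^ (12 * i) • β = φ := by
      rw [← hpe, ← mul_smul, ← pow_add]
      have : 12 * i + i = 13 * i := by ring
      rw [this, pow_mul, hx13, one_pow, one_smul]
    rw [this]
    exact hφ.2

end Cfsg.Agent.Lib.Helper74.T2P40B
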