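import Mathlib
import Cfsg.Agent.Lib.Helper74.PModMatrix

/-!
# Fixed vectors of a subgroup containing a "trivial intersection" `p`-subgroup

`P ≤ H ≤ G`, `P` a `p`-group with `p ∤ |H : P|`, and `P ∩ g H g⁻¹ = 1` for `g ∉ H`.
If `ρ` is a complex representation of `G` of dimension at most `|P|` with a nonzero `G`-fixed
vector, then every `H`-fixed vector is `G`-fixed (`fixed_of_fixed`).
-/

set_option autoImplicit false

namespace Cfsg.Agent.Lib.Helper74.TIRep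

variable {G : Type*} [Group G] [Fintype G]

/-- Representatives of the `P`-`H` double cosets outside `H`, with unique factorisation. -/
theorem exists_reps (P H : Subgroup G) (hPH : P ≤ H)
    (hfree : ∀ g : G, g ∉ H → ∀ y ∈ P, g⁻¹ * y * g ∈ H → y = 1) :
    ∃ R : Finset G, (∀ r ∈ R, r ∉ H) ∧
      (∀ g : G, g ∉ H → ∃ y ∈ P, ∃ r ∈ R, ∃ h ∈ H, g = y * r * h) ∧
      (∀ y ∈ P, ∀ r ∈ R, ∀ h ∈ H, ∀ y' ∈ P, ∀ r' ∈ R, ∀ h' ∈ H,
        y * r * h = y' * r' * h' → y = y' ∧ r = r' ∧ h = h') := by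
  classical
  have hfin : Finite (DoubleCoset.Quotient (P : Set G) (H : Set G)) := Quotient.finite _
  have hft : Fintype (DoubleCoset.Quotient (P : Set G) (H : Set G)) := Fintype.ofFinite _
  refine ⟨(Finset.univ.image
    (fun q : DoubleCoset.Quotient (P : Set G) (H : Set G) => q.out)).filter (fun r => r ∉ H),
    ?_, ?_, ?_⟩
  · intro r hr
    exact (Finset.mem_filter.mp hr).2
  · intro g hg
    obtain ⟨y, h, hy, hh, hout⟩ := DoubleCoset.mk_out_eq_mul P H g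
    refine ⟨y⁻¹, P.inv_mem hy, (DoubleCoset.mk P H g).out, ?_, h⁻¹, H.inv_mem hh, ?_⟩
    · rw [Finset.mem_filter]
      refine ⟨Finset.mem_image.mpr ⟨_, Finset.mem_univ _, rfl⟩, ?_⟩
      intro hmem
      apply hg
      have : g = y⁻¹ * (DoubleCoset.mk P H g).out * h⁻¹ := by rw [hout]; group
      rw [this]
      exact H.mul_mem (H.mul_mem (hPH (P.inv_mem hy)) hmem) (H.inv_mem hh)
    · rw [hout]; group
  · intro y hy r hr h hh y' hy' r' hr' h' hh' heq
    obtain ⟨hr1, hr2⟩ := Finset.mem_filter.mp hr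
    obtain ⟨hr1', hr2'⟩ := Finset.mem_filter.mp hr'
    obtain ⟨q, -, rfl⟩ := Finset.mem_image.mp hr1
    obtain ⟨q', -, rfl⟩ := Finset.mem_image.mp hr1'
    have hqq : q = q' := by
      rw [← DoubleCoset.out_eq' P H q, ← DoubleCoset.out_eq' P H q', DoubleCoset.eq]
      refine ⟨y'⁻¹ * y, P.mul_mem (P.inv_mem hy') hy, h * h'⁻¹, H.mul_mem hh (H.inv_mem hh'), ?_⟩
      have : q'.out = y'⁻¹ * (y' * q'.out * h') * h'⁻¹ := by group
      rw [this, ← heq]
      group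
    subst hqq
    have hyy : y'⁻¹ * y = 1 := by
      apply hfree q.out hr2 _ (P.mul_mem (P.inv_mem hy') hy)
      have : q.out⁻¹ * (y'⁻¹ * y) * q.out = h' * h⁻¹ := by
        have h1 : y'⁻¹ * y * q.out = q.out * h' * h⁻¹ := by
          have : y'⁻¹ * (y * q.out * h) * h⁻¹ = y'⁻¹ * (y' * q.out * h') * h⁻¹ := by rw [heq]
          have e1 : y'⁻¹ * (y * q.out * h) * h⁻¹ = y'⁻¹ * y * q.out := by group
          have e2 : y'⁻¹ * (y' * q.out * h') * h⁻¹ = q.out * h' * h⁻¹ := by group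
          rw [← e1, ← e2, this]
        calc q.out⁻¹ * (y'⁻¹ * y) * q.out = q.out⁻¹ * (y'⁻¹ * y * q.out) := by group
          _ = q.out⁻¹ * (q.out * h' * h⁻¹) := by rw [h1]
          _ = h' * h⁻¹ := by group
      rw [this]
      exact H.mul_mem hh' (H.inv_mem hh)
    have hy_eq : y = y' := by
      have : y = y' * (y'⁻¹ * y) := by group
      rw [this, hyy, mul_one]
    subst hy_eq
    refine ⟨rfl, rfl, ?_⟩
    exact mul_left_cancel heq

/-- Sum over the complement of `H` through the factorisation `g = y r h`. -/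
theorem sum_compl_eq (P H : Subgroup G) [Fintype P] [Fintype H] [DecidablePred (· ∈ H)]
    (R : Finset G) (hR1 : ∀ r ∈ R, r ∉ H)
    (hR2 : ∀ g : G, g ∉ H → ∃ y ∈ P, ∃ r ∈ R, ∃ h ∈ H, g = y * r * h)
    (hR3 : ∀ y ∈ P, ∀ r ∈ R, ∀ h ∈ H, ∀ y' ∈ P, ∀ r' ∈ R, ∀ h' ∈ H,
        y * r * h = y' * r' * h' → y = y' ∧ r = r' ∧ h = h') (hPH : P ≤ H)
    {M : Type*} [AddCommMonoid M] (F : G → M) :
    ∑ g : G, (if g ∈ H then 0 else F g) = ∑ y : P, ∑ r ∈ R, ∑ h : H, F (y * r * h) := by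
  classical
  have h1 : ∑ g : G, (if g ∈ H then 0 else F g) = ∑ g ∈ Finset.univ.filter (fun g => g ∉ H), F g := by
    rw [Finset.sum_filter]
    refine Finset.sum_congr rfl fun g _ => ?_
    by_cases hg : g ∈ H <;> simp [hg]
  have h2 : ∑ y : P, ∑ r ∈ R, ∑ h : H, F (y * r * h)
      = ∑ t ∈ (Finset.univ : Finset P) ×ˢ (R ×ˢ (Finset.univ : Finset H)),
          F ((t.1 : G) * t.2.1 * (t.2.2 : G)) := by
    rw [Finset.sum_product]
    refine Finset.sum_congr rfl fun y _ => ?_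
    rw [Finset.sum_product]
  rw [h1, h2]
  symm
  refine Finset.sum_bij (fun t _ => (t.1 : G) * t.2.1 * (t.2.2 : G)) ?_ ?_ ?_ ?_
  · intro t ht
    rw [Finset.mem_filter]
    refine ⟨Finset.mem_univ _, ?_⟩
    have hr : t.2.1 ∈ R := (Finset.mem_product.mp (Finset.mem_product.mp ht).2).1
    intro hmem
    apply hR1 _ hr
    have : t.2.1 = (t.1 : G)⁻¹ * ((t.1 : G) * t.2.1 * (t.2.2 : G)) * (t.2.2 : G)⁻¹ := by group
    rw [this]
    exact H.mul_mem (H.mul_mem (H.inv_mem (hPH t.1.2)) hmem) (H.inv_mem t.2.2.2)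
  · intro t ht t' ht' heq
    have hr : t.2.1 ∈ R := (Finset.mem_product.mp (Finset.mem_product.mp ht).2).1
    have hr' : t'.2.1 ∈ R := (Finset.mem_product.mp (Finset.mem_product.mp ht').2).1
    obtain ⟨e1, e2, e3⟩ := hR3 _ t.1.2 _ hr _ t.2.2.2 _ t'.1.2 _ hr' _ t'.2.2.2 heq
    apply Prod.ext
    · exact Subtype.ext e1
    · apply Prod.ext
      · exact e2
      · exact Subtype.ext e3
  · intro g hg
    obtain ⟨y, hy, r, hr, h, hh, rfl⟩ := hR2 g (Finset.mem_filter.mp hg).2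
    refine ⟨(⟨y, hy⟩, r, ⟨h, hh⟩), ?_, rfl⟩
    simp [hr]
  · intro t _
    rfl

theorem sum_comm3 {α β γ M : Type*} [AddCommMonoid M] (s : Finset α) (t : Finset β)
    (u : Finset γ) (f : α → β → γ → M) :
    ∑ a ∈ s, ∑ b ∈ t, ∑ c ∈ u, f a b c = ∑ c ∈ u, ∑ b ∈ t, ∑ a ∈ s, f a b c :=
  calc ∑ a ∈ s, ∑ b ∈ t, ∑ c ∈ u, f a b c = ∑ b ∈ t, ∑ a ∈ s, ∑ c ∈ u, f a b c :=
        Finset.sum_comm
    _ = ∑ b ∈ t, ∑ c ∈ u, ∑ a ∈ s, f a b c := Finset.sum_congr rfl fun _ _ => Finset.sum_comm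
    _ = ∑ c ∈ u, ∑ b ∈ t, ∑ a ∈ s, f a b c := Finset.sum_comm

section Ops

variable {U : Type*} [AddCommGroup U] [Module ℂ U]

/-- The sum of `ρ` over a subgroup. -/
noncomputable def nrm (ρ : Representation ℂ G U) (K : Subgroup G) [Fintype K] : Module.End ℂ U :=
  ∑ k : K, ρ k

/-- The sum of `ρ` over the whole group. -/
noncomputable def nrmG (ρ : Representation ℂ G U) : Module.End ℂ U := ∑ g : G, ρ g

/-- The sum of `ρ` over a finite set. -/
noncomputable def opA (ρ : Representation ℂ G U) (R : Finset G) : Module.End ℂ U := ∑ r ∈ R, ρ r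

/-- The sum of `ρ` over the inverses of a finite set. -/
noncomputable def opA' (ρ : Representation ℂ G U) (R : Finset G) : Module.End ℂ U :=
  ∑ r ∈ R, ρ r⁻¹

variable (ρ : Representation ℂ G U)

theorem rho_mul_nrm (K : Subgroup G) [Fintype K] (k : K) : ρ k * nrm ρ K = nrm ρ K := by
  unfold nrm
  rw [Finset.mul_sum]
  refine Fintype.sum_equiv (Equiv.mulLeft k) _ _ fun x => ?_
  rw [← map_mul]
  rfl

theorem nrm_mul_rho (K : Subgroup G) [Fintype K] (k : K) : nrm ρ K * ρ k = nrm ρ K := by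
  unfold nrm
  rw [Finset.sum_mul]
  refine Fintype.sum_equiv (Equiv.mulRight k) _ _ fun x => ?_
  rw [← map_mul]
  rfl

theorem rho_mul_nrmG (g : G) : ρ g * nrmG ρ = nrmG ρ := by
  unfold nrmG
  rw [Finset.mul_sum]
  refine Fintype.sum_equiv (Equiv.mulLeft g) _ _ fun x => ?_
  rw [← map_mul]
  rfl

theorem nrmG_mul_rho (g : G) : nrmG ρ * ρ g = nrmG ρ := by
  unfold nrmG
  rw [Finset.sum_mul]
  refine Fintype.sum_equiv (Equiv.mulRight g) _ _ fun x => ?_
  rw [← map_mul]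
  rfl

theorem nrm_apply_fixed (K : Subgroup G) [Fintype K] {v : U} (hv : ∀ k ∈ K, ρ k v = v) :
    nrm ρ K v = (Fintype.card K : ℂ) • v := by
  unfold nrm
  rw [LinearMap.sum_apply, Finset.sum_congr rfl (fun (k : K) _ => hv (k : G) k.2),
    Finset.sum_const, Finset.card_univ, Nat.cast_smul_eq_nsmul]

theorem nrmG_apply_fixed {v : U} (hv : ∀ g, ρ g v = v) :
    nrmG ρ v = (Fintype.card G : ℂ) • v := by
  unfold nrmG
  rw [LinearMap.sum_apply, Finset.sum_congr rfl (fun g _ => hv g), Finset.sum_const,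
    Finset.card_univ, Nat.cast_smul_eq_nsmul]

theorem rho_nrm_apply (K : Subgroup G) [Fintype K] (u : U) (k : G) (hk : k ∈ K) :
    ρ k (nrm ρ K u) = nrm ρ K u := by
  have := congrArg (fun f : Module.End ℂ U => f u) (rho_mul_nrm ρ K ⟨k, hk⟩)
  simpa using this

theorem nrmG_rho_apply (g : G) (u : U) : nrmG ρ (ρ g u) = nrmG ρ u := by
  have := congrArg (fun f : Module.End ℂ U => f u) (nrmG_mul_rho ρ g)
  simpa using this

theorem rho_nrmG_apply (g : G) (u : U) : ρ g (nrmG ρ u) = nrmG ρ u := by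
  have := congrArg (fun f : Module.End ℂ U => f u) (rho_mul_nrmG ρ g)
  simpa using this

theorem nrmG_nrm_apply (K : Subgroup G) [Fintype K] (u : U) :
    nrmG ρ (nrm ρ K u) = (Fintype.card K : ℂ) • nrmG ρ u := by
  unfold nrm
  rw [LinearMap.sum_apply, map_sum,
    Finset.sum_congr rfl (fun (k : K) _ => nrmG_rho_apply ρ (k : G) u),
    Finset.sum_const, Finset.card_univ, Nat.cast_smul_eq_nsmul]

theorem nrmG_opA_apply (R : Finset G) (u : U) :
    nrmG ρ (opA ρ R u) = (R.card : ℂ) • nrmG ρ u := by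
  unfold opA
  rw [LinearMap.sum_apply, map_sum, Finset.sum_congr rfl (fun r _ => nrmG_rho_apply ρ r u),
    Finset.sum_const, Nat.cast_smul_eq_nsmul]

theorem nrmG_opA'_apply (R : Finset G) (u : U) :
    nrmG ρ (opA' ρ R u) = (R.card : ℂ) • nrmG ρ u := by
  unfold opA'
  rw [LinearMap.sum_apply, map_sum, Finset.sum_congr rfl (fun r _ => nrmG_rho_apply ρ r⁻¹ u),
    Finset.sum_const, Nat.cast_smul_eq_nsmul]

theorem nrm_eq_sum_inv (K : Subgroup G) [Fintype K] : nrm ρ K = ∑ k : K, ρ (k : G)⁻¹ := by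
  unfold nrm
  refine Fintype.sum_equiv (Equiv.inv K) _ _ fun x => ?_
  simp

theorem sum_mem_eq_nrm (H : Subgroup G) [Fintype H] [DecidablePred (· ∈ H)] :
    ∑ g : G, (if g ∈ H then ρ g else 0) = nrm ρ H := by
  unfold nrm
  rw [← Finset.sum_filter]
  exact Finset.sum_subtype (Finset.univ.filter (fun g => g ∈ H)) (by simp) (fun g => ρ g)

variable (P H : Subgroup G) [Fintype P] [Fintype H]

/-- First decomposition of the norm. -/
theorem nrmG_eq (R : Finset G) (hR1 : ∀ r ∈ R, r ∉ H)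
    (hR2 : ∀ g : G, g ∉ H → ∃ y ∈ P, ∃ r ∈ R, ∃ h ∈ H, g = y * r * h)
    (hR3 : ∀ y ∈ P, ∀ r ∈ R, ∀ h ∈ H, ∀ y' ∈ P, ∀ r' ∈ R, ∀ h' ∈ H,
        y * r * h = y' * r' * h' → y = y' ∧ r = r' ∧ h = h') (hPH : P ≤ H) :
    nrmG ρ = nrm ρ H + nrm ρ P * opA ρ R * nrm ρ H := by
  classical
  have h1 : nrmG ρ = ∑ g : G, (if g ∈ H then ρ g else 0) + ∑ g : G, (if g ∈ H then 0 else ρ g) := by
    unfold nrmG
    rw [← Finset.sum_add_distrib]
    refine Finset.sum_congr rfl fun g _ => ?_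
    by_cases hg : g ∈ H <;> simp [hg]
  rw [h1, sum_mem_eq_nrm, sum_compl_eq P H R hR1 hR2 hR3 hPH]
  congr 1
  unfold nrm opA
  simp only [Finset.sum_mul, Finset.mul_sum, map_mul]
  exact sum_comm3 _ _ _ (fun (y : P) (r : G) (h : H) => ρ (y : G) * ρ r * ρ (h : G))

/-- Second decomposition of the norm (through inverses). -/
theorem nrmG_eq' (R : Finset G) (hR1 : ∀ r ∈ R, r ∉ H)
    (hR2 : ∀ g : G, g ∉ H → ∃ y ∈ P, ∃ r ∈ R, ∃ h ∈ H, g = y * r * h)
    (hR3 : ∀ y ∈ P, ∀ r ∈ R, ∀ h ∈ H, ∀ y' ∈ P, ∀ r' ∈ R, ∀ h' ∈ H,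
        y * r * h = y' * r' * h' → y = y' ∧ r = r' ∧ h = h') (hPH : P ≤ H) :
    nrmG ρ = nrm ρ H + nrm ρ H * opA' ρ R * nrm ρ P := by
  classical
  have h1 : nrmG ρ = ∑ g : G, (if g ∈ H then ρ g else 0) + ∑ g : G, (if g ∈ H then 0 else ρ g) := by
    unfold nrmG
    rw [← Finset.sum_add_distrib]
    refine Finset.sum_congr rfl fun g _ => ?_
    by_cases hg : g ∈ H <;> simp [hg]
  have h2 : ∑ g : G, (if g ∈ H then 0 else ρ g) = ∑ g : G, (if g ∈ H then 0 else ρ g⁻¹) := by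
    exact Fintype.sum_equiv (Equiv.inv G) (fun g => if g ∈ H then 0 else ρ g)
      (fun g => if g ∈ H then 0 else ρ g⁻¹) (fun g => by simp)
  rw [h1, sum_mem_eq_nrm, h2, sum_compl_eq P H R hR1 hR2 hR3 hPH]
  congr 1
  rw [nrm_eq_sum_inv ρ H, nrm_eq_sum_inv ρ P]
  unfold opA'
  simp only [Finset.sum_mul, Finset.mul_sum, mul_inv_rev, map_mul, mul_assoc]

end Ops

section Main

variable {U : Type*} [AddCommGroup U] [Module ℂ U]

/-- `H`-fixed vectors killed by the norm of `G`. -/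
def IsW0 (ρ : Representation ℂ G U) (H : Subgroup G) (v : U) : Prop :=
  (∀ h ∈ H, ρ h v = v) ∧ nrmG ρ v = 0

/-- The operators `Z_y = N_H α* y α`. -/
noncomputable def Zop (ρ : Representation ℂ G U) (H : Subgroup G) [Fintype H] (R : Finset G)
    (y : G) : Module.End ℂ U :=
  nrm ρ H * opA' ρ R * ρ y * opA ρ R

/-- The `ℤ`-span of the `G`-orbits of the values of `ξ`. -/
def latY {ι : Type*} (ρ : Representation ℂ G U) (ξ : ι → U) : Submodule ℤ U :=
  Submodule.span ℤ (Set.range fun t : G × ι => ρ t.1 (ξ t.2))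

/-- The image of `latY` under the norm of `H`. -/
def latX {ι : Type*} (ρ : Representation ℂ G U) (H : Subgroup G) [Fintype H] (ξ : ι → U) :
    Submodule ℤ U :=
  Submodule.span ℤ (Set.range fun t : G × ι => nrm ρ H (ρ t.1 (ξ t.2)))

variable (ρ : Representation ℂ G U)

theorem card_ne_zero' (K : Subgroup G) [Fintype K] : (Fintype.card K : ℂ) ≠ 0 :=
  Nat.cast_ne_zero.mpr Fintype.card_ne_zero

theorem rho_mem_latY {ι : Type*} (ξ : ι → U) (g : G) {w : U} (hw : w ∈ latY ρ ξ) :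
    ρ g w ∈ latY ρ ξ := by
  unfold latY at hw ⊢
  induction hw using Submodule.span_induction with
  | mem x hx =>
    obtain ⟨t, rfl⟩ := hx
    apply Submodule.subset_span
    exact ⟨(g * t.1, t.2), by simp [map_mul]⟩
  | zero => simp
  | add x y _ _ hx hy =>
    rw [map_add]
    exact Submodule.add_mem _ hx hy
  | smul a x _ hx =>
    rw [map_zsmul]
    exact Submodule.smul_mem _ a hx

theorem nrm_mem_latY {ι : Type*} (K : Subgroup G) [Fintype K] (ξ : ι → U) {w : U}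
    (hw : w ∈ latY ρ ξ) : nrm ρ K w ∈ latY ρ ξ := by
  unfold nrm
  rw [LinearMap.sum_apply]
  exact Submodule.sum_mem _ fun k _ => rho_mem_latY ρ ξ k hw

theorem opA_mem_latY {ι : Type*} (R : Finset G) (ξ : ι → U) {w : U}
    (hw : w ∈ latY ρ ξ) : opA ρ R w ∈ latY ρ ξ := by
  unfold opA
  rw [LinearMap.sum_apply]
  exact Submodule.sum_mem _ fun k _ => rho_mem_latY ρ ξ k hw

theorem opA'_mem_latY {ι : Type*} (R : Finset G) (ξ : ι → U) {w : U}
    (hw : w ∈ latY ρ ξ) : opA' ρ R w ∈ latY ρ ξ := by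
  unfold opA'
  rw [LinearMap.sum_apply]
  exact Submodule.sum_mem _ fun k _ => rho_mem_latY ρ ξ k⁻¹ hw

theorem nrm_mem_latX {ι : Type*} (H : Subgroup G) [Fintype H] (ξ : ι → U) {w : U}
    (hw : w ∈ latY ρ ξ) : nrm ρ H w ∈ latX ρ H ξ := by
  unfold latY at hw
  unfold latX
  induction hw using Submodule.span_induction with
  | mem x hx =>
    obtain ⟨t, rfl⟩ := hx
    exact Submodule.subset_span ⟨t, rfl⟩
  | zero => simp
  | add x y _ _ hx hy =>
    rw [map_add]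
    exact Submodule.add_mem _ hx hy
  | smul a x _ hx =>
    rw [map_zsmul]
    exact Submodule.smul_mem _ a hx

theorem latX_le_latY {ι : Type*} (H : Subgroup G) [Fintype H] (ξ : ι → U) :
    latX ρ H ξ ≤ latY ρ ξ := by
  apply Submodule.span_le.mpr
  rintro _ ⟨t, rfl⟩
  exact nrm_mem_latY ρ H ξ (Submodule.subset_span ⟨t, rfl⟩)

theorem Zop_mem_latX {ι : Type*} (H : Subgroup G) [Fintype H] (R : Finset G) (y : G)
    (ξ : ι → U) {x : U} (hx : x ∈ latX ρ H ξ) : Zop ρ H R y x ∈ latX ρ H ξ := by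
  unfold Zop
  simp only [Module.End.mul_apply]
  exact nrm_mem_latX ρ H ξ (opA'_mem_latY ρ R ξ (rho_mem_latY ρ ξ y
    (opA_mem_latY ρ R ξ (latX_le_latY ρ H ξ hx))))

theorem latX_isW0 {ι : Type*} (H : Subgroup G) [Fintype H] (ξ : ι → U)
    (hξ : ∀ i, IsW0 ρ H (ξ i)) {x : U} (hx : x ∈ latX ρ H ξ) : IsW0 ρ H x := by
  unfold latX at hx
  induction hx using Submodule.span_induction with
  | mem x hx =>
    obtain ⟨t, rfl⟩ := hx
    refine ⟨fun h hh => rho_nrm_apply ρ H _ h hh, ?_⟩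
    rw [nrmG_nrm_apply, nrmG_rho_apply, (hξ t.2).2, smul_zero]
  | zero => exact ⟨fun h _ => map_zero _, map_zero _⟩
  | add x y _ _ hx hy =>
    exact ⟨fun h hh => by rw [map_add, hx.1 h hh, hy.1 h hh], by rw [map_add, hx.2, hy.2, add_zero]⟩
  | smul a x _ hx =>
    exact ⟨fun h hh => by rw [map_zsmul, hx.1 h hh], by rw [map_zsmul, hx.2, smul_zero]⟩

variable (P H : Subgroup G) [Fintype P] [Fintype H]

theorem F1 (R : Finset G) (hR1 : ∀ r ∈ R, r ∉ H)
    (hR2 : ∀ g : G, g ∉ H → ∃ y ∈ P, ∃ r ∈ R, ∃ h ∈ H, g = y * r * h)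
    (hR3 : ∀ y ∈ P, ∀ r ∈ R, ∀ h ∈ H, ∀ y' ∈ P, ∀ r' ∈ R, ∀ h' ∈ H,
        y * r * h = y' * r' * h' → y = y' ∧ r = r' ∧ h = h') (hPH : P ≤ H)
    {v : U} (hv : IsW0 ρ H v) : nrm ρ P (opA ρ R v) = -v := by
  have h1 := congrArg (fun f : Module.End ℂ U => f v) (nrmG_eq ρ P H R hR1 hR2 hR3 hPH)
  simp only [LinearMap.add_apply, Module.End.mul_apply] at h1
  rw [hv.2, nrm_apply_fixed ρ H hv.1, map_smul, map_smul] at h1
  have h2 : (Fintype.card H : ℂ) • (v + nrm ρ P (opA ρ R v)) = 0 := by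
    rw [smul_add]
    exact h1.symm
  have h3 := (smul_eq_zero.mp h2).resolve_left (card_ne_zero' H)
  exact eq_neg_of_add_eq_zero_right h3

theorem F2 (R : Finset G) (hR1 : ∀ r ∈ R, r ∉ H)
    (hR2 : ∀ g : G, g ∉ H → ∃ y ∈ P, ∃ r ∈ R, ∃ h ∈ H, g = y * r * h)
    (hR3 : ∀ y ∈ P, ∀ r ∈ R, ∀ h ∈ H, ∀ y' ∈ P, ∀ r' ∈ R, ∀ h' ∈ H,
        y * r * h = y' * r' * h' → y = y' ∧ r = r' ∧ h = h') (hPH : P ≤ H)
    {w : U} (hw : nrmG ρ w = 0) : nrm ρ H (opA' ρ R (nrm ρ P w)) = - nrm ρ H w := by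
  have h1 := congrArg (fun f : Module.End ℂ U => f w) (nrmG_eq' ρ P H R hR1 hR2 hR3 hPH)
  simp only [LinearMap.add_apply, Module.End.mul_apply] at h1
  rw [hw] at h1
  exact eq_neg_of_add_eq_zero_right h1.symm

theorem sum_Zop (R : Finset G) (hR1 : ∀ r ∈ R, r ∉ H)
    (hR2 : ∀ g : G, g ∉ H → ∃ y ∈ P, ∃ r ∈ R, ∃ h ∈ H, g = y * r * h)
    (hR3 : ∀ y ∈ P, ∀ r ∈ R, ∀ h ∈ H, ∀ y' ∈ P, ∀ r' ∈ R, ∀ h' ∈ H,
        y * r * h = y' * r' * h' → y = y' ∧ r = r' ∧ h = h') (hPH : P ≤ H)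
    (c : ℕ) (hcard : Fintype.card H = Fintype.card P * c) {v : U} (hv : IsW0 ρ H v) :
    ∑ y : P, Zop ρ H R (y : G) v = (c : ℂ) • v := by
  have hPfix : ∀ y ∈ P, ρ y v = v := fun y hy => hv.1 y (hPH hy)
  have h1 : ∑ y : P, Zop ρ H R (y : G) v = nrm ρ H (opA' ρ R (nrm ρ P (opA ρ R v))) := by
    unfold Zop
    simp only [Module.End.mul_apply]
    rw [← map_sum, ← map_sum]
    congr 2
    unfold nrm
    rw [LinearMap.sum_apply]
  rw [h1, F1 ρ P H R hR1 hR2 hR3 hPH hv, map_neg, map_neg]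
  have h2 := F2 ρ P H R hR1 hR2 hR3 hPH hv.2
  rw [nrm_apply_fixed ρ P hPfix, map_smul, map_smul, nrm_apply_fixed ρ H hv.1] at h2
  have hP0 := card_ne_zero' P
  apply smul_right_injective U hP0
  simp only
  rw [smul_neg, h2, neg_neg, hcard]
  push_cast
  rw [mul_smul]

theorem key (R : Finset G) (ξ : P → U) (hΦ : ∑ y : P, ρ (y : G) (opA ρ R (ξ y)) = 0) (y' : P) :
    ∑ y₀ : P, Zop ρ H R (y₀ : G) (ξ (y' * y₀)) = 0 := by
  have h1 : ∑ y₀ : P, Zop ρ H R (y₀ : G) (ξ (y' * y₀))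
      = ∑ y : P, Zop ρ H R ((y'⁻¹ * y : P) : G) (ξ y) := by
    refine Fintype.sum_equiv (Equiv.mulLeft y') (fun y₀ : P => Zop ρ H R (y₀ : G) (ξ (y' * y₀)))
      (fun y : P => Zop ρ H R ((y'⁻¹ * y : P) : G) (ξ y)) fun y₀ => ?_
    simp
  rw [h1]
  have h2 : ∀ y : P, Zop ρ H R ((y'⁻¹ * y : P) : G) (ξ y)
      = nrm ρ H (opA' ρ R (ρ (y' : G)⁻¹ (ρ (y : G) (opA ρ R (ξ y))))) := by
    intro y
    unfold Zop
    simp only [Module.End.mul_apply, Subgroup.coe_mul, InvMemClass.coe_inv, map_mul]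
  rw [Finset.sum_congr rfl (fun y _ => h2 y), ← map_sum, ← map_sum, ← map_sum, hΦ, map_zero,
    map_zero, map_zero]

theorem isTorsionFree_int (X : Submodule ℤ U) : Module.IsTorsionFree ℤ X := by
  have h1 : Module.IsTorsionFree ℤ U := by
    refine Module.IsTorsionFree.comap (S := ℂ) (fun n : ℤ => (n : ℂ)) ?_ ?_
    · intro r hr
      rw [isRegular_iff_ne_zero] at hr ⊢
      exact_mod_cast hr
    · intro r m
      exact Int.cast_smul_eq_zsmul ℂ r m
  infer_instance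

/-- Injectivity of `ξ ↦ ∑ y, y α ξ(y)` on `W₀`-valued functions on `P`. -/
theorem inj (p : ℕ) [Fact p.Prime] (hP : IsPGroup p P) (R : Finset G) (hR1 : ∀ r ∈ R, r ∉ H)
    (hR2 : ∀ g : G, g ∉ H → ∃ y ∈ P, ∃ r ∈ R, ∃ h ∈ H, g = y * r * h)
    (hR3 : ∀ y ∈ P, ∀ r ∈ R, ∀ h ∈ H, ∀ y' ∈ P, ∀ r' ∈ R, ∀ h' ∈ H,
        y * r * h = y' * r' * h' → y = y' ∧ r = r' ∧ h = h') (hPH : P ≤ H)
    (c : ℕ) (hcard : Fintype.card H = Fintype.card P * c) (hc : ¬ p ∣ c)
    (ξ : P → U) (hξ : ∀ y, IsW0 ρ H (ξ y))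
    (hΦ : ∑ y : P, ρ (y : G) (opA ρ R (ξ y)) = 0) : ∀ y, ξ y = 0 := by
  classical
  obtain ⟨X, hX⟩ : ∃ X : Submodule ℤ U, X = latX ρ H ξ := ⟨_, rfl⟩
  have hfinX : Module.Finite ℤ X := by
    rw [hX]
    exact Module.Finite.span_of_finite ℤ (Set.finite_range _)
  have htf : Module.IsTorsionFree ℤ X := isTorsionFree_int X
  obtain ⟨n, b⟩ := Module.basisOfFiniteTypeTorsionFree' (R := ℤ) (M := X)
  have hZmem : ∀ (y : P) (x : U), x ∈ X → ((Zop ρ H R (y : G)).restrictScalars ℤ) x ∈ X := by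
    intro y x hx
    rw [hX] at hx ⊢
    exact Zop_mem_latX ρ H R y ξ hx
  obtain ⟨Zl, hZl⟩ : ∃ Zl : P → (X →ₗ[ℤ] X),
      ∀ (y : P) (x : X), ((Zl y x : X) : U) = Zop ρ H R (y : G) (x : U) :=
    ⟨fun y => ((Zop ρ H R (y : G)).restrictScalars ℤ).restrict (hZmem y), fun y x => rfl⟩
  have hξmem : ∀ y : P, nrm ρ H (ξ y) ∈ X := by
    intro y
    rw [hX]
    apply Submodule.subset_span
    exact ⟨(1, y), by simp⟩
  have hXW0 : ∀ x : X, IsW0 ρ H (x : U) := by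
    intro x
    have hle : X ≤ latX ρ H ξ := le_of_eq hX
    exact latX_isW0 ρ H ξ hξ (hle x.2)
  obtain ⟨ξ', hξ'⟩ : ∃ ξ' : P → X, ∀ y, ((ξ' y : X) : U) = nrm ρ H (ξ y) :=
    ⟨fun y => ⟨nrm ρ H (ξ y), hξmem y⟩, fun y => rfl⟩
  obtain ⟨A, hAdef⟩ : ∃ A : P → Fin n → Fin n → ℤ, ∀ y k j, A y k j = b.repr (Zl y (b j)) k :=
    ⟨fun y k j => b.repr (Zl y (b j)) k, fun _ _ _ => rfl⟩
  obtain ⟨x, hxdef⟩ : ∃ x : P → Fin n → ℤ, ∀ y j, x y j = b.repr (ξ' y) j :=
    ⟨fun y j => b.repr (ξ' y) j, fun _ _ => rfl⟩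
  have hrepr : ∀ (y : P) (w : X) (k : Fin n),
      b.repr (Zl y w) k = ∑ j, A y k j * b.repr w j := by
    intro y w k
    conv_lhs => rw [← b.sum_repr w]
    rw [map_sum, map_sum, Finsupp.finsetSum_apply]
    refine Finset.sum_congr rfl fun j _ => ?_
    rw [map_smul, map_smul, Finsupp.smul_apply, smul_eq_mul, mul_comm, hAdef]
  have hsol : PModMatrix.IsSol A x := by
    intro y' k
    have h1 : ∑ y₀ : P, Zl y₀ (ξ' (y' * y₀)) = 0 := by
      apply Subtype.ext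
      rw [AddSubmonoidClass.coe_finsetSum]
      simp only [hZl, hξ']
      have h2 : ∀ y₀ : P, Zop ρ H R (y₀ : G) (nrm ρ H (ξ (y' * y₀)))
          = (Fintype.card H : ℂ) • Zop ρ H R (y₀ : G) (ξ (y' * y₀)) := by
        intro y₀
        rw [nrm_apply_fixed ρ H (hξ _).1, map_smul]
      rw [Finset.sum_congr rfl (fun y₀ _ => h2 y₀), ← Finset.smul_sum, key ρ P H R ξ hΦ y',
        smul_zero]
      rfl
    have h3 := congrArg (fun w : X => b.repr w k) h1
    simp only [map_sum, Finsupp.finsetSum_apply, map_zero, Finsupp.zero_apply] at h3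
    rw [← h3]
    refine Finset.sum_congr rfl fun y₀ _ => ?_
    rw [hrepr y₀ (ξ' (y' * y₀)) k]
    refine Finset.sum_congr rfl fun j _ => ?_
    rw [hxdef]
  have hA : ∀ k j, ∑ y : P, A y k j = if k = j then (c : ℤ) else 0 := by
    intro k j
    have h1 : ∑ y : P, Zl y (b j) = (c : ℤ) • b j := by
      apply Subtype.ext
      rw [AddSubmonoidClass.coe_finsetSum]
      simp only [hZl]
      rw [sum_Zop ρ P H R hR1 hR2 hR3 hPH c hcard (hXW0 (b j)), Submodule.coe_smul,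
        Nat.cast_smul_eq_nsmul, natCast_zsmul]
    have h3 := congrArg (fun w : X => b.repr w k) h1
    simp only [map_sum, Finsupp.finsetSum_apply, map_smul, Finsupp.smul_apply,
      Module.Basis.repr_self, Finsupp.single_apply, smul_eq_mul] at h3
    rw [Finset.sum_congr rfl (fun y _ => hAdef y k j), h3]
    by_cases hkj : k = j
    · subst hkj
      simp
    · have : ¬ j = k := fun h => hkj h.symm
      simp [hkj, this]
  have hx0 := PModMatrix.sol_int_eq_zero p hP A (c : ℤ)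
    (by exact_mod_cast hc : ¬ (p : ℤ) ∣ (c : ℤ)) hA x hsol
  intro y
  have h1 : b.repr (ξ' y) = 0 := by
    ext j
    rw [← hxdef, hx0]
    rfl
  have h2 : ξ' y = 0 := by simpa using h1
  have h3 : nrm ρ H (ξ y) = 0 := by
    rw [← hξ', h2]
    rfl
  rw [nrm_apply_fixed ρ H (hξ y).1] at h3
  exact (smul_eq_zero.mp h3).resolve_left (card_ne_zero' H)

end Main

section Final

variable {U : Type*} [AddCommGroup U] [Module ℂ U]

/-- **Main theorem.**  `P ≤ H ≤ G`, `P` a `p`-group with `p ∤ |H : P|` meeting `g H g⁻¹` trivially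
for `g ∉ H`.  If `ρ` has dimension at most `|P|` and a nonzero `G`-fixed vector, every `H`-fixed
vector is `G`-fixed. -/
theorem fixed_of_fixed [FiniteDimensional ℂ U] (p : ℕ) [Fact p.Prime]
    (ρ : Representation ℂ G U) (P H : Subgroup G) (hPH : P ≤ H) (hP : IsPGroup p P) (c : ℕ)
    (hcard : Nat.card H = Nat.card P * c) (hc : ¬ p ∣ c)
    (hfree : ∀ g : G, g ∉ H → ∀ y ∈ P, g⁻¹ * y * g ∈ H → y = 1)
    (hdim : Module.finrank ℂ U ≤ Nat.card P)
    (u₀ : U) (hu₀ : u₀ ≠ 0) (hu₀fix : ∀ g, ρ g u₀ = u₀)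
    (v : U) (hv : ∀ h ∈ H, ρ h v = v) : ∀ g, ρ g v = v := by
  classical
  have hfP : Fintype P := Fintype.ofFinite P
  have hfH : Fintype H := Fintype.ofFinite H
  obtain ⟨R, hR1, hR2, hR3⟩ := exists_reps P H hPH hfree
  have hcard' : Fintype.card H = Fintype.card P * c := by
    rw [← Nat.card_eq_fintype_card, ← Nat.card_eq_fintype_card]
    exact hcard
  have hG0 : (Fintype.card G : ℂ) ≠ 0 := Nat.cast_ne_zero.mpr Fintype.card_ne_zero
  obtain ⟨v', hv'⟩ : ∃ v' : U, v' = (Fintype.card G : ℂ) • v - nrmG ρ v := ⟨_, rfl⟩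
  have hNN : nrmG ρ (nrmG ρ v) = (Fintype.card G : ℂ) • nrmG ρ v :=
    nrmG_apply_fixed ρ (fun g => rho_nrmG_apply ρ g v)
  have hW : IsW0 ρ H v' := by
    refine ⟨fun h hh => ?_, ?_⟩
    · rw [hv', map_sub, map_smul, hv h hh, rho_nrmG_apply]
    · rw [hv', map_sub, map_smul, hNN, sub_self]
  have hv'0 : v' = 0 := by
    by_contra hne
    have hli : LinearIndependent ℂ
        (fun i : Option P => Option.elim i u₀ (fun y => ρ (y : G) (opA ρ R v'))) := by
      rw [Fintype.linearIndependent_iff]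
      intro g hg
      rw [Fintype.sum_option] at hg
      simp only [Option.elim] at hg
      have h1 := congrArg (nrmG ρ) hg
      rw [map_add, map_smul, map_sum, map_zero, nrmG_apply_fixed ρ hu₀fix] at h1
      have h2 : ∀ y : P, nrmG ρ (g (some y) • ρ (y : G) (opA ρ R v')) = 0 := by
        intro y
        rw [map_smul, nrmG_rho_apply, nrmG_opA_apply, hW.2, smul_zero, smul_zero]
      rw [Finset.sum_congr rfl (fun y _ => h2 y), Finset.sum_const_zero, add_zero, smul_smul] at h1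
      have hg0 : g none = 0 := by
        rcases smul_eq_zero.mp h1 with h | h
        · exact (mul_eq_zero.mp h).resolve_right hG0
        · exact absurd h hu₀
      rw [hg0, zero_smul, zero_add] at hg
      have hΦ : ∑ y : P, ρ (y : G) (opA ρ R (g (some y) • v')) = 0 := by
        rw [← hg]
        refine Finset.sum_congr rfl fun y _ => ?_
        rw [map_smul, map_smul]
      have hξ : ∀ y : P, IsW0 ρ H (g (some y) • v') := fun y =>
        ⟨fun h hh => by rw [map_smul, hW.1 h hh], by rw [map_smul, hW.2, smul_zero]⟩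
      have h3 := inj ρ P H p hP R hR1 hR2 hR3 hPH c hcard' hc (fun y => g (some y) • v') hξ hΦ
      intro i
      cases i with
      | none => exact hg0
      | some y => exact (smul_eq_zero.mp (h3 y)).resolve_right hne
    have h4 := hli.fintype_card_le_finrank
    rw [Fintype.card_option] at h4
    have h5 : Fintype.card P = Nat.card P := (Nat.card_eq_fintype_card).symm
    omega
  intro g
  have h5 : (Fintype.card G : ℂ) • v = nrmG ρ v := by
    rw [hv'] at hv'0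
    exact sub_eq_zero.mp hv'0
  have h6 : (Fintype.card G : ℂ) • ρ g v = (Fintype.card G : ℂ) • v := by
    rw [← map_smul, h5, rho_nrmG_apply]
  exact smul_right_injective U hG0 h6

end Final

end Cfsg.Agent.Lib.Helper74.TIRep
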