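import Mathlib
import Cfsg.Prelude.Def_Characters
import Cfsg.Agent.Lib.Helper74.TIRep
import Cfsg.Agent.Lib.Helper3.Spectral

/-!
# Trivial intersection Sylow subgroups and commutants of small representations

If `P` is a TI Sylow `p`-subgroup of `G`, `H ≥ N_G(P)` and `ρ` is a complex representation of `G`
with `(dim ρ)² ≤ |P|`, then every endomorphism commuting with `ρ(H)` commutes with `ρ(G)`
(`commute_of_TI`), and hence `(χ, χ)_G = (χ_H, χ_H)_H` (`classInner_eq_of_TI`).
-/

set_option autoImplicit false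

namespace Cfsg.Agent.Lib.Helper74.TIChar

open Cfsg
open scoped ComplexConjugate Pointwise

variable {G : Type*} [Group G]

/-- For a TI Sylow subgroup `P` and `H ≥ N_G(P)`: `P ∩ g H g⁻¹ = 1` for `g ∉ H`. -/
theorem free_of_TI [Finite G] (p : ℕ) [Fact p.Prime] (P : Sylow p G)
    (hTI : ∀ g : G, g ∉ Subgroup.normalizer ((P : Subgroup G) : Set G) →
      (P : Subgroup G) ⊓ (MulAut.conj g • (P : Subgroup G)) = ⊥)
    (H : Subgroup G) (hH : Subgroup.normalizer ((P : Subgroup G) : Set G) ≤ H) :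
    ∀ g : G, g ∉ H → ∀ y ∈ (P : Subgroup G), g⁻¹ * y * g ∈ H → y = 1 := by
  intro g hg y hy hy'
  have hPH : (P : Subgroup G) ≤ H := Subgroup.le_normalizer.trans hH
  obtain ⟨k, hk⟩ := P.isPGroup' ⟨y, hy⟩
  have hk' : y ^ p ^ k = 1 := by
    have := congrArg Subtype.val hk
    simpa using this
  -- the conjugate as an element of H
  obtain ⟨y', hy'def⟩ : ∃ y' : H, (y' : G) = g⁻¹ * y * g := ⟨⟨_, hy'⟩, rfl⟩
  have hy'pow : y' ^ p ^ k = 1 := by
    apply Subtype.ext
    have e : g⁻¹ * y * g = g⁻¹ * y * (g⁻¹)⁻¹ := by rw [inv_inv]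
    rw [Subgroup.coe_pow, hy'def, e, conj_pow, hk']
    simp
  have hpg : IsPGroup p (Subgroup.zpowers y') := by
    rintro ⟨z, hz⟩
    obtain ⟨m, rfl⟩ := Subgroup.mem_zpowers_iff.mp hz
    refine ⟨k, ?_⟩
    apply Subtype.ext
    change (y' ^ m) ^ p ^ k = 1
    rw [← zpow_natCast, ← zpow_mul, mul_comm, zpow_mul, zpow_natCast, hy'pow, one_zpow]
  obtain ⟨Q, hQ⟩ := hpg.exists_le_sylow
  obtain ⟨h, hh⟩ := MulAction.exists_smul_eq H (P.subtype hPH) Q
  have hmem : y' ∈ (Q : Subgroup H) := hQ (Subgroup.mem_zpowers y')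
  rw [← hh, Sylow.coe_subgroup_smul, Subgroup.mem_pointwise_smul_iff_inv_smul_mem] at hmem
  have hmem' : ((h⁻¹ * y' * h : H) : G) ∈ (P : Subgroup G) := by
    have h1 : (MulAut.conj h)⁻¹ • y' = h⁻¹ * y' * h := by
      rw [← map_inv, MulAut.smul_def, MulAut.conj_apply, inv_inv]
    rw [h1, Sylow.coe_subtype, Subgroup.mem_subgroupOf] at hmem
    exact hmem
  have hgh : g * (h : G) ∉ Subgroup.normalizer ((P : Subgroup G) : Set G) := by
    intro hmemN
    apply hg
    have h2 : g = g * (h : G) * (h : G)⁻¹ := by group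
    rw [h2]
    exact H.mul_mem (hH hmemN) (H.inv_mem h.2)
  have h3 := hTI (g * (h : G)) hgh
  have h4 : y ∈ (P : Subgroup G) ⊓ (MulAut.conj (g * (h : G)) • (P : Subgroup G)) := by
    refine Subgroup.mem_inf.mpr ⟨hy, ?_⟩
    rw [Subgroup.mem_pointwise_smul_iff_inv_smul_mem]
    have h5 : (MulAut.conj (g * (h : G)))⁻¹ • y = ((h⁻¹ * y' * h : H) : G) := by
      rw [← map_inv, MulAut.smul_def, MulAut.conj_apply, inv_inv, Subgroup.coe_mul,
        Subgroup.coe_mul, hy'def, InvMemClass.coe_inv]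
      group
    rw [h5]
    exact hmem'
  rw [h3] at h4
  exact Subgroup.mem_bot.mp h4

/-- The index of a Sylow subgroup in an overgroup is prime to `p`. -/
theorem card_eq_of_sylow [Finite G] (p : ℕ) [Fact p.Prime] (P : Sylow p G) (H : Subgroup G)
    (hPH : (P : Subgroup G) ≤ H) :
    ∃ c : ℕ, Nat.card H = Nat.card (P : Subgroup G) * c ∧ ¬ p ∣ c := by
  refine ⟨(P : Subgroup G).relIndex H, ?_, ?_⟩
  · have h1 := Subgroup.card_mul_index ((P : Subgroup G).subgroupOf H)
    have h2 : Nat.card ((P : Subgroup G).subgroupOf H) = Nat.card (P : Subgroup G) :=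
      Nat.card_congr (Subgroup.subgroupOfEquivOfLe hPH).toEquiv
    rw [h2] at h1
    exact h1.symm
  · intro hdvd
    apply P.not_dvd_index
    rw [← Subgroup.relIndex_mul_index hPH]
    exact Dvd.dvd.mul_right hdvd _

section Rep

variable {V : Type*} [AddCommGroup V] [Module ℂ V] [FiniteDimensional ℂ V]

/-- Commutant form: over a subgroup `H ≥ N_G(P)` for a TI Sylow subgroup `P` with
`(dim V)² ≤ |P|`, endomorphisms commuting with `H` commute with `G`. -/
theorem commute_of_TI [Finite G] (p : ℕ) [Fact p.Prime] (P : Sylow p G)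
    (hTI : ∀ g : G, g ∉ Subgroup.normalizer ((P : Subgroup G) : Set G) →
      (P : Subgroup G) ⊓ (MulAut.conj g • (P : Subgroup G)) = ⊥)
    (H : Subgroup G) (hH : Subgroup.normalizer ((P : Subgroup G) : Set G) ≤ H)
    (ρ : Representation ℂ G V)
    (hdeg : Module.finrank ℂ V ^ 2 ≤ Nat.card (P : Subgroup G))
    (f : V →ₗ[ℂ] V) (hf : ∀ h ∈ H, ρ h ∘ₗ f = f ∘ₗ ρ h) : ∀ g : G, ρ g ∘ₗ f = f ∘ₗ ρ g := by
  classical
  have hFG : Fintype G := Fintype.ofFinite G
  have hPH : (P : Subgroup G) ≤ H := Subgroup.le_normalizer.trans hH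
  obtain ⟨c, hcard, hc⟩ := card_eq_of_sylow p P H hPH
  have hfree := free_of_TI p P hTI H hH
  have hconj : ∀ (g : G) (f : V →ₗ[ℂ] V),
      (Representation.linHom ρ ρ) g f = f ↔ ρ g ∘ₗ f = f ∘ₗ ρ g := by
    intro g f
    rw [Representation.linHom_apply]
    have hinv : ρ g⁻¹ ∘ₗ ρ g = LinearMap.id := by
      rw [← Module.End.mul_eq_comp, ← map_mul, inv_mul_cancel, map_one]
      rfl
    have hinv' : ρ g ∘ₗ ρ g⁻¹ = LinearMap.id := by
      rw [← Module.End.mul_eq_comp, ← map_mul, mul_inv_cancel, map_one]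
      rfl
    constructor
    · intro h
      calc ρ g ∘ₗ f = ρ g ∘ₗ f ∘ₗ (ρ g⁻¹ ∘ₗ ρ g) := by rw [hinv, LinearMap.comp_id]
        _ = (ρ g ∘ₗ f ∘ₗ ρ g⁻¹) ∘ₗ ρ g := by simp only [LinearMap.comp_assoc]
        _ = f ∘ₗ ρ g := by rw [h]
    · intro h
      calc ρ g ∘ₗ f ∘ₗ ρ g⁻¹ = (ρ g ∘ₗ f) ∘ₗ ρ g⁻¹ := by simp only [LinearMap.comp_assoc]
        _ = f ∘ₗ (ρ g ∘ₗ ρ g⁻¹) := by rw [h, LinearMap.comp_assoc]
        _ = f := by rw [hinv', LinearMap.comp_id]
  intro g
  rw [← hconj]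
  by_cases hV : Subsingleton V
  · apply LinearMap.ext
    intro v
    exact Subsingleton.elim _ _
  · rw [not_subsingleton_iff_nontrivial] at hV
    have hid0 : (LinearMap.id : V →ₗ[ℂ] V) ≠ 0 := by
      intro h0
      obtain ⟨v, hv⟩ := exists_ne (0 : V)
      apply hv
      have := congrArg (fun f : V →ₗ[ℂ] V => f v) h0
      simpa using this
    have hdim : Module.finrank ℂ (V →ₗ[ℂ] V) ≤ Nat.card (P : Subgroup G) := by
      rw [Module.finrank_linearMap, ← sq]
      exact hdeg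
    exact Cfsg.Agent.Lib.Helper74.TIRep.fixed_of_fixed p (Representation.linHom ρ ρ)
      (P : Subgroup G) H hPH P.isPGroup' c hcard hc hfree hdim LinearMap.id hid0
      (fun g => (hconj g LinearMap.id).mpr (by rw [LinearMap.comp_id, LinearMap.id_comp]))
      f (fun h hh => (hconj h f).mpr (hf h hh)) g

/-- `(χ, χ)` is the dimension of the commutant. -/
theorem classInner_eq_finrank [Fintype G] (ρ : Representation ℂ G V) :
    classInner ρ.character ρ.character
      = (Module.finrank ℂ (Representation.invariants (Representation.linHom ρ ρ)) : ℂ) := by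
  have hinv : Invertible (Nat.card G : ℂ) :=
    invertibleOfNonzero (Nat.cast_ne_zero.mpr Nat.card_pos.ne')
  rw [← Representation.card_inv_mul_sum_char_eq_finrank]
  unfold classInner
  congr 1
  refine Finset.sum_congr rfl fun g _ => ?_
  rw [Representation.char_linHom, Cfsg.Agent.Lib.Helper3.Spectral.char_inv, mul_comm]

/-- TI Sylow subgroup `P`, `H ≥ N_G(P)`, `(dim ρ)² ≤ |P|`: `(χ, χ)_G = (χ_H, χ_H)_H`. -/
theorem classInner_eq_of_TI [Fintype G] (p : ℕ) [Fact p.Prime] (P : Sylow p G)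
    (hTI : ∀ g : G, g ∉ Subgroup.normalizer ((P : Subgroup G) : Set G) →
      (P : Subgroup G) ⊓ (MulAut.conj g • (P : Subgroup G)) = ⊥)
    (H : Subgroup G) [Fintype H] (hH : Subgroup.normalizer ((P : Subgroup G) : Set G) ≤ H)
    (ρ : Representation ℂ G V)
    (hdeg : Module.finrank ℂ V ^ 2 ≤ Nat.card (P : Subgroup G)) :
    classInner ρ.character ρ.character
      = classInner (fun h : H => ρ.character h) (fun h : H => ρ.character h) := by
  obtain ⟨ρH, hρH⟩ : ∃ ρH : Representation ℂ H V, ∀ h : H, ρH h = ρ (h : G) :=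
    ⟨ρ.comp H.subtype, fun h => rfl⟩
  have hchar : (fun h : H => ρ.character h) = ρH.character := by
    funext h
    unfold Representation.character
    rw [hρH]
  rw [hchar, classInner_eq_finrank ρ, classInner_eq_finrank ρH]
  have hsub : Representation.invariants (Representation.linHom ρ ρ)
      = Representation.invariants (Representation.linHom ρH ρH) := by
    ext f
    rw [Representation.mem_invariants, Representation.mem_invariants]
    constructor
    · intro hf h
      have := hf (h : G)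
      rw [Representation.linHom_apply] at this ⊢
      rw [hρH, hρH]
      exact this
    · intro hf
      have hcomm : ∀ h ∈ H, ρ h ∘ₗ f = f ∘ₗ ρ h := by
        intro h hh
        have h1 := hf ⟨h, hh⟩
        rw [Representation.linHom_apply, hρH, hρH] at h1
        have h2 : ρ h⁻¹ ∘ₗ ρ h = LinearMap.id := by
          rw [← Module.End.mul_eq_comp, ← map_mul, inv_mul_cancel, map_one]
          rfl
        calc ρ h ∘ₗ f = ρ h ∘ₗ f ∘ₗ (ρ h⁻¹ ∘ₗ ρ h) := by rw [h2, LinearMap.comp_id]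
          _ = (ρ h ∘ₗ f ∘ₗ ρ h⁻¹) ∘ₗ ρ h := by simp only [LinearMap.comp_assoc]
          _ = f ∘ₗ ρ h := by
            have h3 : ρ h ∘ₗ f ∘ₗ ρ h⁻¹ = f := h1
            rw [h3]
      have hall := commute_of_TI p P hTI H hH ρ hdeg f hcomm
      intro g
      rw [Representation.linHom_apply]
      have h2 : ρ g ∘ₗ ρ g⁻¹ = LinearMap.id := by
        rw [← Module.End.mul_eq_comp, ← map_mul, mul_inv_cancel, map_one]
        rfl
      calc ρ g ∘ₗ f ∘ₗ ρ g⁻¹ = (ρ g ∘ₗ f) ∘ₗ ρ g⁻¹ := by simp only [LinearMap.comp_assoc]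
        _ = f ∘ₗ (ρ g ∘ₗ ρ g⁻¹) := by rw [hall g, LinearMap.comp_assoc]
        _ = f := by rw [h2, LinearMap.comp_id]
  rw [hsub]

end Rep

end Cfsg.Agent.Lib.Helper74.TIChar
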